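import Cfsg.Agent.Lib.SymLocalFive.Grade

/-!
# Graded symmetric algebras with three generators whose commutators fill degree two
-/

set_option autoImplicit false
set_option linter.unusedSectionVars false

namespace CfsgLib.SymLocalFive

open Module Submodule

variable {k S : Type*} [Field k] [Ring S] [Algebra k S]

/-- The span of the commutators between two subspaces. -/
def commSub (A B : Submodule k S) : Submodule k S :=
  span k {z | ∃ a ∈ A, ∃ b ∈ B, z = a * b - b * a}

theorem commSub_span_le {s : Set S} {B : Submodule k S} {t : Set S} (hB : B ≤ span k t)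
    {W : Submodule k S} (h : ∀ a ∈ s, ∀ b ∈ t, a * b - b * a ∈ W) :
    commSub (span k s) B ≤ W := by
  refine span_le.2 ?_
  rintro _ ⟨a, ha, b, hb, rfl⟩
  have hb' := hB hb
  clear hb
  induction ha using Submodule.span_induction with
  | mem a ha =>
    induction hb' using Submodule.span_induction with
    | mem b hb => exact h a ha b hb
    | zero => simp
    | add x y _ _ h1 h2 =>
      show a * (x + y) - (x + y) * a ∈ W
      rw [show a * (x + y) - (x + y) * a = (a * x - x * a) + (a * y - y * a) by noncomm_ring]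
      exact add_mem h1 h2
    | smul r x _ h1 =>
      show a * (r • x) - (r • x) * a ∈ W
      rw [mul_smul_comm, smul_mul_assoc, ← smul_sub]; exact W.smul_mem r h1
  | zero => simp
  | add x y _ _ h1 h2 =>
    show (x + y) * b - b * (x + y) ∈ W
    rw [show (x + y) * b - b * (x + y) = (x * b - b * x) + (y * b - b * y) by noncomm_ring]
    exact add_mem h1 h2
  | smul r x _ h1 =>
    show (r • x) * b - b * (r • x) ∈ W
    rw [smul_mul_assoc, mul_smul_comm, ← smul_sub]; exact W.smul_mem r h1

/-- Three generators whose commutators span degree two, and the top degree is at least six. -/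
structure Base (D : GSym k S) : Prop where
  hN : 6 ≤ D.N
  h1 : finrank k (D.g 1) = 3
  h2 : D.g 2 ≤ commSub (D.g 1) (D.g 1)

namespace Base

variable [FiniteDimensional k S] {D : GSym k S} (hD : Base D)

theorem op (hD : Base D) : Base D.op where
  hN := hD.hN
  h1 := (D.finrank_op 1).trans hD.h1
  h2 := by
    refine (Submodule.map_mono hD.h2).trans ?_
    rw [commSub, Submodule.map_span, span_le]
    rintro _ ⟨_, ⟨a, ha, b, hb, rfl⟩, rfl⟩
    refine subset_span ⟨MulOpposite.op b, D.op_mem.2 hb, MulOpposite.op a, D.op_mem.2 ha, ?_⟩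
    simp

include hD

theorem finrank_g_ge {i : ℕ} (h1 : 1 ≤ i) (h2 : i + 1 ≤ D.N) : 2 ≤ finrank k (D.g i) :=
  D.two_le_finrank h1 h2 (by rw [hD.h1]; omega)

theorem g1_eq {a b c : S} (ha : a ∈ D.g 1) (hb : b ∈ D.g 1) (hc : c ∈ D.g 1)
    (h : LinearIndependent k ![a, b, c]) : D.g 1 = span k ({a, b, c} : Set S) :=
  le_span_triple hD.h1.le ha hb hc h

theorem g2_le {a b c : S} (ha : a ∈ D.g 1) (hb : b ∈ D.g 1) (hc : c ∈ D.g 1)
    (h : LinearIndependent k ![a, b, c]) :
    D.g 2 ≤ span k ({a * b - b * a, a * c - c * a, b * c - c * b} : Set S) := by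
  refine hD.h2.trans ?_
  rw [hD.g1_eq ha hb hc h]
  refine commSub_span_le le_rfl ?_
  set W := span k ({a * b - b * a, a * c - c * a, b * c - c * b} : Set S)
  have e1 : a * b - b * a ∈ W := subset_span (Set.mem_insert _ _)
  have e2 : a * c - c * a ∈ W := subset_span (Set.mem_insert_of_mem _ (Set.mem_insert _ _))
  have e3 : b * c - c * b ∈ W :=
    subset_span (Set.mem_insert_of_mem _ (Set.mem_insert_of_mem _ rfl))
  have e : ∀ x y : S, x * y - y * x ∈ W → y * x - x * y ∈ W := fun x y h => by
    simpa using neg_mem h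
  intro x hx y hy
  simp only [Set.mem_insert_iff, Set.mem_singleton_iff] at hx hy
  rcases hx with rfl | rfl | rfl <;> rcases hy with rfl | rfl | rfl <;>
    first
      | (simp; done)
      | exact e1 | exact e2 | exact e3 | exact e _ _ e1 | exact e _ _ e2 | exact e _ _ e3

theorem eq_zero_of_kill_g2_left {x : S} (hx : x ∈ D.g 1) (h : ∀ c ∈ D.g 2, x * c = 0) : x = 0 :=
  D.eq_zero_left (by have := hD.hN; omega) hx h

theorem eq_zero_of_kill_g2_right {x : S} (hx : x ∈ D.g 1) (h : ∀ c ∈ D.g 2, c * x = 0) : x = 0 :=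
  D.eq_zero_right (by have := hD.hN; omega) hx h

theorem kill_left {x a b c : S} (hx : x ∈ D.g 1) (ha : a ∈ D.g 1) (hb : b ∈ D.g 1)
    (hc : c ∈ D.g 1) (h : LinearIndependent k ![a, b, c]) (e1 : x * (a * b - b * a) = 0)
    (e2 : x * (a * c - c * a) = 0) (e3 : x * (b * c - c * b) = 0) : x = 0 := by
  refine hD.eq_zero_of_kill_g2_left hx fun d hd => ?_
  have hle : span k ({a * b - b * a, a * c - c * a, b * c - c * b} : Set S) ≤
      LinearMap.ker (LinearMap.mulLeft k x) := by
    rw [span_le]; simp [Set.insert_subset_iff, e1, e2, e3]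
  exact hle (hD.g2_le ha hb hc h hd)

theorem mem_span_of_two_ker {x a b : S} (hx : x ∈ D.g 1) (hne : x ≠ 0) (ha : a ∈ D.g 1)
    (hb : b ∈ D.g 1) (hab : LinearIndependent k ![a, b]) (xa : x * a = 0) (xb : x * b = 0) :
    x ∈ span k ({a, b} : Set S) := by
  by_contra h
  refine hne (hD.kill_left hx ha hb hx (linearIndependent_triple hab h) ?_ ?_ ?_)
  · simp only [mul_sub, ← mul_assoc, xa, xb, zero_mul, sub_self]
  · rw [mul_sub, ← mul_assoc, xa, zero_mul, mul_zero, sub_zero]
  · rw [mul_sub, ← mul_assoc, xb, zero_mul, mul_zero, sub_zero]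

/-- A basis adapted to an element with two-dimensional annihilator in degree one. -/
theorem exists_adapted {x a b : S} (hx : x ∈ D.g 1) (hne : x ≠ 0) (ha : a ∈ D.g 1)
    (hb : b ∈ D.g 1) (hab : LinearIndependent k ![a, b]) (xa : x * a = 0) (xb : x * b = 0) :
    ∃ y ∈ D.g 1, ∃ z ∈ D.g 1, LinearIndependent k ![x, y, z] ∧ x * x = 0 ∧ x * y = 0 := by
  have hmem := hD.mem_span_of_two_ker hx hne ha hb hab xa xb
  have hle : span k ({a, b} : Set S) ≤ LinearMap.ker (LinearMap.mulLeft k x) := by
    rw [span_le]; simp [Set.insert_subset_iff, xa, xb]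
  have hnle : ¬ span k ({a, b} : Set S) ≤ span k ({x} : Set S) := fun h => by
    have := (Submodule.finrank_mono h).trans (finrank_span_singleton_le x)
    rw [finrank_span_pair_of_indep hab] at this
    omega
  obtain ⟨y, hy, hyx⟩ := SetLike.not_le_iff_exists.1 hnle
  have hy1 : y ∈ D.g 1 := (span_le.2 (by simp [Set.insert_subset_iff, ha, hb])) hy
  have hxy := linearIndependent_pair_of_not_mem hne hyx
  have hnle2 : ¬ D.g 1 ≤ span k ({x, y} : Set S) := fun h => by
    have := (Submodule.finrank_mono h).trans (finrank_span_pair_le x y)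
    rw [hD.h1] at this
    omega
  obtain ⟨z, hz, hzn⟩ := SetLike.not_le_iff_exists.1 hnle2
  exact ⟨y, hy1, z, hz, linearIndependent_triple hxy hzn, hle hmem, hle hy⟩

end Base

end CfsgLib.SymLocalFive
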