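import Cfsg.Agent.Lib.SymLocalFive.Generic

/-!
# Three generators are impossible in top degree at least six
-/

set_option autoImplicit false
set_option linter.unusedSectionVars false

namespace CfsgLib.SymLocalFive

open Module Submodule

variable {k S : Type*} [Field k] [Ring S] [Algebra k S] [FiniteDimensional k S] {D : GSym k S}

namespace Base

theorem g3_op (h3 : D.g 3 ≤ commSub (D.g 1) (D.g 2)) :
    D.op.g 3 ≤ commSub (D.op.g 1) (D.op.g 2) := by
  refine (Submodule.map_mono h3).trans ?_
  rw [commSub, Submodule.map_span, span_le]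
  rintro _ ⟨_, ⟨a, ha, b, hb, rfl⟩, rfl⟩
  have h : MulOpposite.op a * MulOpposite.op b - MulOpposite.op b * MulOpposite.op a ∈
      commSub (D.op.g 1) (D.op.g 2) :=
    subset_span ⟨MulOpposite.op a, D.op_mem.2 ha, MulOpposite.op b, D.op_mem.2 hb, rfl⟩
  have := neg_mem h
  rw [neg_sub] at this
  simpa [commSub] using this

/-- Two-dimensional degree two is impossible. -/
theorem false_of_two (hD : Base D) (hs2 : finrank k (D.g 2) ≤ 2) : False := by
  have hN := hD.hN
  have rankone : ∀ u ∈ D.g 1, u ≠ 0 → ∀ y ∈ D.g 1, u * y = 0 →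
      ∃ a ∈ D.g 1, ∃ b ∈ D.g 1, LinearIndependent k ![a, b] ∧ y * a = 0 ∧ y * b = 0 := by
    intro u hu hune y hy huy
    refine exists_two_ker (D.g 1) (LinearMap.mulLeft k y) ?_
    rw [hD.h1]
    suffices finrank k ((D.g 1).map (LinearMap.mulLeft k y)) < 2 by omega
    by_contra h
    push Not at h
    have hle : (D.g 1).map (LinearMap.mulLeft k y) ≤ D.g 2 := by
      rintro _ ⟨t, ht, rfl⟩; exact D.mul_mem11 hy ht
    have he := Submodule.eq_of_le_of_finrank_le hle (by omega)
    refine hune (hD.eq_zero_of_kill_g2_left hu fun c hc => ?_)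
    obtain ⟨t, -, rfl⟩ := he.symm ▸ hc
    simp [← mul_assoc, huy]
  have hne : D.g 1 ≠ ⊥ := fun h => by
    have := hD.h1; rw [h, finrank_bot] at this; omega
  obtain ⟨u, hu, hune⟩ := (Submodule.ne_bot_iff _).1 hne
  obtain ⟨y0, hy0, hy0ne, huy⟩ := exists_ne_zero_ker (D.g 1) (LinearMap.mulLeft k u) (by
    have : finrank k ((D.g 1).map (LinearMap.mulLeft k u)) ≤ finrank k (D.g 2) :=
      Submodule.finrank_mono (by rintro _ ⟨t, ht, rfl⟩; exact D.mul_mem11 hu ht)
    rw [hD.h1]; omega)
  obtain ⟨a, ha, b, hb, hab, ya, yb⟩ := rankone u hu hune y0 hy0 huy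
  obtain ⟨y, hy, z, hz, hi, xx, xy⟩ := hD.exists_adapted hy0 hy0ne ha hb hab ya yb
  clear a ha b hb hab ya yb
  have sq : ∀ v ∈ D.g 1, y0 * v = 0 → v * v = 0 := by
    intro v hv hyv
    rcases eq_or_ne v 0 with rfl | hvne
    · exact zero_mul _
    obtain ⟨a, ha, b, hb, hab, va, vb⟩ := rankone y0 hy0 hy0ne v hv hyv
    obtain ⟨-, -, -, -, -, h, -⟩ := hD.exists_adapted hv hvne ha hb hab va vb
    exact h
  have yy := sq y hy xy
  have yx : y * y0 = 0 := by
    have h := sq (y0 + y) (add_mem hy0 hy) (by rw [mul_add, xx, xy, add_zero])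
    simpa [add_mul, mul_add, xx, xy, yy] using h
  have hg1 := hD.g1_eq hy0 hy hz hi
  by_cases hind : LinearIndependent k ![y0 * z, y * z]
  · have he : span k ({y0 * z, y * z} : Set S) = D.g 2 := by
      refine Submodule.eq_of_le_of_finrank_le (span_le.2 ?_) ?_
      · simp [Set.insert_subset_iff, D.mul_mem11 hy0 hz, D.mul_mem11 hy hz]
      · rw [finrank_span_pair_of_indep hind]; omega
    refine hy0ne (hD.eq_zero_of_kill_g2_left hy0 fun c hc => ?_)
    obtain ⟨s, t, rfl⟩ := mem_span_pair.1 (he.symm ▸ hc)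
    simp [mul_add, ← mul_assoc, xx, xy]
  · rw [LinearIndependent.pair_iff] at hind
    push Not at hind
    obtain ⟨s, t, hst, hne'⟩ := hind
    have hv0 : s • y0 + t • y = 0 := by
      refine D.eq_zero_left (i := 1) (j := 1) (by omega)
        (add_mem (Submodule.smul_mem _ _ hy0) (Submodule.smul_mem _ _ hy)) fun w hw => ?_
      obtain ⟨c1, c2, c3, rfl⟩ := mem_span_triple.1 (hg1 ▸ hw)
      simp only [mul_add, add_mul, smul_mul_assoc, mul_smul_comm, xx, xy, yy, yx, smul_zero,
        add_zero, zero_add]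
      have e : c3 • (s • (y0 * z) + t • (y * z)) = 0 := by rw [hst, smul_zero]
      rw [← e]; try module
    have h := Fintype.linearIndependent_iff.1 hi ![s, t, 0] (by simp [Fin.sum_univ_three, hv0])
    exact hne' (by simpa using h 0) (by simpa using h 1)

/-- Three generators with commutators filling degree two are impossible. -/
theorem false_of_base [IsAlgClosed k] (hD : Base D)
    (h3 : finrank k (D.g 2) = 3 → D.g 3 ≤ commSub (D.g 1) (D.g 2)) : False := by
  have hne : D.g 1 ≠ ⊥ := fun h => by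
    have := hD.h1; rw [h, finrank_bot] at this; omega
  have hle : finrank k (D.g 2) ≤ 3 := by
    obtain ⟨a, ha, hane⟩ := (Submodule.ne_bot_iff _).1 hne
    have hn1 : ¬ D.g 1 ≤ span k ({a} : Set S) := fun h => by
      have := (Submodule.finrank_mono h).trans (finrank_span_singleton_le a)
      rw [hD.h1] at this; omega
    obtain ⟨b, hb, hbn⟩ := SetLike.not_le_iff_exists.1 hn1
    have hab := linearIndependent_pair_of_not_mem hane hbn
    have hn2 : ¬ D.g 1 ≤ span k ({a, b} : Set S) := fun h => by
      have := (Submodule.finrank_mono h).trans (finrank_span_pair_le a b)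
      rw [hD.h1] at this; omega
    obtain ⟨c, hc, hcn⟩ := SetLike.not_le_iff_exists.1 hn2
    exact (Submodule.finrank_mono (hD.g2_le ha hb hc (linearIndependent_triple hab hcn))).trans
      (finrank_span_triple_le _ _ _)
  by_cases hs2 : finrank k (D.g 2) = 3
  swap
  · exact hD.false_of_two (by omega)
  have hG : Generic D := by
    refine ⟨hD, hs2, fun x hx hx0 a ha b hb hab xa xb =>
      hD.false_of_two_ker_left hs2 (h3 hs2) hx hx0 ha hb hab xa xb,
      fun x hx hx0 a ha b hb hab xa xb => ?_⟩
    refine hD.op.false_of_two_ker_left ((D.finrank_op 2).trans hs2) (g3_op (h3 hs2))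
      (D.op_mem.2 hx) (by simpa using hx0) (D.op_mem.2 ha) (D.op_mem.2 hb) ?_
      (by rw [← MulOpposite.op_mul, xa, MulOpposite.op_zero])
      (by rw [← MulOpposite.op_mul, xb, MulOpposite.op_zero])
    rw [LinearIndependent.pair_iff] at hab ⊢
    intro s t hst
    exact hab s t (by simpa [← MulOpposite.op_smul, ← MulOpposite.op_add] using hst)
  exact hG.false

end Base

end CfsgLib.SymLocalFive
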