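import Cfsg.Agent.Lib.SymLocalFive.SmallRank

/-!
# Two generators are impossible in top degree at least six
-/

set_option autoImplicit false
set_option linter.unusedSectionVars false

namespace CfsgLib.SymLocalFive

open Module Submodule

variable {k S : Type*} [Field k] [Ring S] [Algebra k S] [FiniteDimensional k S] {D : GSym k S}

theorem g1_eq_pair (h1 : finrank k (D.g 1) = 2) {a b : S} (ha : a ∈ D.g 1) (hb : b ∈ D.g 1)
    (hab : LinearIndependent k ![a, b]) : D.g 1 = span k ({a, b} : Set S) :=
  (Submodule.eq_of_le_of_finrank_le (span_le.2 (by simp [Set.insert_subset_iff, ha, hb]))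
    (by rw [finrank_span_pair_of_indep hab, h1])).symm

theorem not_indep_zero_mul (hN : 6 ≤ D.N) (h1 : finrank k (D.g 1) = 2)
    (h2 : finrank k (D.g 2) ≤ 2) (h3 : D.g 3 ≤ commSub (D.g 1) (D.g 2)) {x y : S}
    (hx : x ∈ D.g 1) (hy : y ∈ D.g 1) (hi : LinearIndependent k ![x, y]) (xy : x * y = 0) :
    False := by
  have hg1 := g1_eq_pair h1 hx hy hi
  have hle2 : D.g 2 ≤ span k ({x * x, y * x, y * y} : Set S) := by
    rw [show 2 = 1 + 1 by rfl, ← D.mul_g, hg1]
    refine span_mul_span_le ?_
    intro a ha b hb
    simp only [Set.mem_insert_iff, Set.mem_singleton_iff] at ha hb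
    rcases ha with rfl | rfl <;> rcases hb with rfl | rfl
    · exact subset_span (Set.mem_insert _ _)
    · rw [xy]; exact zero_mem _
    · exact subset_span (Set.mem_insert_of_mem _ (Set.mem_insert _ _))
    · exact subset_span (Set.mem_insert_of_mem _ (Set.mem_insert_of_mem _ rfl))
  set W := span k ({y * x * x, y * y * x} : Set S) with hW
  have hle3 : D.g 3 ≤ W := by
    refine h3.trans ?_
    rw [hg1]
    refine commSub_span_le hle2 ?_
    have m1 : y * x * x ∈ W := subset_span (Set.mem_insert _ _)
    have m2 : y * y * x ∈ W := subset_span (Set.mem_insert_of_mem _ rfl)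
    intro a ha b hb
    simp only [Set.mem_insert_iff, Set.mem_singleton_iff] at ha hb
    rcases ha with rfl | rfl <;> rcases hb with rfl | rfl | rfl
    · rw [mul_assoc a a a, sub_self]; exact zero_mem _
    · rw [← mul_assoc a _ a, xy, zero_mul, zero_sub]; exact neg_mem m1
    · rw [← mul_assoc a _ _, xy, zero_mul, zero_sub]; exact neg_mem m2
    · rw [mul_assoc x x a, xy, mul_zero, sub_zero, ← mul_assoc]; exact m1
    · rw [mul_assoc a x a, xy, mul_zero, sub_zero, ← mul_assoc]; exact m2
    · rw [mul_assoc a a a, sub_self]; exact zero_mem _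
  have hge : 2 ≤ finrank k (D.g 3) := D.two_le_finrank (by omega) (by omega) (by omega)
  have key : ∀ {v : S}, W ≤ span k ({v} : Set S) → False := fun {v} hv => by
    have := finrank_le_one_of_le_singleton (hle3.trans hv)
    omega
  obtain ⟨α, β, γ, hrel, hne⟩ : ∃ α β γ : k, α • (x * x) + β • (y * x) + γ • (y * y) = 0 ∧
      ¬(α = 0 ∧ β = 0 ∧ γ = 0) := by
    by_contra hcon
    have hli : LinearIndependent k ![x * x, y * x, y * y] := by
      rw [Fintype.linearIndependent_iff]
      intro f hf
      by_contra hne
      refine hcon ⟨f 0, f 1, f 2, by simpa [Fin.sum_univ_three] using hf, fun ⟨p, q, r⟩ => hne ?_⟩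
      intro i; fin_cases i <;> assumption
    have h := finrank_span_eq_card hli
    rw [Fintype.card_fin, range_triple] at h
    have hsub : span k ({x * x, y * x, y * y} : Set S) ≤ D.g 2 := span_le.2 (by
      simp [Set.insert_subset_iff, D.mul_mem11 hx hx, D.mul_mem11 hy hx, D.mul_mem11 hy hy])
    have := Submodule.finrank_mono hsub
    omega
  rcases eq_or_ne γ 0 with rfl | hγ
  · rw [zero_smul, add_zero] at hrel
    rcases eq_or_ne α 0 with rfl | hα
    · have hb : β ≠ 0 := by tauto
      rw [zero_smul, zero_add, smul_eq_zero] at hrel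
      have yx := hrel.resolve_left hb
      refine key (v := 0) (span_le.2 ?_)
      simp [Set.insert_subset_iff, mul_assoc y y x, yx]
    · have e : x * x = (-(α⁻¹ * β)) • (y * x) := by
        rw [← inv_smul_smul₀ hα (x * x), eq_neg_of_add_eq_zero_left hrel, smul_neg, smul_smul,
          neg_smul]
      refine key (v := y * y * x) (span_le.2 ?_)
      simp only [Set.insert_subset_iff, Set.singleton_subset_iff, SetLike.mem_coe]
      refine ⟨?_, mem_span_singleton_self _⟩
      rw [mul_assoc y x x, e, mul_smul_comm, ← mul_assoc y y x]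
      exact Submodule.smul_mem _ _ (mem_span_singleton_self _)
  · have e : y * y = (-(γ⁻¹ * α)) • (x * x) + (-(γ⁻¹ * β)) • (y * x) := by
      rw [← inv_smul_smul₀ hγ (y * y), eq_neg_of_add_eq_zero_right hrel, smul_neg, smul_add,
        smul_smul, smul_smul, neg_add, neg_smul, neg_smul]
    have h0 : (-(γ⁻¹ * α)) • (x * x * x) = 0 := by
      have h := congrArg (fun t => x * t) e
      simp only [mul_add, mul_smul_comm, ← mul_assoc, xy, zero_mul, smul_zero, add_zero] at h
      exact h.symm
    refine key (v := y * x * x) (span_le.2 ?_)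
    simp only [Set.insert_subset_iff, Set.singleton_subset_iff, SetLike.mem_coe]
    refine ⟨mem_span_singleton_self _, ?_⟩
    rw [e, add_mul, smul_mul_assoc, smul_mul_assoc, h0, zero_add]
    exact Submodule.smul_mem _ _ (mem_span_singleton_self _)

/-- Two generators are impossible, given that in the dihedral case the fourth alternating product
is a commutator. -/
theorem false_of_two_gen [IsAlgClosed k] (hN : 6 ≤ D.N) (h1 : finrank k (D.g 1) = 2)
    (h2 : finrank k (D.g 2) ≤ 2) (h3 : D.g 3 ≤ commSub (D.g 1) (D.g 2))
    (hd : ∀ x ∈ D.g 1, ∀ y ∈ D.g 1, LinearIndependent k ![x, y] → x * x = 0 → y * y = 0 →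
      x * y * x * y ∈ span k ({x * y * x * y - y * x * y * x} : Set S)) : False := by
  have hge : ∀ i, 1 ≤ i → i + 1 ≤ D.N → 2 ≤ finrank k (D.g i) := fun i h h' =>
    D.two_le_finrank h h' (by omega)
  have hne : D.g 1 ≠ ⊥ := fun h => by rw [h, finrank_bot] at h1; omega
  obtain ⟨a, ha, hane⟩ := (Submodule.ne_bot_iff _).1 hne
  have hn1 : ¬ D.g 1 ≤ span k ({a} : Set S) := fun h => by
    have := (Submodule.finrank_mono h).trans (finrank_span_singleton_le a)
    omega
  obtain ⟨b, hb, hbn⟩ := SetLike.not_le_iff_exists.1 hn1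
  have hab := linearIndependent_pair_of_not_mem hane hbn
  obtain ⟨s, t, hst, v, hv, hvne, hmul⟩ := D.exists_left_point ha hb hne (by omega)
  have hu : s • a + t • b ∈ D.g 1 :=
    add_mem (Submodule.smul_mem _ _ ha) (Submodule.smul_mem _ _ hb)
  have hune : s • a + t • b ≠ 0 := fun h => by
    obtain ⟨hs, ht⟩ := LinearIndependent.pair_iff.1 hab s t h
    tauto
  generalize s • a + t • b = x at hu hune hmul
  by_cases hxv : LinearIndependent k ![x, v]
  · exact not_indep_zero_mul hN h1 h2 h3 hu hv hxv hmul
  have xx : x * x = 0 := by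
    rw [LinearIndependent.pair_iff' hune] at hxv
    push Not at hxv
    obtain ⟨r, rfl⟩ := hxv
    rw [mul_smul_comm] at hmul
    exact (smul_eq_zero.1 hmul).resolve_left fun h => by simp [h] at hvne
  clear hxv hmul hv hvne v a b ha hane hbn hb hab hn1 hst s t
  have hn2 : ¬ D.g 1 ≤ span k ({x} : Set S) := fun h => by
    have := (Submodule.finrank_mono h).trans (finrank_span_singleton_le x)
    omega
  obtain ⟨y, hy, hyn⟩ := SetLike.not_le_iff_exists.1 hn2
  have hi := linearIndependent_pair_of_not_mem hune hyn
  -- the dihedral case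
  have dihedral : ∀ y ∈ D.g 1, LinearIndependent k ![x, y] → y * y = 0 → False := by
    intro y hy hi yy
    have hg1 := g1_eq_pair h1 hu hy hi
    have hg2 : D.g 2 ≤ span k ({x * y, y * x} : Set S) := by
      rw [show 2 = 1 + 1 by rfl, ← D.mul_g, hg1]
      refine span_mul_span_le ?_
      intro a ha b hb
      simp only [Set.mem_insert_iff, Set.mem_singleton_iff] at ha hb
      rcases ha with rfl | rfl <;> rcases hb with rfl | rfl
      · rw [xx]; exact zero_mem _
      · exact subset_span (Set.mem_insert _ _)
      · exact subset_span (Set.mem_insert_of_mem _ rfl)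
      · rw [yy]; exact zero_mem _
    have hg3 : D.g 3 ≤ span k ({x * y * x, y * x * y} : Set S) := by
      rw [show 3 = 1 + 2 by rfl, ← D.mul_g, hg1]
      refine (mul_le_mul' le_rfl hg2).trans (span_mul_span_le ?_)
      intro a ha b hb
      simp only [Set.mem_insert_iff, Set.mem_singleton_iff] at ha hb
      rcases ha with rfl | rfl <;> rcases hb with rfl | rfl
      · rw [← mul_assoc, xx, zero_mul]; exact zero_mem _
      · rw [← mul_assoc]; exact subset_span (Set.mem_insert _ _)
      · rw [← mul_assoc]; exact subset_span (Set.mem_insert_of_mem _ rfl)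
      · rw [← mul_assoc, yy, zero_mul]; exact zero_mem _
    have hg4 : D.g 4 ≤ span k ({x * y * x * y, y * x * y * x} : Set S) := by
      rw [show 4 = 1 + 3 by rfl, ← D.mul_g, hg1]
      refine (mul_le_mul' le_rfl hg3).trans (span_mul_span_le ?_)
      intro a ha b hb
      simp only [Set.mem_insert_iff, Set.mem_singleton_iff] at ha hb
      rcases ha with rfl | rfl <;> rcases hb with rfl | rfl
      · rw [← mul_assoc, ← mul_assoc, xx, zero_mul, zero_mul]; exact zero_mem _
      · rw [← mul_assoc, ← mul_assoc]; exact subset_span (Set.mem_insert _ _)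
      · rw [← mul_assoc, ← mul_assoc]; exact subset_span (Set.mem_insert_of_mem _ rfl)
      · rw [← mul_assoc, ← mul_assoc, yy, zero_mul, zero_mul]; exact zero_mem _
    obtain ⟨c, hc⟩ := mem_span_singleton.1 (hd x hu y hy hi xx yy)
    set X := x * y * x * y * x with hX
    set Y := y * x * y * x * y with hY
    have e1 : c • X = 0 := by
      have h := congrArg (fun t => x * t) hc
      simp only [mul_smul_comm, mul_sub, ← mul_assoc, xx, zero_mul, zero_sub, smul_neg,
        neg_eq_zero] at h
      exact h
    have e2 : X = 0 := by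
      have h := congrArg (fun t => t * x) hc
      simp only [smul_mul_assoc, sub_mul] at h
      rw [mul_assoc (y * x * y) x x, xx, mul_zero, sub_zero, e1] at h
      exact h.symm
    have e3 : c • Y = 0 := by
      have h := congrArg (fun t => t * y) hc
      simp only [smul_mul_assoc, sub_mul] at h
      rw [mul_assoc (x * y * x) y y, yy, mul_zero, zero_sub, smul_neg, neg_eq_zero] at h
      exact h
    have e4 : Y = 0 := by
      have h := congrArg (fun t => y * t) hc
      simp only [mul_smul_comm, mul_sub, ← mul_assoc, yy, zero_mul, sub_zero] at h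
      rw [e3] at h
      exact h.symm
    have hg5 : D.g 5 ≤ ⊥ := by
      rw [show 5 = 1 + 4 by rfl, ← D.mul_g, hg1]
      refine (mul_le_mul' le_rfl hg4).trans (span_mul_span_le ?_)
      intro a ha b hb
      simp only [Set.mem_insert_iff, Set.mem_singleton_iff] at ha hb
      rw [Submodule.mem_bot]
      rcases ha with rfl | rfl <;> rcases hb with rfl | rfl
      · simp [← mul_assoc, xx]
      · simpa only [← mul_assoc] using e2
      · simpa only [← mul_assoc] using e4
      · simp [← mul_assoc, yy]
    have := hge 5 (by omega) (by omega)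
    rw [le_bot_iff.1 hg5, finrank_bot] at this
    omega
  obtain ⟨a, b, c, hrel, hne'⟩ : ∃ a b c : k, a • (y * y) + b • (x * y) + c • (y * x) = 0 ∧
      ¬(a = 0 ∧ b = 0 ∧ c = 0) := by
    by_contra hcon
    have hli : LinearIndependent k ![y * y, x * y, y * x] := by
      rw [Fintype.linearIndependent_iff]
      intro f hf
      by_contra hne
      refine hcon ⟨f 0, f 1, f 2, by simpa [Fin.sum_univ_three] using hf, fun ⟨p, q, r⟩ => hne ?_⟩
      intro i; fin_cases i <;> assumption
    have h := finrank_span_eq_card hli
    rw [Fintype.card_fin, range_triple] at h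
    have hsub : span k ({y * y, x * y, y * x} : Set S) ≤ D.g 2 := span_le.2 (by
      simp [Set.insert_subset_iff, D.mul_mem11 hy hy, D.mul_mem11 hu hy, D.mul_mem11 hy hu])
    have := Submodule.finrank_mono hsub
    omega
  rcases eq_or_ne a 0 with rfl | ha
  · rw [zero_smul, zero_add] at hrel
    rcases eq_or_ne b 0 with rfl | hb
    · have hc : c ≠ 0 := by tauto
      rw [zero_smul, zero_add, smul_eq_zero] at hrel
      exact not_indep_zero_mul hN h1 h2 h3 hy hu (LinearIndependent.pair_symm_iff.1 hi)
        (hrel.resolve_left hc)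
    rcases eq_or_ne c 0 with rfl | hc
    · rw [zero_smul, add_zero, smul_eq_zero] at hrel
      exact not_indep_zero_mul hN h1 h2 h3 hu hy hi (hrel.resolve_left hb)
    -- skew commuting generators
    obtain ⟨τ, hτ⟩ : ∃ τ : k, y * x = τ • (x * y) := ⟨-(c⁻¹ * b), by
      rw [← inv_smul_smul₀ hc (y * x), eq_neg_of_add_eq_zero_right hrel, smul_neg, smul_smul,
        neg_smul]⟩
    have hg1 := g1_eq_pair h1 hu hy hi
    have hg2 : D.g 2 ≤ span k ({x * y, y * y} : Set S) := by
      rw [show 2 = 1 + 1 by rfl, ← D.mul_g, hg1]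
      refine span_mul_span_le ?_
      intro p hp q hq
      simp only [Set.mem_insert_iff, Set.mem_singleton_iff] at hp hq
      rcases hp with rfl | rfl <;> rcases hq with rfl | rfl
      · rw [xx]; exact zero_mem _
      · exact subset_span (Set.mem_insert _ _)
      · rw [hτ]; exact Submodule.smul_mem _ _ (subset_span (Set.mem_insert _ _))
      · exact subset_span (Set.mem_insert_of_mem _ rfl)
    have hg3 : D.g 3 ≤ span k ({x * y * y} : Set S) := by
      refine h3.trans ?_
      rw [hg1]
      refine commSub_span_le hg2 ?_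
      have m : x * y * y ∈ span k ({x * y * y} : Set S) := mem_span_singleton_self _
      have xyx : x * y * x = 0 := by
        rw [mul_assoc, hτ, mul_smul_comm, ← mul_assoc, xx, zero_mul, smul_zero]
      have yxy : y * (x * y) = τ • (x * y * y) := by rw [← mul_assoc, hτ, smul_mul_assoc]
      have yyx : y * y * x = τ • τ • (x * y * y) := by
        rw [mul_assoc, hτ, mul_smul_comm, yxy]
      intro p hp q hq
      simp only [Set.mem_insert_iff, Set.mem_singleton_iff] at hp hq
      rcases hp with rfl | rfl <;> rcases hq with rfl | rfl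
      · rw [← mul_assoc, xx, zero_mul, xyx, sub_zero]; exact zero_mem _
      · rw [← mul_assoc, yyx]
        exact sub_mem m (Submodule.smul_mem _ _ (Submodule.smul_mem _ _ m))
      · rw [yxy]; exact sub_mem (Submodule.smul_mem _ _ m) m
      · rw [mul_assoc p p p, sub_self]; exact zero_mem _
    have := finrank_le_one_of_le_singleton hg3
    have := hge 3 (by omega) (by omega)
    omega
  -- a relation involving the square
  set β := a⁻¹ * b with hβ
  set γ := a⁻¹ * c with hγ
  have e : y * y + β • (x * y) + γ • (y * x) = 0 := by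
    have h := congrArg (fun t => a⁻¹ • t) hrel
    simpa [smul_add, smul_smul, inv_mul_cancel₀ ha] using h
  set y' := y + β • x with hy'
  have hy'1 : y' ∈ D.g 1 := add_mem hy (Submodule.smul_mem _ _ hu)
  have hi' : LinearIndependent k ![x, y'] := by
    refine linearIndependent_pair_of_not_mem hune fun hm => hyn ?_
    have := sub_mem hm (Submodule.smul_mem _ β (mem_span_singleton_self x))
    rwa [hy', add_sub_cancel_right] at this
  have e' : y' * y' = (β - γ) • (y' * x) := by
    have : y' * y' = (y * y + β • (x * y) + γ • (y * x)) + (β - γ) • (y * x) := by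
      simp only [hy', add_mul, mul_add, smul_mul_assoc, mul_smul_comm, xx, smul_zero]
      module
    rw [this, e, zero_add]
    simp only [hy', add_mul, smul_mul_assoc, xx, smul_zero, add_zero]
  rcases eq_or_ne (β - γ) 0 with h0 | h0
  · exact dihedral y' hy'1 hi' (by rw [e', h0, zero_smul])
  · refine not_indep_zero_mul hN h1 h2 h3 hy'1
      (sub_mem hy'1 (Submodule.smul_mem _ (β - γ) hu)) ?_ (by
        rw [mul_sub, mul_smul_comm, e', sub_self])
    rw [LinearIndependent.pair_iff]
    intro p q hpq
    obtain ⟨h4, h5⟩ := LinearIndependent.pair_iff.1 hi' (-(q * (β - γ))) (p + q) (by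
      rw [← hpq]; module)
    have hq : q = 0 := (mul_eq_zero.1 (neg_eq_zero.1 h4)).resolve_right h0
    exact ⟨by rwa [hq, add_zero] at h5, hq⟩

end CfsgLib.SymLocalFive
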