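import Cfsg.Agent.Lib.SymLocalFive.Filt
import Cfsg.Agent.Lib.SymLocalFive.Three
import Cfsg.Agent.Lib.SymLocalFive.Two

/-!
# Local symmetric algebras with at most five trace functions have dimension at most fifteen

Compare Chlebowitz and Külshammer, *Symmetric local algebras with 5-dimensional center*; the
argument here is a different one, through the associated graded symmetric algebra.
-/

set_option autoImplicit false
set_option linter.unusedSectionVars false

namespace CfsgLib.SymLocalFive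

open Module Submodule

namespace LocalSym

variable {k A : Type*} [Field k] [Ring A] [Algebra k A] [FiniteDimensional k A]
  (L : LocalSym k A)

/-- One generator. -/
theorem commSub_eq_bot {x : A} (hx : x ∈ L.J) (h : L.J ≤ L.J ^ 2 ⊔ span k {x}) :
    commSub L.J L.J = ⊥ := by
  have hpow : ∀ m, L.J ^ (m + 1) ≤ L.J ^ (m + 2) ⊔ span k {x ^ (m + 1)} := by
    intro m
    induction m with
    | zero => simpa [pow_one] using h
    | succ m ih =>
      rw [pow_succ]
      refine Submodule.mul_le.2 fun u hu j hj => ?_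
      obtain ⟨w, hw, r, rfl⟩ := mem_sup_singleton.1 (ih hu)
      obtain ⟨w', hw', r', rfl⟩ := mem_sup_singleton.1 (h hj)
      have h1 : (x ^ (m + 1)) * w' ∈ L.J ^ (m + 1 + 2) := by
        have := L.mul_mem (Submodule.pow_mem_pow _ hx (m + 1)) hw'
        exact this
      have h2 : w * (w' + r' • x) ∈ L.J ^ (m + 1 + 2) := by
        have := L.mul_mem hw (L.mem_one hj)
        exact this
      refine mem_sup_singleton.2 ⟨w * (w' + r' • x) + r • ((x ^ (m + 1)) * w'),
        add_mem h2 (Submodule.smul_mem _ _ h1), r * r', ?_⟩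
      rw [pow_succ x (m + 1)]
      simp only [mul_add, add_mul, smul_mul_assoc, mul_smul_comm, smul_add, smul_smul,
        mul_comm r' r]
      abel
  have hstep : ∀ m, commSub L.J (L.J ^ (m + 1)) ≤ commSub L.J (L.J ^ (m + 2)) := by
    intro m
    refine commSub_le fun a ha b hb => ?_
    obtain ⟨a', ha', r, rfl⟩ := mem_sup_singleton.1 (h ha)
    obtain ⟨b', hb', s, rfl⟩ := mem_sup_singleton.1 (hpow m hb)
    have e : (a' + r • x) * (b' + s • x ^ (m + 1)) - (b' + s • x ^ (m + 1)) * (a' + r • x) =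
        ((a' + r • x) * b' - b' * (a' + r • x)) + s • (a' * x ^ (m + 1) - x ^ (m + 1) * a') := by
      have hc : x * x ^ (m + 1) = x ^ (m + 1) * x := (Commute.self_pow x _).eq
      simp only [mul_add, add_mul, smul_mul_assoc, mul_smul_comm, smul_sub, smul_add, hc]
      module
    rw [e]
    refine add_mem (comm_mem_commSub ha hb') (Submodule.smul_mem _ _ ?_)
    exact L.comm_two_le (m + 1) (comm_mem_commSub ha' (Submodule.pow_mem_pow _ hx _))
  have hall : ∀ m, commSub L.J L.J ≤ commSub L.J (L.J ^ (m + 1)) := by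
    intro m
    induction m with
    | zero => rw [zero_add, pow_one]
    | succ m ih => exact ih.trans (hstep m)
  rw [eq_bot_iff]
  refine (hall L.N).trans (commSub_le fun a _ b hb => ?_)
  rw [L.hN1, Submodule.mem_bot] at hb
  simp [hb]

/-- Commutators of two generators. -/
theorem comm_le_of_gen {s : Set A} (hs : s ⊆ L.J) (h : L.J ≤ L.J ^ 2 ⊔ span k s) :
    commSub L.J L.J ≤ commSub (span k s) (span k s) ⊔ commSub L.J (L.J ^ 2) := by
  have hs' : span k s ≤ L.J := span_le.2 hs
  refine commSub_le fun a ha b hb => ?_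
  obtain ⟨a', ha', a'', ha'', rfl⟩ := Submodule.mem_sup.1 (h ha)
  obtain ⟨b', hb', b'', hb'', rfl⟩ := Submodule.mem_sup.1 (h hb)
  have e : (a' + a'') * (b' + b'') - (b' + b'') * (a' + a'') =
      (a'' * b'' - b'' * a'') + (((a' + a'') * b' - b' * (a' + a'')) - (b'' * a' - a' * b'')) := by
    noncomm_ring
  rw [e]
  exact add_mem (mem_sup_left (comm_mem_commSub ha'' hb''))
    (mem_sup_right (sub_mem (comm_mem_commSub ha hb') (comm_mem_commSub (hs' hb'') ha')))

theorem comm_pair_le {x y : A} :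
    commSub (span k ({x, y} : Set A)) (span k ({x, y} : Set A)) ≤
      span k {x * y - y * x} := by
  refine commSub_span_le le_rfl fun a ha b hb => ?_
  simp only [Set.mem_insert_iff, Set.mem_singleton_iff] at ha hb
  have m : x * y - y * x ∈ span k ({x * y - y * x} : Set A) := mem_span_singleton_self _
  rcases ha with rfl | rfl <;> rcases hb with rfl | rfl
  · simp
  · exact m
  · simpa using neg_mem m
  · simp

theorem comm_triple_le {x y z : A} :
    commSub (span k ({x, y, z} : Set A)) (span k ({x, y, z} : Set A)) ≤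
      span k ({x * y - y * x, x * z - z * x, y * z - z * y} : Set A) := by
  refine commSub_span_le le_rfl fun a ha b hb => ?_
  set W := span k ({x * y - y * x, x * z - z * x, y * z - z * y} : Set A)
  have e1 : x * y - y * x ∈ W := subset_span (Set.mem_insert _ _)
  have e2 : x * z - z * x ∈ W := subset_span (Set.mem_insert_of_mem _ (Set.mem_insert _ _))
  have e3 : y * z - z * y ∈ W :=
    subset_span (Set.mem_insert_of_mem _ (Set.mem_insert_of_mem _ rfl))
  have e : ∀ u v : A, u * v - v * u ∈ W → v * u - u * v ∈ W := fun u v h => by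
    simpa using neg_mem h
  simp only [Set.mem_insert_iff, Set.mem_singleton_iff] at ha hb
  rcases ha with rfl | rfl | rfl <;> rcases hb with rfl | rfl | rfl <;>
    first
      | (simp; done)
      | exact e1 | exact e2 | exact e3 | exact e _ _ e1 | exact e _ _ e2 | exact e _ _ e3

variable [IsAlgClosed k] {hN : 6 ≤ L.N}

set_option maxHeartbeats 1000000 in
include hN in
/-- Two generators, top degree at least six. -/
theorem false_two {σ : A} (hσ : σ ∈ L.J ^ L.N)
    (hσK : σ ∉ commSub L.J L.J)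
    (ha1 : finrank k L.J = finrank k (L.J ^ 2 : Submodule k A) + 2)
    (hK : finrank k (L.J ^ 2 : Submodule k A) ≤ finrank k (commSub L.J L.J) + 2)
    {x y : A} (hx : x ∈ L.J) (hy : y ∈ L.J)
    (hgen : L.J ≤ L.J ^ 2 ⊔ span k ({x, y} : Set A)) : False := by
  set D := L.grSym with hD
  set K := commSub L.J L.J with hKdef
  set P := K ⊔ span k {σ} with hP
  have hσ3 : σ ∈ L.J ^ 3 := L.pow_le (by omega) (by omega) hσ
  have hσ2 : σ ∈ L.J ^ 2 := L.pow_le (by omega) (by omega) hσ
  have hP2 : P ≤ L.J ^ 2 := sup_le L.comm_le_two (span_le.2 (by simpa using hσ2))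
  have hPK : finrank k K + 1 ≤ finrank k P :=
    Submodule.finrank_lt_finrank_of_lt (lt_of_le_of_ne le_sup_left fun e =>
      hσK (e.symm ▸ mem_sup_right (mem_span_singleton_self σ)))
  set c := x * y - y * x with hc
  have hc2 : c ∈ L.J ^ 2 := L.comm_le_two (comm_mem_commSub hx hy)
  have hKle : K ≤ span k {c} ⊔ commSub L.J (L.J ^ 2) :=
    (L.comm_le_of_gen (by simp [Set.insert_subset_iff, hx, hy]) hgen).trans
      (sup_le_sup_right comm_pair_le _)
  have hPle : P ≤ L.J ^ 3 ⊔ span k {c} := by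
    refine sup_le (hKle.trans (sup_le le_sup_right ?_)) ?_
    · exact (L.comm_one_le (j := 2)).trans le_sup_left
    · exact (span_le.2 (by simpa using hσ3)).trans le_sup_left
  have h32 : L.J ^ 3 ≤ L.J ^ 2 := L.pow_succ_le (by omega)
  have hPd := (Submodule.finrank_mono hPle).trans (finrank_sup_singleton_le _ c)
  have hg1le := L.finrank_gr_le (i := 1) le_rfl
  rw [show (1 : ℕ) + 1 = 2 by rfl, pow_one] at hg1le
  have hg2le := L.finrank_gr_le (i := 2) (by omega)
  rw [show (2 : ℕ) + 1 = 3 by rfl] at hg2le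
  have hg1pos : D.g 1 ≠ ⊥ := L.gr_ne_bot (by omega)
  by_cases ha2 : finrank k (L.J ^ 2 : Submodule k A) ≤ finrank k (L.J ^ 3 : Submodule k A) + 1
  · -- at most one new element in the second layer
    by_cases hs1 : 2 ≤ finrank k (D.g 1)
    · have := D.two_le_finrank (i := 2) (by omega) (show 2 + 1 ≤ L.N by omega) hs1
      have e : finrank k (D.g 2) + finrank k (L.J ^ 3 : Submodule k A) ≤
          finrank k (L.J ^ 2 : Submodule k A) := hg2le
      omega
    obtain ⟨X, hX, hXne⟩ := (Submodule.ne_bot_iff _).1 hg1pos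
    obtain ⟨x0, hx0, rfl⟩ := hX
    have hx0J : x0 ∈ L.J := by simpa using hx0
    set X := L.cl 1 x0 with hXdef
    have hg1eq : D.g 1 = span k {X} := by
      refine (Submodule.eq_of_le_of_finrank_le (span_le.2 ?_) ?_).symm
      · rw [Set.singleton_subset_iff]; exact ⟨x0, hx0, rfl⟩
      · rw [finrank_span_singleton hXne]; omega
    have hgi : ∀ i, 1 ≤ i → D.g i = span k {X ^ i} := by
      intro i hi
      induction i, hi using Nat.le_induction with
      | base => rw [hg1eq, pow_one]
      | succ i _ ih =>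
        rw [← D.mul_g, ih, hg1eq, Submodule.span_mul_span, Set.singleton_mul_singleton, pow_succ]
    have hclpow : ∀ i, 1 ≤ i → L.cl i (x0 ^ i) = X ^ i := by
      intro i hi
      induction i, hi using Nat.le_induction with
      | base => rw [pow_one, pow_one]
      | succ i _ ih =>
        rw [pow_succ, L.cl_mul (Submodule.pow_mem_pow _ hx0J _) hx0, ih, pow_succ]
    have hXi : ∀ i, 1 ≤ i → i ≤ L.N → X ^ i ≠ 0 := fun i h1 h2 h => by
      refine L.gr_ne_bot h2 ?_
      rw [← hD, hgi i h1, h, span_zero_singleton]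
    have hnot : ∀ i, 1 ≤ i → i ≤ L.N → x0 ^ i ∉ L.J ^ (i + 1) := fun i h1 h2 h => by
      refine hXi i h1 h2 ?_
      rw [← hclpow i h1, L.cl_eq_zero h h1]
    have hεN : L.ε (x0 ^ L.N) ≠ 0 := fun h => by
      refine hnot L.N (by omega) le_rfl ?_
      have h0 := L.mul_eq_zero_of_orth le_rfl (Submodule.pow_mem_pow _ hx0J L.N) (fun d hd => by
        rw [Nat.sub_self, pow_zero] at hd
        obtain ⟨r, rfl⟩ := Submodule.mem_one.1 hd
        rw [Algebra.algebraMap_eq_smul_one, mul_smul_comm, mul_one, map_smul, h, smul_zero])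
        1 (by rw [Nat.sub_self, pow_zero]; exact Submodule.one_le.1 le_rfl)
      rw [mul_one] at h0
      rw [h0]; exact zero_mem _
    -- higher layers are powers of `x0`
    have hsecond : L.J ^ 2 ≤ L.J ^ 3 ⊔ span k {x0 ^ 2} := by
      refine le_of_eq (Submodule.eq_of_le_of_finrank_le
        (sup_le h32 (span_le.2 (by simpa using Submodule.pow_mem_pow _ hx0J 2))) ?_).symm
      have hlt : L.J ^ 3 < L.J ^ 3 ⊔ span k {x0 ^ 2} := lt_of_le_of_ne le_sup_left fun e =>
        hnot 2 (by omega) (by omega) (e.symm ▸ mem_sup_right (mem_span_singleton_self _))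
      have := Submodule.finrank_lt_finrank_of_lt hlt
      omega
    have hlayer : ∀ i, 2 ≤ i → L.J ^ i ≤ L.J ^ (i + 1) ⊔ span k {x0 ^ i} := by
      intro i hi
      induction i, hi using Nat.le_induction with
      | base => exact hsecond
      | succ i hi ih =>
        rw [pow_succ]
        refine Submodule.mul_le.2 fun u hu j hj => ?_
        obtain ⟨w, hw, r, rfl⟩ := mem_sup_singleton.1 (ih hu)
        obtain ⟨w', hw', r', e'⟩ := mem_sup_singleton.1
          (hsecond (pow_two L.J ▸ Submodule.mul_mem_mul hx0J hj))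
        have h1 : x0 ^ (i - 1) * w' ∈ L.J ^ (i + 2) := by
          have := L.mul_mem (Submodule.pow_mem_pow _ hx0J (i - 1)) hw'
          rwa [show i - 1 + 3 = i + 2 by omega] at this
        have h2 : w * j ∈ L.J ^ (i + 2) := by
          have := L.mul_mem hw (L.mem_one hj)
          exact this
        refine mem_sup_singleton.2 ⟨w * j + r • (x0 ^ (i - 1) * w'),
          add_mem h2 (Submodule.smul_mem _ _ h1), r * r', ?_⟩
        have e3 : x0 ^ i * j = x0 ^ (i - 1) * w' + r' • x0 ^ (i + 1) := by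
          rw [show i = i - 1 + 1 by omega, pow_succ, mul_assoc, ← e', mul_add, mul_smul_comm,
            ← pow_add, show i - 1 + 1 - 1 = i - 1 by omega,
            show i - 1 + 2 = i - 1 + 1 + 1 by omega]
        rw [add_mul, smul_mul_assoc, e3, smul_add, smul_smul]
        abel
    set R := span k (Set.range fun i : ℕ => x0 ^ i) with hR
    have hR2 : ∀ d i, 2 ≤ i → i + d = L.N + 1 → L.J ^ i ≤ R := by
      intro d
      induction d with
      | zero =>
        intro i _ hi
        rw [show i = L.N + 1 by omega, L.hN1]; exact bot_le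
      | succ d ih =>
        intro i hi hid
        exact (hlayer i hi).trans (sup_le (ih (i + 1) (by omega) (by omega))
          (span_le.2 (Set.singleton_subset_iff.2 (subset_span ⟨i, rfl⟩))))
    have hJ2R : L.J ^ 2 ≤ R := hR2 (L.N - 1) 2 le_rfl (by omega)
    obtain ⟨v, hv, W'', hW'', hW''le, hW''d⟩ := exists_gen (W' := L.J ^ 2 ⊔ span k {x0})
      (W := L.J) (m := 0) (sup_le (by rw [pow_two]; exact L.J_mul_J_le)
        (span_le.2 (by simpa using hx0J))) (by
          have hlt : L.J ^ 2 < L.J ^ 2 ⊔ span k {x0} := lt_of_le_of_ne le_sup_left fun e => by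
            refine hnot 1 le_rfl (by omega) ?_
            rw [pow_one]; exact e.symm ▸ mem_sup_right (mem_span_singleton_self _)
          have := Submodule.finrank_lt_finrank_of_lt hlt
          omega)
    have hJle : L.J ≤ span k (insert v (Set.range fun i : ℕ => x0 ^ i)) := by
      rw [← Submodule.eq_of_le_of_finrank_le hW''le (by omega), hW'', span_insert, ← hR]
      refine sup_le (sup_le (hJ2R.trans le_sup_right) ?_) le_sup_left
      exact (span_le.2 (Set.singleton_subset_iff.2 (show x0 ∈ R from subset_span ⟨1, pow_one x0⟩))).trans le_sup_right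
    have hΘ : ∀ r, ∀ u ∈ K, L.ε (u * x0 ^ r) = 0 := by
      intro r
      have h : K ≤ LinearMap.ker (L.ε.comp (LinearMap.mulRight k (x0 ^ r))) := by
        refine (commSub_mono hJle le_rfl).trans ?_
        refine commSub_span_le hJle fun a ha b hb => ?_
        rw [LinearMap.mem_ker, LinearMap.comp_apply, LinearMap.mulRight_apply, sub_mul, map_sub,
          sub_eq_zero]
        rcases ha with rfl | ⟨i, rfl⟩ <;> rcases hb with rfl | ⟨j, rfl⟩
        · rfl
        · dsimp only
          rw [mul_assoc, ← pow_add, L.symm, mul_assoc, L.symm (x0 ^ j) _, mul_assoc, ← pow_add,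
            L.symm a, add_comm]
        · dsimp only
          rw [mul_assoc b, ← pow_add, L.symm b, mul_assoc, L.symm (x0 ^ i) _, mul_assoc, ← pow_add,
            add_comm r i, L.symm b]
        · dsimp only
          simp only [← pow_add, add_comm i j]
      exact fun u hu => h hu
    have hΘP : ∀ r, 1 ≤ r → ∀ u ∈ P, L.ε (u * x0 ^ r) = 0 := by
      intro r hr u hu
      obtain ⟨w, hw, t, rfl⟩ := mem_sup_singleton.1 hu
      have h0 : σ * x0 ^ r = 0 := by
        have := L.mul_mem hσ (Submodule.pow_mem_pow _ hx0J r)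
        rwa [L.pow_eq_bot (by omega), Submodule.mem_bot] at this
      rw [add_mul, map_add, hΘ r w hw, zero_add, smul_mul_assoc, h0, smul_zero, map_zero]
    have hl1 : P < P ⊔ span k {x0 ^ 3} := lt_of_le_of_ne le_sup_left fun e => by
      have := hΘP (L.N - 3) (by omega) _ (e.symm ▸ mem_sup_right (mem_span_singleton_self _))
      rw [← pow_add, show 3 + (L.N - 3) = L.N by omega] at this
      exact hεN this
    have hl2 : P ⊔ span k {x0 ^ 3} < P ⊔ span k {x0 ^ 3} ⊔ span k {x0 ^ 2} :=
      lt_of_le_of_ne le_sup_left fun e => by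
        obtain ⟨w, hw, t, ht⟩ := mem_sup_singleton.1
          (e.symm ▸ mem_sup_right (mem_span_singleton_self _) : x0 ^ 2 ∈ P ⊔ span k {x0 ^ 3})
        have h1 := hΘP (L.N - 2) (by omega) w hw
        rw [show w = x0 ^ 2 - t • x0 ^ 3 from eq_sub_of_add_eq ht, sub_mul, smul_mul_assoc,
          ← pow_add, ← pow_add, show 2 + (L.N - 2) = L.N by omega,
          show 3 + (L.N - 2) = L.N + 1 by omega, L.nil hx0J, smul_zero, sub_zero] at h1
        exact hεN h1
    have hle : P ⊔ span k {x0 ^ 3} ⊔ span k {x0 ^ 2} ≤ L.J ^ 2 :=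
      sup_le (sup_le hP2 (span_le.2 (Set.singleton_subset_iff.2
        (L.pow_le (by omega) (by omega) (Submodule.pow_mem_pow _ hx0J 3)))))
        (span_le.2 (Set.singleton_subset_iff.2 (Submodule.pow_mem_pow _ hx0J 2)))
    have e1 := Submodule.finrank_lt_finrank_of_lt hl1
    have e2 := Submodule.finrank_lt_finrank_of_lt hl2
    have e3 := Submodule.finrank_mono hle
    omega
  -- the second layer is two-dimensional
  have hc3 : c ∉ L.J ^ 3 := fun h => by
    have : P ≤ L.J ^ 3 := hPle.trans (sup_le le_rfl (span_le.2 (by simpa using h)))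
    have := Submodule.finrank_mono this
    omega
  have hPeq : P = L.J ^ 3 ⊔ span k {c} := Submodule.eq_of_le_of_finrank_le hPle (by
    have := finrank_sup_singleton_le (L.J ^ 3) c
    omega)
  have hJ3 : L.J ^ 3 ≤ commSub L.J (L.J ^ 2) ⊔ span k {σ} := by
    intro u hu
    have huP : u ∈ P := hPeq ▸ mem_sup_left hu
    obtain ⟨w, hw, r, rfl⟩ := mem_sup_singleton.1 huP
    obtain ⟨p, hp, q, hq, rfl⟩ := Submodule.mem_sup.1 (hKle hw)
    obtain ⟨α, rfl⟩ := mem_span_singleton.1 hp
    have hα : α = 0 := by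
      by_contra hα
      apply hc3
      have h := sub_mem (sub_mem hu ((L.J ^ 3).smul_mem r hσ3)) (L.comm_one_le (j := 2) hq)
      rw [add_sub_cancel_right, add_sub_cancel_right] at h
      exact ((L.J ^ 3).smul_mem_iff hα).1 h
    rw [hα, zero_smul, zero_add]
    exact mem_sup_singleton.2 ⟨q, hq, r, rfl⟩
  have hσ4 : σ ∈ L.J ^ 4 := L.pow_le (by omega) (by omega) hσ
  have h3 : D.g 3 ≤ commSub (D.g 1) (D.g 2) := by
    rintro _ ⟨u, hu, rfl⟩
    obtain ⟨q, hq, r, rfl⟩ := mem_sup_singleton.1 (hJ3 hu)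
    rw [map_add, map_smul, L.cl_eq_zero hσ4 (by omega), smul_zero, add_zero]
    exact L.cl_commSub hq
  have e1 : finrank k (D.g 1) + finrank k (L.J ^ 2 : Submodule k A) ≤ finrank k L.J := hg1le
  by_cases hs1 : finrank k (D.g 1) ≤ 1
  · obtain ⟨X, hX, hXne⟩ := (Submodule.ne_bot_iff _).1 hg1pos
    have hg1eq : D.g 1 = span k {X} := by
      refine (Submodule.eq_of_le_of_finrank_le (span_le.2 ?_) ?_).symm
      · rw [Set.singleton_subset_iff]; exact hX
      · rw [finrank_span_singleton hXne]; omega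
    refine L.gr_ne_bot (show 3 ≤ L.N by omega) (eq_bot_iff.2 (h3.trans ?_))
    rw [show (2 : ℕ) = 1 + 1 by rfl, ← D.mul_g, hg1eq, Submodule.span_mul_span,
      Set.singleton_mul_singleton]
    refine commSub_span_le le_rfl fun a ha b hb => ?_
    rw [Set.mem_singleton_iff.1 ha, Set.mem_singleton_iff.1 hb, mul_assoc, sub_self]
    exact zero_mem _
  have hs1' : finrank k (D.g 1) = 2 := by omega
  have e2 : finrank k (D.g 2) + finrank k (L.J ^ 3 : Submodule k A) ≤
      finrank k (L.J ^ 2 : Submodule k A) := hg2le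
  have h2 : finrank k (D.g 2) ≤ 2 := by omega
  refine false_of_two_gen (D := D) hN hs1' h2 h3 ?_
  -- the dihedral case
  rintro _ ⟨a, ha, rfl⟩ _ ⟨b, hb, rfl⟩ hab XX YY
  have haJ : a ∈ L.J := by simpa using ha
  have hbJ : b ∈ L.J := by simpa using hb
  set X := L.cl 1 a with hXdef
  set Y := L.cl 1 b with hYdef
  have hg1eq := g1_eq_pair hs1' ⟨a, ha, rfl⟩ ⟨b, hb, rfl⟩ hab
  have hg2span : D.g 2 ≤ span k ({X * Y, Y * X} : Set L.Gr) := by
    rw [show (2 : ℕ) = 1 + 1 by rfl, ← D.mul_g, hg1eq]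
    refine span_mul_span_le ?_
    intro p hp q hq
    simp only [Set.mem_insert_iff, Set.mem_singleton_iff] at hp hq
    rcases hp with rfl | rfl <;> rcases hq with rfl | rfl
    · rw [XX]; exact zero_mem _
    · exact subset_span (Set.mem_insert _ _)
    · exact subset_span (Set.mem_insert_of_mem _ rfl)
    · rw [YY]; exact zero_mem _
  have hs2 : 2 ≤ finrank k (D.g 2) :=
    D.two_le_finrank (i := 2) (by omega) (show 2 + 1 ≤ L.N by omega) (by omega)
  have hker2 : ∀ u ∈ L.J ^ 2, L.cl 2 u = 0 → u ∈ L.J ^ 3 := by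
    intro u hu h0
    have h := finrank_map_add_finrank_inf_ker (L.J ^ 2) (L.cl 2)
    have hle : L.J ^ 3 ≤ L.J ^ 2 ⊓ LinearMap.ker (L.cl 2) :=
      le_inf h32 fun a ha => L.cl_eq_zero ha (by omega)
    have : 2 ≤ finrank k ((L.J ^ 2).map (L.cl 2)) := hs2
    rw [Submodule.eq_of_le_of_finrank_le hle (by omega)]
    exact ⟨hu, h0⟩
  have haa : a * a ∈ L.J ^ 3 :=
    hker2 _ (L.mul_mem ha ha) (by rw [show (2 : ℕ) = 1 + 1 by rfl, L.cl_mul ha ha]; exact XX)
  have hbb : b * b ∈ L.J ^ 3 :=
    hker2 _ (L.mul_mem hb hb) (by rw [show (2 : ℕ) = 1 + 1 by rfl, L.cl_mul hb hb]; exact YY)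
  have clab : L.cl 2 (a * b) = X * Y := by rw [show (2 : ℕ) = 1 + 1 by rfl, L.cl_mul ha hb]
  have clba : L.cl 2 (b * a) = Y * X := by rw [show (2 : ℕ) = 1 + 1 by rfl, L.cl_mul hb ha]
  have hJ2 : L.J ^ 2 ≤ L.J ^ 3 ⊔ span k ({a * b, a * b + b * a} : Set A) := by
    intro u hu
    obtain ⟨s, t, hst⟩ := mem_span_pair.1 (hg2span ⟨u, hu, rfl⟩)
    have h0 : u - ((s - t) • (a * b) + t • (a * b + b * a)) ∈ L.J ^ 3 := by
      refine hker2 _ (sub_mem hu (add_mem (Submodule.smul_mem _ _ (L.mul_mem ha hb))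
        (Submodule.smul_mem _ _ (add_mem (L.mul_mem ha hb) (L.mul_mem hb ha))))) ?_
      simp only [map_sub, map_add, map_smul, clab, clba]
      rw [← hst]; module
    exact Submodule.mem_sup.2 ⟨_, h0, _, add_mem
      (Submodule.smul_mem _ _ (subset_span (Set.mem_insert _ _)))
      (Submodule.smul_mem _ _ (subset_span (Set.mem_insert_of_mem _ rfl))), sub_add_cancel _ _⟩
  have hJgen : L.J ≤ L.J ^ 2 ⊔ span k ({a, b} : Set A) := by
    intro u hu
    have hm : L.cl 1 u ∈ D.g 1 := ⟨u, L.mem_one hu, rfl⟩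
    rw [hg1eq] at hm
    obtain ⟨s, t, hst⟩ := mem_span_pair.1 hm
    have hker1 : ∀ u ∈ L.J, L.cl 1 u = 0 → u ∈ L.J ^ 2 := by
      intro u hu h0
      have h := finrank_map_add_finrank_inf_ker (L.J ^ 1) (L.cl 1)
      have hle : L.J ^ 2 ≤ L.J ^ 1 ⊓ LinearMap.ker (L.cl 1) :=
        le_inf (L.pow_succ_le le_rfl) fun a ha => L.cl_eq_zero ha le_rfl
      have : 2 ≤ finrank k ((L.J ^ 1).map (L.cl 1)) := hs1'.ge
      have hd : finrank k (L.J ^ 1 : Submodule k A) = finrank k L.J := by rw [pow_one]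
      rw [Submodule.eq_of_le_of_finrank_le hle (by omega)]
      exact ⟨L.mem_one hu, h0⟩
    refine Submodule.mem_sup.2 ⟨u - (s • a + t • b), hker1 _ (sub_mem hu
      (add_mem (Submodule.smul_mem _ _ haJ) (Submodule.smul_mem _ _ hbJ))) ?_, _,
      mem_span_pair.2 ⟨s, t, rfl⟩, sub_add_cancel _ _⟩
    simp only [map_sub, map_add, map_smul]
    rw [← hst, sub_self]
  set W := span k ({a * (a * b) - a * b * a, b * (a * b) - a * b * b} : Set A) ⊔
    commSub L.J (L.J ^ 3) with hW
  have hcomm2 : commSub L.J (L.J ^ 2) ≤ W := by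
    refine commSub_le fun p hp q hq => ?_
    obtain ⟨p2, hp2, pg, hpg, rfl⟩ := Submodule.mem_sup.1 (hJgen hp)
    obtain ⟨q3, hq3, qg, hqg, rfl⟩ := Submodule.mem_sup.1 (hJ2 hq)
    obtain ⟨s, t, rfl⟩ := mem_span_pair.1 hpg
    obtain ⟨s', t', rfl⟩ := mem_span_pair.1 hqg
    have m1 : a * (a * b) - a * b * a ∈ W := mem_sup_left (subset_span (Set.mem_insert _ _))
    have m2 : b * (a * b) - a * b * b ∈ W :=
      mem_sup_left (subset_span (Set.mem_insert_of_mem _ rfl))
    have m3 : a * (a * b + b * a) - (a * b + b * a) * a ∈ W := by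
      have e : a * (a * b + b * a) - (a * b + b * a) * a = -(b * (a * a) - a * a * b) := by
        noncomm_ring
      rw [e]; exact neg_mem (mem_sup_right (comm_mem_commSub hbJ haa))
    have m4 : b * (a * b + b * a) - (a * b + b * a) * b ∈ W := by
      have e : b * (a * b + b * a) - (a * b + b * a) * b = -(a * (b * b) - b * b * a) := by
        noncomm_ring
      rw [e]; exact neg_mem (mem_sup_right (comm_mem_commSub haJ hbb))
    have e : (p2 + (s • a + t • b)) * (q3 + (s' • (a * b) + t' • (a * b + b * a))) -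
        (q3 + (s' • (a * b) + t' • (a * b + b * a))) * (p2 + (s • a + t • b)) =
        ((p2 + (s • a + t • b)) * q3 - q3 * (p2 + (s • a + t • b))) +
        (p2 * (s' • (a * b) + t' • (a * b + b * a)) -
          (s' • (a * b) + t' • (a * b + b * a)) * p2) +
        ((s * s') • (a * (a * b) - a * b * a) +
          (s * t') • (a * (a * b + b * a) - (a * b + b * a) * a) +
          (t * s') • (b * (a * b) - a * b * b) +
          (t * t') • (b * (a * b + b * a) - (a * b + b * a) * b)) := by
      simp only [mul_add, add_mul, smul_mul_assoc, mul_smul_comm, smul_add, smul_sub, smul_smul]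
      module
    rw [e]
    refine add_mem (add_mem (mem_sup_right (comm_mem_commSub hp hq3)) (mem_sup_right ?_))
      (add_mem (add_mem (add_mem (W.smul_mem _ m1) (W.smul_mem _ m3)) (W.smul_mem _ m2))
        (W.smul_mem _ m4))
    exact L.comm_two_le 2 (comm_mem_commSub hp2 (add_mem
      (Submodule.smul_mem _ _ (L.mul_mem ha hb))
      (Submodule.smul_mem _ _ (add_mem (L.mul_mem ha hb) (L.mul_mem hb ha)))))
  have hu4 : a * b * (a * b) ∈ L.J ^ 4 := L.mul_mem (L.mul_mem ha hb) (L.mul_mem ha hb)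
  obtain ⟨q, hq, r, hqr⟩ := mem_sup_singleton.1 (hJ3 (L.pow_le (by omega) (by omega) hu4))
  obtain ⟨qs, hqs, w, hw, rfl⟩ := Submodule.mem_sup.1 (hcomm2 hq)
  obtain ⟨β, γ, rfl⟩ := mem_span_pair.1 hqs
  have hw4 : w ∈ L.J ^ 4 := L.comm_one_le (j := 3) hw
  -- degree three kills the two leading coefficients
  have cl12 : ∀ {p q : A}, p ∈ L.J ^ 1 → q ∈ L.J ^ 2 →
      L.cl 3 (p * q - q * p) = L.cl 1 p * L.cl 2 q - L.cl 2 q * L.cl 1 p := fun hp hq =>
    L.cl_comm (i := 1) (j := 2) hp hq
  have h3eq : β • (-(X * Y * X)) + γ • (Y * X * Y) = 0 := by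
    have h0 : L.cl 3 (β • (a * (a * b) - a * b * a) + γ • (b * (a * b) - a * b * b) + w + r • σ) =
        0 := by rw [hqr]; exact L.cl_eq_zero hu4 (by omega)
    rw [map_add, map_add, map_add, map_smul, map_smul, map_smul, L.cl_eq_zero hw4 (by omega),
      L.cl_eq_zero hσ4 (by omega), smul_zero, add_zero, add_zero,
      cl12 ha (L.mul_mem ha hb), cl12 hb (L.mul_mem ha hb), clab, ← mul_assoc, XX, zero_mul,
      zero_sub, ← mul_assoc, mul_assoc X Y Y, YY, mul_zero, sub_zero] at h0
    exact h0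
  have hg3 : D.g 3 ≤ span k ({X * Y * X, Y * X * Y} : Set L.Gr) := by
    rw [show (3 : ℕ) = 1 + 2 by rfl, ← D.mul_g, hg1eq]
    refine (mul_le_mul' le_rfl hg2span).trans (span_mul_span_le ?_)
    intro p hp q hq
    simp only [Set.mem_insert_iff, Set.mem_singleton_iff] at hp hq
    rcases hp with rfl | rfl <;> rcases hq with rfl | rfl
    · rw [← mul_assoc, XX, zero_mul]; exact zero_mem _
    · rw [← mul_assoc]; exact subset_span (Set.mem_insert _ _)
    · rw [← mul_assoc]; exact subset_span (Set.mem_insert_of_mem _ rfl)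
    · rw [← mul_assoc, YY, zero_mul]; exact zero_mem _
  have hind : LinearIndependent k ![X * Y * X, Y * X * Y] := by
    rw [linearIndependent_iff_card_le_finrank_span, Set.finrank, Matrix.range_cons_cons_empty,
      Fintype.card_fin]
    exact (D.two_le_finrank (i := 3) (by omega) (show 3 + 1 ≤ L.N by omega) (by omega)).trans
      (Submodule.finrank_mono hg3)
  obtain ⟨hβ, hγ⟩ := LinearIndependent.pair_iff.1 hind (-β) γ (by
    rw [neg_smul, ← smul_neg]; exact h3eq)
  rw [neg_eq_zero] at hβ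
  rw [hβ, hγ, zero_smul, zero_smul, zero_add, zero_add] at hqr
  have h4 : L.cl 4 w = X * Y * X * Y := by
    have h := congrArg (L.cl 4) hqr
    rw [map_add, map_smul, L.cl_eq_zero (L.pow_le (by omega) (by omega) hσ) (by omega), smul_zero,
      add_zero, show (4 : ℕ) = 2 + 2 by rfl, L.cl_mul (L.mul_mem ha hb) (L.mul_mem ha hb),
      clab, ← mul_assoc (X * Y)] at h
    exact h
  have hmem : L.cl (1 + 3) w ∈ commSub (D.g 1) (D.g 3) := L.cl_commSub hw
  rw [show (1 : ℕ) + 3 = 4 by rfl, h4] at hmem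
  have hle : commSub (D.g 1) (D.g 3) ≤
      span k ({X * Y * X * Y - Y * X * Y * X} : Set L.Gr) := by
    rw [hg1eq]
    refine commSub_span_le hg3 ?_
    have m : X * Y * X * Y - Y * X * Y * X ∈
        span k ({X * Y * X * Y - Y * X * Y * X} : Set L.Gr) := mem_span_singleton_self _
    intro p hp q hq
    simp only [Set.mem_insert_iff, Set.mem_singleton_iff] at hp hq
    rcases hp with rfl | rfl <;> rcases hq with rfl | rfl
    · simp [← hXdef, ← mul_assoc, XX, mul_assoc (X * Y) X X]
    · rw [← mul_assoc, ← mul_assoc]; exact m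
    · rw [← mul_assoc, ← mul_assoc]
      have := neg_mem m
      rwa [neg_sub] at this
    · simp [← hYdef, ← mul_assoc, YY, mul_assoc (Y * X) Y Y]
  exact hle hmem

include hN in
/-- Three generators, top degree at least six. -/
theorem false_three {σ : A} (hσ : σ ∈ L.J ^ L.N) (hσK : σ ∉ commSub L.J L.J)
    (ha1 : finrank k L.J = finrank k (L.J ^ 2 : Submodule k A) + 3)
    (hK : finrank k (L.J ^ 2 : Submodule k A) ≤ finrank k (commSub L.J L.J) + 1)
    {x y z : A} (hx : x ∈ L.J) (hy : y ∈ L.J) (hz : z ∈ L.J)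
    (hgen : L.J ≤ L.J ^ 2 ⊔ span k ({x, y, z} : Set A)) : False := by
  set D := L.grSym with hD
  set K := commSub L.J L.J with hKdef
  have hσ3 : σ ∈ L.J ^ 3 := L.pow_le (by omega) (by omega) hσ
  have hσ4 : σ ∈ L.J ^ 4 := L.pow_le (by omega) (by omega) hσ
  have hσ2 : σ ∈ L.J ^ 2 := L.pow_le (by omega) (by omega) hσ
  have hJ2 : K ⊔ span k {σ} = L.J ^ 2 := by
    refine Submodule.eq_of_le_of_finrank_le (sup_le L.comm_le_two (span_le.2 (by simpa using hσ2))) ?_
    have : finrank k K < finrank k (K ⊔ span k {σ} : Submodule k A) :=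
      Submodule.finrank_lt_finrank_of_lt (lt_of_le_of_ne le_sup_left fun e =>
        hσK (e.symm ▸ mem_sup_right (mem_span_singleton_self σ)))
    omega
  have h2 : D.g 2 ≤ commSub (D.g 1) (D.g 1) := by
    rintro _ ⟨u, hu, rfl⟩
    rw [SetLike.mem_coe, ← hJ2] at hu
    obtain ⟨q, hq, r, rfl⟩ := mem_sup_singleton.1 hu
    rw [map_add, map_smul, L.cl_eq_zero hσ3 (by omega), smul_zero, add_zero]
    have hq' : q ∈ commSub L.J (L.J ^ 1) := by rwa [pow_one]
    exact L.cl_commSub hq'
  have hg1pos : D.g 1 ≠ ⊥ := L.gr_ne_bot (by omega)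
  have e1 : finrank k (D.g 1) + finrank k (L.J ^ 2 : Submodule k A) ≤
      finrank k (L.J ^ 1 : Submodule k A) := L.finrank_gr_le le_rfl
  rw [pow_one] at e1
  have h1 : finrank k (D.g 1) = 3 := by
    by_contra hne
    have hlt : finrank k (D.g 1) ≤ 2 := by omega
    obtain ⟨X, hX, hXne⟩ := (Submodule.ne_bot_iff _).1 hg1pos
    obtain ⟨Y, hY, W'', hW'', hW''le, hW''d⟩ := exists_gen (W' := span k {X}) (W := D.g 1) (m := 0)
      (span_le.2 (by simpa using hX)) (by rw [finrank_span_singleton hXne]; omega)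
    have hg1eq : D.g 1 = span k ({X, Y} : Set L.Gr) := by
      rw [← Submodule.eq_of_le_of_finrank_le hW''le (by omega), hW'',
        Set.pair_comm, span_insert, sup_comm]
    have hle : D.g 2 ≤ span k {X * Y - Y * X} := h2.trans (by rw [hg1eq]; exact comm_pair_le)
    have hs2 := finrank_le_one_of_le_singleton hle
    by_cases hs1 : 2 ≤ finrank k (D.g 1)
    · have := D.two_le_finrank (i := 2) (by omega) (show 2 + 1 ≤ L.N by omega) hs1
      omega
    · refine L.gr_ne_bot (show 2 ≤ L.N by omega) (eq_bot_iff.2 (h2.trans ?_))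
      have : D.g 1 = span k {X} := (Submodule.eq_of_le_of_finrank_le
        (span_le.2 (by simpa using hX)) (by rw [finrank_span_singleton hXne]; omega)).symm
      rw [this]
      refine commSub_span_le le_rfl fun a ha b hb => ?_
      rw [Set.mem_singleton_iff.1 ha, Set.mem_singleton_iff.1 hb, sub_self]
      exact zero_mem _
  refine Base.false_of_base (D := D) ⟨hN, h1, h2⟩ fun hs2 => ?_
  set c1 := x * y - y * x
  set c2 := x * z - z * x
  set c3 := y * z - z * y
  have hKle : K ≤ span k ({c1, c2, c3} : Set A) ⊔ commSub L.J (L.J ^ 2) :=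
    (L.comm_le_of_gen (by simp [Set.insert_subset_iff, hx, hy, hz]) hgen).trans
      (sup_le_sup_right comm_triple_le _)
  have hc : ∀ q ∈ commSub L.J (L.J ^ 2), q ∈ L.J ^ 3 := fun q hq => L.comm_one_le hq
  have hspan : D.g 2 ≤ span k ({L.cl 2 c1, L.cl 2 c2, L.cl 2 c3} : Set L.Gr) := by
    rintro _ ⟨u, hu, rfl⟩
    rw [SetLike.mem_coe, ← hJ2] at hu
    obtain ⟨w, hw, r, rfl⟩ := mem_sup_singleton.1 hu
    obtain ⟨p, hp, q, hq, rfl⟩ := Submodule.mem_sup.1 (hKle hw)
    obtain ⟨s1, s2, s3, rfl⟩ := mem_span_triple.1 hp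
    rw [map_add, map_add, map_smul _ r, L.cl_eq_zero hσ3 (by omega), smul_zero, add_zero,
      L.cl_eq_zero (hc q hq) (by omega), add_zero]
    exact mem_span_triple.2 ⟨s1, s2, s3, by simp⟩
  have hind : LinearIndependent k ![L.cl 2 c1, L.cl 2 c2, L.cl 2 c3] := by
    rw [linearIndependent_iff_card_le_finrank_span, Set.finrank, range_triple, Fintype.card_fin]
    exact hs2.ge.trans (Submodule.finrank_mono hspan)
  rintro _ ⟨u, hu, rfl⟩
  have hu2 : u ∈ L.J ^ 2 := L.pow_succ_le (by omega) hu
  rw [← hJ2] at hu2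
  obtain ⟨w, hw, r, rfl⟩ := mem_sup_singleton.1 hu2
  obtain ⟨p, hp, q, hq, rfl⟩ := Submodule.mem_sup.1 (hKle hw)
  obtain ⟨s1, s2, s3, rfl⟩ := mem_span_triple.1 hp
  have h0 := L.cl_eq_zero hu (show 1 ≤ 2 by omega)
  rw [map_add, map_add, map_smul _ r, L.cl_eq_zero hσ3 (by omega), smul_zero, add_zero,
    L.cl_eq_zero (hc q hq) (by omega), add_zero, map_add, map_add, map_smul, map_smul,
    map_smul] at h0
  have h := Fintype.linearIndependent_iff.1 hind ![s1, s2, s3] (by
    simpa [Fin.sum_univ_three] using h0)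
  rw [show s1 = 0 from h 0, show s2 = 0 from h 1, show s3 = 0 from h 2]
  simp only [zero_smul, add_zero, zero_add, map_add, map_smul, L.cl_eq_zero hσ4 (show 1 ≤ 3 by omega),
    smul_zero]
  exact L.cl_commSub hq

/-- A local symmetric algebra with at most five independent trace functions has dimension at most
fifteen. -/
theorem finrank_le_fifteen (hc : finrank k A ≤ finrank k (commSub L.J L.J) + 5) :
    finrank k A ≤ 15 := by
  classical
  have hn := L.finrank_le_succ
  have hn' := L.finrank_succ_le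
  by_cases hN1 : L.N ≤ 1
  · have h2 : L.J ^ 2 = ⊥ := L.pow_eq_bot (by omega)
    have h := Submodule.finrank_mono L.comm_le_two
    rw [h2, finrank_bot] at h
    omega
  obtain ⟨σ, hσ, hσne⟩ := L.exists_socle
  have hσK : σ ∉ commSub L.J L.J := fun h => hσne (L.ε_comm h)
  set K := commSub L.J L.J with hKdef
  have hσ2 : σ ∈ L.J ^ 2 := L.pow_le (by omega) (by omega) hσ
  have hle2 : K ⊔ span k {σ} ≤ L.J ^ 2 := sup_le L.comm_le_two (span_le.2 (by simpa using hσ2))
  have hlt : finrank k K < finrank k (K ⊔ span k {σ} : Submodule k A) :=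
    Submodule.finrank_lt_finrank_of_lt (lt_of_le_of_ne le_sup_left fun e =>
      hσK (e.symm ▸ mem_sup_right (mem_span_singleton_self σ)))
  have hK2 := Submodule.finrank_mono hle2
  have hJ21 : L.J ^ 2 ≤ L.J := by rw [pow_two]; exact L.J_mul_J_le
  have hJd := Submodule.finrank_mono hJ21
  obtain ⟨x, hx, W1, hW1, hW1le, hW1d⟩ :=
    exists_gen hJ21 (m := 2) (show finrank k L.J ≤ finrank k (L.J ^ 2 : Submodule k A) + 3 by omega)
  by_cases h1 : finrank k L.J ≤ finrank k (L.J ^ 2 : Submodule k A) + 1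
  · obtain ⟨x', hx', W', hW', hW'le, hW'd⟩ := exists_gen hJ21 (m := 0) (by omega)
    have he := Submodule.eq_of_le_of_finrank_le hW'le (by omega)
    have hb : K = ⊥ := L.commSub_eq_bot hx' (he ▸ hW'.le)
    rw [hb, finrank_bot] at hc
    omega
  have h32 : L.J ^ 3 ≤ L.J ^ 2 := L.pow_succ_le (by omega)
  have cube := L.two_mul_finrank_cube
  by_cases h2 : finrank k L.J ≤ finrank k (L.J ^ 2 : Submodule k A) + 2
  · obtain ⟨x, hx, W1, hW1, hW1le, hW1d⟩ := exists_gen hJ21 (m := 1) (by omega)
    obtain ⟨y, hy, W2, hW2, hW2le, hW2d⟩ := exists_gen hW1le (m := 0) (by omega)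
    have he := Submodule.eq_of_le_of_finrank_le hW2le (by omega)
    have hgen : L.J ≤ L.J ^ 2 ⊔ span k ({x, y} : Set A) :=
      he.symm.le.trans (le_of_eq (by rw [hW2, hW1, span_insert, sup_assoc]))
    by_cases hN : 6 ≤ L.N
    · exact (L.false_two (hN := hN) hσ hσK (by omega) (show _ ≤ finrank k K + 2 by omega) hx hy hgen).elim
    have hKle : K ≤ L.J ^ 3 ⊔ span k {x * y - y * x} :=
      ((L.comm_le_of_gen (by simp [Set.insert_subset_iff, hx, hy]) hgen).trans
        (sup_le_sup comm_pair_le (L.comm_one_le (j := 2)))).trans (by rw [sup_comm])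
    have := (Submodule.finrank_mono hKle).trans (finrank_sup_singleton_le _ _)
    have := cube (by omega)
    omega
  obtain ⟨y, hy, W2, hW2, hW2le, hW2d⟩ := exists_gen hW1le (m := 1) hW1d
  obtain ⟨z, hz, W3, hW3, hW3le, hW3d⟩ := exists_gen hW2le (m := 0) hW2d
  have he := Submodule.eq_of_le_of_finrank_le hW3le (by omega)
  have hgen : L.J ≤ L.J ^ 2 ⊔ span k ({x, y, z} : Set A) :=
    he.symm.le.trans (le_of_eq (by rw [hW3, hW2, hW1, span_insert, span_insert, sup_assoc, sup_assoc]))
  by_cases hN : 6 ≤ L.N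
  · exact (L.false_three (hN := hN) hσ hσK (by omega) (show _ ≤ finrank k K + 1 by omega) hx hy hz hgen).elim
  have hKle : K ≤ L.J ^ 3 ⊔ span k ({x * y - y * x, x * z - z * x, y * z - z * y} : Set A) :=
    ((L.comm_le_of_gen (by simp [Set.insert_subset_iff, hx, hy, hz]) hgen).trans
      (sup_le_sup comm_triple_le (L.comm_one_le (j := 2)))).trans (by rw [sup_comm])
  have h3 := (Submodule.finrank_add_le_finrank_add_finrank (L.J ^ 3)
    (span k ({x * y - y * x, x * z - z * x, y * z - z * y} : Set A))).trans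
    (Nat.add_le_add_left (finrank_span_triple_le _ _ _) _)
  have hKd := (Submodule.finrank_mono hKle).trans h3
  by_cases hN3 : 3 ≤ L.N
  · have hσ3 : σ ∈ L.J ^ 3 := L.pow_le (by omega) hN3 hσ
    have hle : K ⊔ span k {σ} ≤
        L.J ^ 3 ⊔ span k ({x * y - y * x, x * z - z * x, y * z - z * y} : Set A) :=
      sup_le hKle ((span_le.2 (by simpa using hσ3)).trans le_sup_left)
    have := (Submodule.finrank_mono hle).trans h3
    have := cube (by omega)
    omega
  · have h30 : finrank k (L.J ^ 3 : Submodule k A) = 0 := by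
      rw [L.pow_eq_bot (by omega), finrank_bot]
    omega

end LocalSym

end CfsgLib.SymLocalFive
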