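import Cfsg.Agent.Lib.BrauerCharacters.LocalCorner
import Cfsg.Agent.Lib.SymLocalFive.Bound

/-!
# The basic algebra of an algebra with one simple module and five trace functions
-/

set_option autoImplicit false
set_option linter.unusedSectionVars false
set_option linter.style.haveILetI false

namespace CfsgLib.SymLocalFive

open Module Submodule CfsgLib.BrauerCharacters

section CornerAlgebra

variable {k : Type*} [Field k] {B : Type*} [Ring B] [Algebra k B] {f : B}

theorem smul_mem_corner (hf : IsIdempotentElem f) (r : k) {x : B}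
    (hx : x ∈ Subsemigroup.corner f) : r • x ∈ Subsemigroup.corner f := by
  rw [Subsemigroup.mem_corner_iff hf] at hx ⊢
  rw [mul_smul_comm, smul_mul_assoc, hx.1, hx.2]
  exact ⟨rfl, rfl⟩

instance cornerSMul (hf : IsIdempotentElem f) : SMul k hf.Corner :=
  ⟨fun r x => ⟨r • x.1, smul_mem_corner hf r x.2⟩⟩

instance cornerModule (hf : IsIdempotentElem f) : Module k hf.Corner :=
  Function.Injective.module k
    { toFun := fun x : hf.Corner => x.1, map_zero' := rfl, map_add' := fun _ _ => rfl }
    Subtype.val_injective fun _ _ => rfl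

instance cornerTower (hf : IsIdempotentElem f) : IsScalarTower k hf.Corner hf.Corner :=
  ⟨fun r x y => Subtype.ext (smul_mul_assoc r x.1 y.1)⟩

instance cornerSMulComm (hf : IsIdempotentElem f) : SMulCommClass k hf.Corner hf.Corner :=
  ⟨fun r x y => Subtype.ext (mul_smul_comm r x.1 y.1).symm⟩

instance cornerAlgebra (hf : IsIdempotentElem f) : Algebra k hf.Corner :=
  Algebra.ofModule (fun r x y => Subtype.ext (smul_mul_assoc r x.1 y.1))
    (fun r x y => Subtype.ext (mul_smul_comm r x.1 y.1))

/-- The inclusion of the corner. -/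
def cornerVal (hf : IsIdempotentElem f) : hf.Corner →ₗ[k] B where
  toFun x := x.1
  map_add' _ _ := rfl
  map_smul' _ _ := rfl

theorem range_cornerVal (hf : IsIdempotentElem f) :
    LinearMap.range (cornerVal (k := k) hf) =
      LinearMap.range ((LinearMap.mulLeft k f).comp (LinearMap.mulRight k f)) := by
  ext x
  constructor
  · rintro ⟨y, rfl⟩
    obtain ⟨h1, h2⟩ := (Subsemigroup.mem_corner_iff hf).1 y.2
    exact ⟨y.1, by simp [h1, h2]; rfl⟩
  · rintro ⟨y, rfl⟩
    exact ⟨⟨f * (y * f), (Subsemigroup.mem_corner_iff hf).2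
      ⟨by rw [← mul_assoc, hf.eq], by rw [mul_assoc, mul_assoc, hf.eq]⟩⟩, rfl⟩

end CornerAlgebra

variable {k : Type*} [Field k] [IsAlgClosed k] {B : Type*} [Ring B] [Algebra k B]
  [FiniteDimensional k B] {n : ℕ} (π : B →ₐ[k] Matrix (Fin n) (Fin n) k)

/-- One simple module, at most five trace functions and a symmetrising form. -/
theorem exists_idem_of_finrank_le_five (hn : 0 < n) (hπ : Function.Surjective π)
    (hnil : IsNilpotent (RingHom.ker π)) (hc5 : finrank k (B ⧸ commSpan k B) ≤ 5) (ε : B →ₗ[k] k)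
    (hε : ∀ x y, ε (x * y) = ε (y * x)) (hnd : ∀ x, (∀ y, ε (x * y) = 0) → x = 0) :
    ∃ (f : B) (a : ℕ), f * f = f ∧ a ≤ 15 ∧ finrank k B = a * n ^ 2 ∧
      finrank k (LinearMap.range (LinearMap.mulRight k f)) = a * n := by
  classical
  obtain ⟨f, A, hff, hπf, hA, hdim, hdimL, -, hle⟩ := exists_corner π hn hπ hnil
  refine ⟨f, finrank k A, hff, ?_, by rw [hdim, mul_comm], by rw [hdimL, mul_comm]⟩
  have hf : IsIdempotentElem f := hff
  set v := cornerVal (k := k) hf with hv
  have hvinj : Function.Injective v := Subtype.val_injective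
  haveI : FiniteDimensional k hf.Corner := Module.Finite.of_injective v hvinj
  have hAv : A = LinearMap.range v := hA.trans (range_cornerVal hf).symm
  have hfA : finrank k A = finrank k hf.Corner := by
    rw [hAv, LinearMap.finrank_range_of_inj hvinj]
  set o : Fin n := ⟨0, hn⟩
  set K : Ideal B := RingHom.ker π with hK
  haveI : K.IsTwoSided := by rw [hK]; infer_instance
  set J : Submodule k hf.Corner := (K.restrictScalars k).comap v with hJ
  have hmem : ∀ x : hf.Corner, x ∈ J ↔ π x.1 = 0 := fun x => RingHom.mem_ker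
  have hdec : ∀ a : hf.Corner, ∃ r : k, a - r • 1 ∈ J := by
    intro a
    refine ⟨π a.1 o o, ?_⟩
    rw [hmem]
    show π (a.1 - π a.1 o o • f) = 0
    obtain ⟨h1, h2⟩ := (Subsemigroup.mem_corner_iff hf).1 a.2
    rw [map_sub, map_smul, hπf]
    conv_lhs => enter [1]; rw [← h2, ← h1, map_mul, map_mul, hπf]
    simp [Matrix.single_mul_mul_single, o]
  have hone : (1 : hf.Corner) ≠ 0 := by
    intro h
    have h' : π f = 0 := by rw [show f = (0 : B) from congrArg Subtype.val h, map_zero]
    have := congrFun (congrFun (hπf.symm.trans h') o) o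
    simp at this
  have hpow : ∀ m, ∀ u ∈ J ^ (m + 1), u.1 ∈ K ^ (m + 1) := by
    intro m
    induction m with
    | zero => intro u hu; rw [pow_one] at hu; rw [Submodule.pow_one]; exact hu
    | succ m ih =>
      intro u hu
      rw [pow_succ] at hu
      refine Submodule.mul_induction_on hu (fun a ha b hb => ?_) fun x y hx hy => ?_
      · rw [Submodule.pow_succ]; exact Ideal.mul_mem_mul (ih a ha) hb
      · exact add_mem hx hy
  have hex : ∃ N, J ^ (N + 1) = ⊥ := by
    obtain ⟨N0, hN0⟩ := hnil
    refine ⟨N0, (Submodule.eq_bot_iff _).2 fun u hu => ?_⟩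
    have h := hpow N0 u hu
    rw [Submodule.pow_succ, hN0, Submodule.zero_eq_bot, Submodule.bot_mul, Submodule.mem_bot] at h
    exact Subtype.ext h
  have hN : J ^ Nat.find hex ≠ ⊥ := by
    rcases Nat.eq_zero_or_pos (Nat.find hex) with h | h
    · rw [h, pow_zero]
      intro h1
      apply hone
      have : (1 : hf.Corner) ∈ (⊥ : Submodule k hf.Corner) := h1 ▸ Submodule.one_le.1 le_rfl
      simpa using this
    · intro h1
      have := Nat.find_min hex (Nat.sub_lt h one_pos)
      rw [show Nat.find hex - 1 + 1 = Nat.find hex by omega] at this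
      exact this h1
  let L : LocalSym k hf.Corner :=
    { J := J
      mulL := fun a x hx => (hmem _).2 (by
        show π (a.1 * x.1) = 0
        rw [map_mul, (hmem x).1 hx, mul_zero])
      mulR := fun a x hx => (hmem _).2 (by
        show π (x.1 * a.1) = 0
        rw [map_mul, (hmem x).1 hx, zero_mul])
      dec := hdec
      N := Nat.find hex
      hN := hN
      hN1 := Nat.find_spec hex
      ε := ε.comp v
      symm := fun a b => hε a.1 b.1
      nd := fun a ha => by
        obtain ⟨h1, h2⟩ := (Subsemigroup.mem_corner_iff hf).1 a.2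
        refine Subtype.ext (hnd _ fun y => ?_)
        have h := ha ⟨f * y * f, (Subsemigroup.mem_corner_iff hf).2
          ⟨by rw [← mul_assoc, ← mul_assoc, hff], by rw [mul_assoc, hff]⟩⟩
        change ε (a.1 * (f * y * f)) = 0 at h
        rw [← mul_assoc, ← mul_assoc, h2, hε, ← mul_assoc, h1] at h
        exact h }
  rw [hfA]
  refine L.finrank_le_fifteen ?_
  refine le_trans ?_ (Nat.add_le_add_left hc5 _)
  rw [← hfA]
  refine hle.trans (Nat.add_le_add_right ?_ _)
  rw [(Submodule.equivMapOfInjective v hvinj (commSub L.J L.J)).finrank_eq]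
  refine Submodule.finrank_mono (Submodule.span_le.2 ?_)
  rintro _ ⟨x, hx, y, hy, rfl⟩
  rw [hAv] at hx hy
  obtain ⟨x, rfl⟩ := hx
  obtain ⟨y, rfl⟩ := hy
  obtain ⟨r, hr⟩ := hdec x
  obtain ⟨s, hs⟩ := hdec y
  refine ⟨(x - r • 1) * (y - s • 1) - (y - s • 1) * (x - r • 1), comm_mem_commSub hr hs, ?_⟩
  have e : (x - r • 1) * (y - s • 1) - (y - s • 1) * (x - r • 1) = x * y - y * x := by
    simp only [sub_mul, mul_sub, smul_mul_assoc, mul_smul_comm, one_mul, mul_one, smul_sub,
      smul_smul, mul_comm r s]
    abel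
  rw [e]
  rfl

end CfsgLib.SymLocalFive
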