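import Cfsg.Agent.Lib.BrauerCharacters.BlockOneSimple
import Cfsg.Agent.Lib.SymLocalFive.Corner

/-!
# The block algebra of a block of rank one with five characters

The same argument as for at most four characters, with the bound fifteen for the basic algebra.
-/

set_option autoImplicit false
set_option linter.unusedSectionVars false
set_option linter.style.haveILetI false

namespace CfsgLib.SymLocalFive

open Cfsg CfsgLib.CharTheory CfsgLib.Blocks CfsgLib.BrauerCharacters MonoidAlgebra Module
open scoped Matrix

variable {G : Type*} [Group G] [Fintype G] {p : ℕ} [Fact p.Prime] {M : Ideal AlgInt}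
  {B : Set (IrrCharacter G)}

/-- For a block of rank one with at most five characters, the sum of the squares of the degrees
is `a n ^ 2` with `a ≤ 15`, and every `p`-subgroup has order dividing `a n`. -/
theorem exists_dim_of_blockRank_one (hM : IsPModular p M) (hB : IsPBlock M B)
    (hl : blockRank p B = 1) (hk : Nat.card B ≤ 5) :
    ∃ a n : ℕ, a ≤ 15 ∧
      ∑ᶠ χ ∈ B, ((charDegree (χ : G → ℂ) : ℂ)) ^ 2 = (a : ℂ) * (n : ℂ) ^ 2 ∧
      ∀ P : Subgroup G, IsPGroup p P → Nat.card P ∣ a * n := by
  classical
  haveI : M.IsMaximal := hM.2.1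
  haveI : M.IsPrime := isPrime_of_isPModular hM
  haveI := isAlgClosed_res (M := M)
  haveI := charP_res (M := M) hM
  haveI := Fintype.ofFinite (ConjClasses G)
  haveI := Fintype.ofFinite (IrrCharacter G)
  set eR : MonoidAlgebra (locRing M) G :=
    (idemLoc M B (memLocalRing_blockCoeff hB) : MonoidAlgebra (locRing M) G) with heR
  have heRc : IsClassElem eR := (idemLoc M B (memLocalRing_blockCoeff hB)).2
  have heRi : eR * eR = eR := congrArg Subtype.val (idemLoc_mul_self (memLocalRing_blockCoeff hB))
  set e : MonoidAlgebra (Res M) G := mapRingHom G (red M) eR with he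
  have hec : IsClassElem e := heRc.map _
  have hei : e * e = e := by rw [he, ← map_mul, heRi]
  haveI := isTwoSided_annIdeal hec
  haveI := finiteDimensional_annQuot (e := e)
  obtain ⟨r, hr⟩ := exists_rank_of_idempotent (regMat_mul_self heRi)
  obtain ⟨r', hr'⟩ := exists_rank_of_idempotent (clsMat_mul_self heRc heRi)
  have hr1 : (r : ℂ) = ∑ᶠ χ ∈ B, ((charDegree (χ : G → ℂ) : ℂ)) ^ 2 := by
    rw [← (hr ℂ (locRing M).subtype).2, regMat_map, heR, map_idemLoc, trace_regMat_blockIdem]
  have hr2 : r' = Nat.card B := by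
    have h := (hr' ℂ (locRing M).subtype).2
    rw [clsMat_map, heR, map_idemLoc, trace_clsMat_blockIdem] at h
    exact_mod_cast h.symm
  have hdim : finrank (Res M) (MonoidAlgebra (Res M) G ⧸ annIdeal e) = r := by
    rw [← (hr (Res M) (red M)).1, regMat_map, ← he, finrank_annQuot]
  have hc : finrank (Res M) ((MonoidAlgebra (Res M) G ⧸ annIdeal e) ⧸
      commSpan (Res M) (MonoidAlgebra (Res M) G ⧸ annIdeal e)) = Nat.card B := by
    rw [finrank_annQuot_comm hec hei, ← hr2, ← (hr' (Res M) (red M)).1, clsMat_map, ← he]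
  have hBne : Nat.card B ≠ 0 := by
    haveI : Nonempty B := (isPBlock_nonempty hB).to_subtype
    exact Nat.card_pos.ne'
  -- one Brauer character
  obtain ⟨D, hD⟩ := exists_isDefectGroup hM hB
  obtain ⟨φ, d, ⟨cn, hφn⟩, hdφ, -⟩ := Cfsg.Agent.S4675.result p M hM B hB D hD hl
  obtain ⟨y, hy⟩ := exists_isDefectClass hM hB
  obtain ⟨j, hj, hj0⟩ := exists_height_eq_zero (p := p) (isPBlock_nonempty hB)
  have hyreg : IsPRegular p y := not_dvd_orderOf_of_isDefectClass hM hB hy
  have hφR : ∀ x, IsPRegular p x → MemLocalRing M (φ x) := fun x hx => by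
    rw [hφn x hx, finsum_mem_eq_sum_blockFinset]
    exact memLocalRing_sum fun ψ _ => memLocalRing_mul (memLocalRing_intCast _)
      (memLocalRing_of_isIntegral
        (CharTheory.IsCharacter.isIntegral (CharTheory.IsIrrCharacter.isCharacter ψ.2) x))
  let φb : ∀ x, IsPRegular p x → Res M := fun x hx => red M ⟨φ x, hφR x hx⟩
  have hφy : φb y hyreg ≠ 0 := by
    rw [red_ne_zero_iff]
    intro h
    refine not_memLocalIdeal_irr_of_blockHeight_eq_zero hM hB hy hj hj0 ?_
    rw [hdφ j hj y hyreg]
    exact memLocalIdeal_mul_left (memLocalRing_natCast _) h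
  have hline : ∀ f : ConjClasses G → Res M, clsMat e *ᵥ f = f → ∀ x (hx : IsPRegular p x),
      f (ConjClasses.mk x) * φb y hyreg = f (ConjClasses.mk y) * φb x hx := by
    intro f hf x hx
    choose v hv using fun c => IsLocalRing.residue_surjective (f c)
    set w := clsMat eR *ᵥ v with hw
    have hwf : ∀ c, red M (w c) = f c := fun c => by
      conv_rhs => rw [← hf, he, ← clsMat_map]
      simp only [hw, Matrix.mulVec, dotProduct, map_sum, map_mul, Matrix.map_apply]
      exact Finset.sum_congr rfl fun i _ => by rw [← hv i]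
    let vC : G → ℂ := fun g => (v (ConjClasses.mk g) : ℂ)
    have hvC : IsClassFunction G vC := fun g h => by
      show ((v _ : locRing M) : ℂ) = _
      congr 2
      exact ConjClasses.mk_eq_mk_iff_isConj.2 (IsConj.symm (isConj_iff.2 ⟨h, by group⟩))
    set a := fun χ : IrrCharacter G => classInner vC (χ : G → ℂ)
    have hexp : ∀ g, IsPRegular p g →
        ((w (ConjClasses.mk g) : locRing M) : ℂ) =
          (∑ χ : IrrCharacter G, if χ ∈ B then a χ * (d χ : ℂ) else 0) * φ g := by
      intro g hg
      have h1 : ((w (ConjClasses.mk g) : locRing M) : ℂ) =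
          ∑ h : G, blockCoeff B h * vC (g * h) := by
        rw [hw, clsMat_mulVec heRc]
        push_cast
        exact Finset.sum_congr rfl fun h _ => by rw [heR, coe_coeff_idemLoc]
      have h2 : ∀ h : G, vC (g * h) = ∑ χ : IrrCharacter G, a χ * (χ : G → ℂ) (h * g) := by
        intro h
        have h3 := congrFun (eq_sum_classInner hvC) (g * h)
        rw [h3, Finset.sum_apply]
        refine Finset.sum_congr rfl fun χ _ => ?_
        rw [Pi.smul_apply, smul_eq_mul]
        congr 1
        conv_lhs => rw [show g * h = g * (h * g) * g⁻¹ by group]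
        exact IsIrrCharacter.isClassFunction χ.2 _ _
      simp only [h1, h2, Finset.mul_sum]
      rw [Finset.sum_comm, Finset.sum_mul]
      refine Finset.sum_congr rfl fun χ _ => ?_
      simp only [← mul_assoc, mul_comm (blockCoeff B _) (a χ)]
      simp only [mul_assoc, ← Finset.mul_sum]
      rw [sum_blockCoeff_mul_apply B χ g]
      by_cases hχ : χ ∈ B
      · simp [hχ, hdφ χ hχ g hg, mul_assoc]
      · simp [hχ]
    rw [← hwf, ← hwf, ← map_mul, ← map_mul]
    congr 1
    refine Subtype.ext ?_
    push_cast
    rw [hexp x hx, hexp y hyreg]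
    ring
  -- one simple module
  haveI := IsArtinianRing.of_finite (Res M) (MonoidAlgebra (Res M) G ⧸ annIdeal e)
  obtain ⟨m, dm, hdm, ⟨iso⟩⟩ :=
    IsSemisimpleRing.exists_algEquiv_pi_matrix_of_isAlgClosed (Res M)
      ((MonoidAlgebra (Res M) G ⧸ annIdeal e) ⧸
        Ring.jacobson (MonoidAlgebra (Res M) G ⧸ annIdeal e))
  set π := iso.toAlgHom.comp
    (Ideal.Quotient.mkₐ (Res M) (Ring.jacobson (MonoidAlgebra (Res M) G ⧸ annIdeal e)))
    with hπdef
  have hπ : Function.Surjective π := iso.surjective.comp (Ideal.Quotient.mkₐ_surjective (Res M) _)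
  have hker : RingHom.ker π = Ring.jacobson (MonoidAlgebra (Res M) G ⧸ annIdeal e) := by
    ext x
    rw [RingHom.mem_ker]
    show iso (Ideal.Quotient.mk _ x) = 0 ↔ _
    rw [map_eq_zero_iff iso iso.injective, Ideal.Quotient.eq_zero_iff_mem]
  have hnil : IsNilpotent (RingHom.ker π) := hker ▸ IsSemiprimaryRing.isNilpotent
  have hm0 : m ≠ 0 := by
    rintro rfl
    have h1 : (1 : MonoidAlgebra (Res M) G ⧸ annIdeal e) ∈ RingHom.ker π :=
      RingHom.mem_ker.2 (funext fun i => i.elim0)
    obtain ⟨N, hN⟩ := hnil
    have h3 := Ideal.pow_mem_pow h1 N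
    rw [hN, one_pow, Submodule.zero_eq_bot, Submodule.mem_bot] at h3
    haveI := subsingleton_of_zero_eq_one h3.symm
    rw [finrank_zero_of_subsingleton] at hc
    exact hBne hc.symm
  have hm1 : m = 1 := by
    by_contra hne
    have i0 : Fin m := ⟨0, Nat.pos_of_ne_zero hm0⟩
    obtain ⟨i1, hi1⟩ : ∃ i1 : Fin m, i1 ≠ i0 := by
      by_contra h
      push Not at h
      haveI : Subsingleton (Fin m) := ⟨fun a b => (h a).trans (h b).symm⟩
      have := Fintype.card_le_one_iff_subsingleton.2 ‹Subsingleton (Fin m)›
      rw [Fintype.card_fin] at this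
      omega
    let T : Fin m → (MonoidAlgebra (Res M) G ⧸ annIdeal e) →ₗ[Res M] Res M := fun i =>
      ((Matrix.traceLinearMap (Fin (dm i)) (Res M) (Res M)).comp
        (LinearMap.proj i)).comp π.toLinearMap
    have hTtr : ∀ i u v, T i (u * v) = T i (v * u) := fun i u v => by
      show (π (u * v) i).trace = (π (v * u) i).trace
      rw [map_mul, map_mul, Pi.mul_apply, Pi.mul_apply, Matrix.trace_mul_comm]
    set c := fun i => T i (annMap e (single y 1))
    have hval : ∀ i g, ∃ x, ∃ hx : IsPRegular p x,
        T i (annMap e (single g 1)) * φb y hyreg = c i * φb x hx ∧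
        ∀ i', T i' (annMap e (single g 1)) * φb y hyreg = c i' * φb x hx := by
      intro i g
      obtain ⟨x, hx⟩ := exists_isPPart p g
      obtain ⟨x', hg, hcomm, hxp, hx'⟩ := hx
      have hall : ∀ i', T i' (annMap e (single g 1)) * φb y hyreg = c i' * φb x' hx' := by
        intro i'
        obtain ⟨hcl, hfix⟩ := clsMat_mulVec_trace hec hei (T i') (hTtr i')
        have h := hline _ hfix x' hx'
        rw [hcl, hcl] at h
        have htr : T i' (annMap e (single g 1)) = T i' (annMap e (single x' 1)) := by
          let ρ : G →* Matrix (Fin (dm i')) (Fin (dm i')) (Res M) :=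
            (((Pi.evalAlgHom (Res M) _ i').comp π).comp (annMap e)).toMonoidHom.comp
              (MonoidAlgebra.of (Res M) G)
          rw [← hg]
          exact trace_mul_eq_of_commute ρ hcomm hxp
        rw [htr]
        exact h
      exact ⟨x', hx', hall i, hall⟩
    have hzero : ∀ a, c i1 * T i0 a = c i0 * T i1 a := by
      intro a
      obtain ⟨b, rfl⟩ := annMap_surjective a
      induction b using MonoidAlgebra.induction_linear with
      | zero => simp
      | add u v hu hv => simp only [map_add, mul_add, hu, hv]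
      | single g s =>
        obtain ⟨x, hx, -, hall⟩ := hval i0 g
        rw [show single g s = s • single g (1 : Res M) by rw [smul_single', mul_one], map_smul,
          map_smul, map_smul, smul_eq_mul, smul_eq_mul]
        refine mul_right_cancel₀ hφy ?_
        linear_combination c i1 * s * hall i0 - c i0 * s * hall i1
    have hTs : ∀ i, ∃ a, T i a = 1 ∧ ∀ i', i' ≠ i → T i' a = 0 := by
      intro i
      haveI := hdm i
      obtain ⟨a, ha⟩ := hπ (Pi.single i (Matrix.single
        ⟨0, Nat.pos_of_ne_zero (hdm i).out⟩ ⟨0, Nat.pos_of_ne_zero (hdm i).out⟩ 1))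
      refine ⟨a, ?_, fun i' hi' => ?_⟩
      · show (π a i).trace = 1
        rw [ha, Pi.single_eq_same, Matrix.trace_single_eq_same]
      · show (π a i').trace = 0
        rw [ha, Pi.single_eq_of_ne hi', Matrix.trace_zero]
    obtain ⟨a0, ha0, ha0'⟩ := hTs i0
    have hc1 : c i1 = 0 := by
      have := hzero a0
      rwa [ha0, ha0' i1 hi1, mul_one, mul_zero] at this
    obtain ⟨a1, ha1, ha1'⟩ := hTs i1
    have : T i1 a1 = 0 := by
      obtain ⟨b, rfl⟩ := annMap_surjective a1
      clear ha1 ha1'
      induction b using MonoidAlgebra.induction_linear with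
      | zero => simp
      | add u v hu hv => simp only [map_add, hu, hv, add_zero]
      | single g s =>
        obtain ⟨x, hx, -, hall⟩ := hval i0 g
        have h := hall i1
        rw [hc1, zero_mul, mul_eq_zero, or_iff_left hφy] at h
        rw [show single g s = s • single g (1 : Res M) by rw [smul_single', mul_one], map_smul,
          map_smul, h, smul_zero]
    rw [ha1] at this
    exact one_ne_zero this
  subst hm1
  let evl : (Π i, Matrix (Fin (dm i)) (Fin (dm i)) (Res M)) →ₐ[Res M]
      Matrix (Fin (dm 0)) (Fin (dm 0)) (Res M) := Pi.evalAlgHom _ _ 0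
  have hkk : RingHom.ker (evl.comp π) = RingHom.ker π := by
    ext x
    simp only [RingHom.mem_ker, evl, AlgHom.comp_apply, Pi.evalAlgHom_apply]
    refine ⟨fun h => funext fun i => ?_, fun h => by rw [h]; rfl⟩
    obtain rfl := Subsingleton.elim i 0
    exact h
  obtain ⟨ε, hεtr, hnd⟩ := exists_symm_form hec hei
  obtain ⟨f, A', hff, hA', hfdim, hfL⟩ := exists_idem_of_finrank_le_five (evl.comp π)
    (Nat.pos_of_ne_zero (hdm 0).out)
    (fun z => by
      obtain ⟨x, hx⟩ := hπ (Pi.single 0 z)
      exact ⟨x, by simp [evl, hx]⟩)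
    (hkk ▸ hnil) (hc.le.trans hk) ε hεtr hnd
  refine ⟨A', dm 0, hA', ?_, fun P hP => ?_⟩
  · rw [← hr1, ← hdim, hfdim]
    push_cast
    ring
  · obtain ⟨a, rfl⟩ := annMap_surjective f
    set F := a * e with hFdef
    have hF : F * F = F := by
      rw [← map_mul, annMap_eq_iff] at hff
      calc a * e * (a * e) = a * (e * a) * e := by simp only [mul_assoc]
        _ = a * a * (e * e) := by rw [← (hec.commute a).eq]; simp only [mul_assoc]
        _ = a * e := by rw [hei, hff]
    have h := card_dvd_finrank_range_mulRight P hP hF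
    suffices heq : finrank (Res M) (LinearMap.range (LinearMap.mulRight (Res M) F)) =
        finrank (Res M) (LinearMap.range (LinearMap.mulRight (Res M) (annMap e a))) by
      rwa [heq, hfL] at h
    set R1 := LinearMap.range (LinearMap.mulRight (Res M) F)
    have hmap : R1.map (annMap e).toLinearMap =
        LinearMap.range (LinearMap.mulRight (Res M) (annMap e a)) := by
      ext z
      constructor
      · rintro ⟨_, ⟨x, rfl⟩, rfl⟩
        exact ⟨annMap e x, by simp [hFdef, annMap_mul_self hei]⟩
      · rintro ⟨z', rfl⟩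
        obtain ⟨x, rfl⟩ := annMap_surjective z'
        exact ⟨x * F, ⟨x, rfl⟩, by simp [hFdef, annMap_mul_self hei]⟩
    rw [← hmap]
    refine LinearEquiv.finrank_eq (LinearEquiv.ofBijective
      (((annMap e).toLinearMap.comp R1.subtype).codRestrict (R1.map (annMap e).toLinearMap)
        fun z => Submodule.mem_map_of_mem z.2) ⟨?_, ?_⟩)
    · rw [← LinearMap.ker_eq_bot, Submodule.eq_bot_iff]
      rintro ⟨z, x, rfl⟩ hz
      have hz' : annMap e (x * F) = 0 := congrArg Subtype.val (LinearMap.mem_ker.1 hz)
      rw [annMap_eq_zero, hFdef, mul_assoc, mul_assoc, hei] at hz'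
      exact Subtype.ext (by simpa [hFdef, mul_assoc] using hz')
    · rintro ⟨_, z, hz, rfl⟩
      exact ⟨⟨z, hz⟩, rfl⟩

end CfsgLib.SymLocalFive
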