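import Cfsg.Agent.Lib.SymLocalFive.BlockFive
import Cfsg.Agent.S4676
import Cfsg.Agent.S0908

/-!
# The order of the defect group of a block of rank one with five characters
-/

set_option autoImplicit false
set_option linter.style.haveILetI false

namespace CfsgLib.SymLocalFive

open Cfsg CfsgLib.BrauerCharacters CfsgLib.Blocks

variable {G : Type*} [Group G] [Finite G] {p : ℕ} [Fact p.Prime] {M : Ideal AlgInt}
  {B : Set (IrrCharacter G)}

theorem sum_sq_form {ι : Type*} [DecidableEq ι] (d : ι → ℕ) (s : Finset ι)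
    (h : ∀ i ∈ s, d i ≠ 0) (hle : ∑ i ∈ s, d i ^ 2 ≤ 15) :
    ∃ a b, ∑ i ∈ s, d i ^ 2 = s.card + 3 * a + 8 * b := by
  induction s using Finset.induction_on with
  | empty => exact ⟨0, 0, by simp⟩
  | insert i s hi ih =>
    rw [Finset.sum_insert hi] at hle ⊢
    obtain ⟨a, b, hab⟩ := ih (fun j hj => h j (Finset.mem_insert_of_mem hj)) (by omega)
    rw [Finset.card_insert_of_notMem hi, hab]
    have h0 := h i (Finset.mem_insert_self i s)
    have h3 : d i ≤ 3 := by nlinarith
    rcases (show d i = 1 ∨ d i = 2 ∨ d i = 3 by omega) with e | e | e <;> rw [e]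
    · exact ⟨a, b, by ring⟩
    · exact ⟨a + 1, b, by ring⟩
    · exact ⟨a, b + 1, by ring⟩

/-- The defect group has order 5, 8, 11 or 13. -/
theorem card_defect_of_five (hM : IsPModular p M) (hB : IsPBlock M B) {D : Subgroup G}
    (hD : IsDefectGroup p M B D) (hl : blockRank p B = 1) (hk : Nat.card B = 5) :
    Nat.card D = 5 ∨ Nat.card D = 8 ∨ Nat.card D = 11 ∨ Nat.card D = 13 := by
  classical
  haveI := Fintype.ofFinite G
  haveI := CfsgLib.Blocks.isPrime_of_isPModular hM
  have hp : p.Prime := Fact.out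
  obtain ⟨φ, dn, ⟨cn, hφn⟩, hdφ, hsum⟩ := Cfsg.Agent.S4675.result p M hM B hB D hD hl
  obtain ⟨a, n, ha, hn, hproj⟩ := exists_dim_of_blockRank_one hM hB hl hk.le
  obtain ⟨j, hj, hj0⟩ := exists_height_eq_zero (p := p) (isPBlock_nonempty hB)
  have hone : Cfsg.IsPRegular p (1 : G) := by
    show ¬ p ∣ orderOf (1 : G)
    rw [orderOf_one, Nat.dvd_one]; exact hp.one_lt.ne'
  set z : ℤ := ∑ ψ ∈ blockFinset B, cn ψ * (charDegree (ψ : G → ℂ) : ℤ) with hz
  have hz1 : φ 1 = (z : ℂ) := by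
    rw [hφn 1 hone, finsum_mem_eq_sum_blockFinset, hz]
    push_cast
    exact Finset.sum_congr rfl fun ψ _ => by rw [(charDegree_spec ψ).1]
  have hdeg : ∀ χ ∈ B, (charDegree (χ : G → ℂ) : ℤ) = (dn χ : ℤ) * z := fun χ hχ => by
    have := hdφ χ hχ 1 hone
    rw [hz1, (charDegree_spec χ).1] at this
    exact_mod_cast this
  set zn := z.natAbs
  have hdegn : ∀ χ ∈ B, charDegree (χ : G → ℂ) = dn χ * zn := fun χ hχ => by
    have := congrArg Int.natAbs (hdeg χ hχ)
    simpa [Int.natAbs_mul] using this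
  have hdn0 : ∀ χ ∈ B, dn χ ≠ 0 := fun χ hχ h =>
    (charDegree_spec χ).2.1.ne' (by rw [hdegn χ hχ, h, zero_mul])
  set t := sInf ((fun ψ : Cfsg.IrrCharacter G =>
    (charDegree (ψ : G → ℂ)).factorization p) '' B) with ht
  have htj : (charDegree (j : G → ℂ)).factorization p = t := by
    have h1 := sInf_le_degree (p := p) hj
    rw [← ht] at h1
    have h2 := hj0
    unfold Cfsg.blockHeight at h2
    omega
  have hpt : p ^ t ∣ zn := by
    rw [← Int.natCast_dvd, hz]
    refine Finset.dvd_sum fun ψ hψ => Dvd.dvd.mul_left ?_ _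
    exact Int.natCast_dvd_natCast.2
      ((pow_dvd_pow p (sInf_le_degree (p := p) (mem_blockFinset.1 hψ))).trans
        (Nat.ordProj_dvd _ p))
  have hzn0 : zn ≠ 0 := fun h => (charDegree_spec j).2.1.ne' (by rw [hdegn j hj, h, mul_zero])
  have hzt : zn.factorization p = t := by
    refine le_antisymm ?_ ((hp.pow_dvd_iff_le_factorization hzn0).1 hpt)
    rw [← htj]
    exact (Nat.factorization_le_iff_dvd hzn0 (charDegree_spec j).2.1.ne').2
      ⟨dn j, by rw [hdegn j hj, mul_comm]⟩ p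
  set d := Cfsg.blockDefect p B with hd
  have hDc : Nat.card D = p ^ d := Cfsg.Agent.S0908.result p M hM B hB D hD
  have hkey : p ^ d * zn ^ 2 = a * n ^ 2 := by
    rw [← hDc, ← hsum, finsum_mem_eq_sum_blockFinset, Finset.sum_mul]
    rw [finsum_mem_eq_sum_blockFinset] at hn
    have hn' : ∑ χ ∈ blockFinset B, charDegree (χ : G → ℂ) ^ 2 = a * n ^ 2 := by exact_mod_cast hn
    rw [← hn']
    exact Finset.sum_congr rfl fun χ hχ => by rw [hdegn χ (mem_blockFinset.1 hχ), mul_pow]
  have h0 : a * n ^ 2 ≠ 0 := by rw [← hkey]; simp [hp.ne_zero, hzn0]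
  obtain ⟨ha0, hn0'⟩ := mul_ne_zero_iff.1 h0
  have hn0 : n ≠ 0 := fun h => hn0' (by rw [h]; rfl)
  obtain ⟨P⟩ := (inferInstance : Nonempty (Sylow p G))
  have hP := hproj P P.2
  rw [P.card_eq_multiplicity] at hP
  have hv := (hp.pow_dvd_iff_le_factorization (mul_ne_zero ha0 hn0)).1 hP
  have hv2 := congrArg (fun x => x.factorization p) hkey
  rw [Nat.factorization_mul ha0 hn0, Finsupp.add_apply] at hv
  simp only [Nat.factorization_mul (pow_ne_zero d hp.ne_zero) (pow_ne_zero 2 hzn0),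
    Nat.factorization_mul ha0 hn0', Nat.factorization_pow, Finsupp.add_apply,
    Finsupp.smul_apply, smul_eq_mul, hp.factorization_self, hzt, mul_one] at hv2
  have hde := defect_add_degree (p := p) hj
  rw [hj0, htj] at hde
  have hdvd : p ^ d ∣ a := (pow_dvd_pow p (show d ≤ a.factorization p by omega)).trans
    (Nat.ordProj_dvd _ p)
  have hD15 : p ^ d ≤ 15 := (Nat.le_of_dvd (Nat.pos_of_ne_zero ha0) hdvd).trans ha
  rw [finsum_mem_eq_sum_blockFinset, hDc] at hsum
  obtain ⟨u, v, huv⟩ := sum_sq_form dn (blockFinset B)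
    (fun χ hχ => hdn0 χ (mem_blockFinset.1 hχ)) (hsum ▸ hD15)
  rw [hsum, card_blockFinset, hk] at huv
  rw [hDc]
  have h14 : p ^ d ≠ 14 := fun h => by
    have h2 : 2 ∣ p ^ d := ⟨7, by omega⟩
    have h7 : 7 ∣ p ^ d := ⟨2, by omega⟩
    have e2 := (Nat.prime_dvd_prime_iff_eq Nat.prime_two hp).1 (Nat.prime_two.dvd_of_dvd_pow h2)
    have e7 := (Nat.prime_dvd_prime_iff_eq (by norm_num) hp).1
      ((show Nat.Prime 7 by norm_num).dvd_of_dvd_pow h7)
    omega
  have hu : u ≤ 3 := by omega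
  have hv' : v ≤ 1 := by omega
  interval_cases u <;> interval_cases v <;> omega

end CfsgLib.SymLocalFive
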