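import Cfsg.Agent.Lib.SymLocalFive.Rees
import Cfsg.Agent.Lib.SymLocalFive.Base

/-!
# The radical filtration of a local symmetric algebra
-/

set_option autoImplicit false
set_option linter.unusedSectionVars false

namespace CfsgLib.SymLocalFive

open Module Submodule

section Mul

variable {k A : Type*} [Field k] [Ring A] [Algebra k A]

theorem commSub_le {P Q W : Submodule k A} (h : ∀ a ∈ P, ∀ b ∈ Q, a * b - b * a ∈ W) :
    commSub P Q ≤ W :=
  span_le.2 fun _ ⟨a, ha, b, hb, e⟩ => e ▸ h a ha b hb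

theorem comm_mem_commSub {P Q : Submodule k A} {a b : A} (ha : a ∈ P) (hb : b ∈ Q) :
    a * b - b * a ∈ commSub P Q := subset_span ⟨a, ha, b, hb, rfl⟩

theorem commSub_mono {P Q P' Q' : Submodule k A} (h : P ≤ P') (h' : Q ≤ Q') :
    commSub P Q ≤ commSub P' Q' :=
  commSub_le fun _ ha _ hb => comm_mem_commSub (h ha) (h' hb)

theorem commSub_mul_le (P Q R : Submodule k A) :
    commSub (P * Q) R ≤ commSub P (Q * R) ⊔ commSub Q (R * P) := by
  refine commSub_le fun u hu c hc => ?_
  refine Submodule.mul_induction_on hu (fun a ha b hb => ?_) fun x y hx hy => ?_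
  · rw [show a * b * c - c * (a * b) =
      (a * (b * c) - b * c * a) + (b * (c * a) - c * a * b) by noncomm_ring]
    exact add_mem (mem_sup_left (comm_mem_commSub ha (Submodule.mul_mem_mul hb hc)))
      (mem_sup_right (comm_mem_commSub hb (Submodule.mul_mem_mul hc ha)))
  · rw [show (x + y) * c - c * (x + y) = (x * c - c * x) + (y * c - c * y) by noncomm_ring]
    exact add_mem hx hy

theorem exists_gen [FiniteDimensional k A] {W' W : Submodule k A} (hle : W' ≤ W) {m : ℕ}
    (h : finrank k W ≤ finrank k W' + (m + 1)) :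
    ∃ v ∈ W, ∃ W'' : Submodule k A, W'' = W' ⊔ span k {v} ∧ W'' ≤ W ∧
      finrank k W ≤ finrank k W'' + m := by
  by_cases he : W ≤ W'
  · exact ⟨0, zero_mem _, _, rfl, sup_le hle (span_le.2 (by simp)),
      (Submodule.finrank_mono (he.trans le_sup_left)).trans (Nat.le_add_right _ _)⟩
  · obtain ⟨v, hv, hvn⟩ := SetLike.not_le_iff_exists.1 he
    have hlt : W' < W' ⊔ span k {v} := lt_of_le_of_ne le_sup_left fun e =>
      hvn (e.symm ▸ mem_sup_right (mem_span_singleton_self v))
    have := Submodule.finrank_lt_finrank_of_lt hlt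
    exact ⟨v, hv, _, rfl, sup_le hle (span_le.2 (by simpa using hv)), by omega⟩

theorem mem_sup_singleton {W : Submodule k A} {v u : A} :
    u ∈ W ⊔ span k {v} ↔ ∃ w ∈ W, ∃ r : k, w + r • v = u := by
  rw [Submodule.mem_sup]
  constructor
  · rintro ⟨w, hw, z, hz, rfl⟩
    obtain ⟨r, rfl⟩ := mem_span_singleton.1 hz
    exact ⟨w, hw, r, rfl⟩
  · rintro ⟨w, hw, r, rfl⟩
    exact ⟨w, hw, _, Submodule.smul_mem _ r (mem_span_singleton_self v), rfl⟩

theorem finrank_sup_singleton_le [FiniteDimensional k A] (W : Submodule k A) (v : A) :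
    finrank k (W ⊔ span k {v} : Submodule k A) ≤ finrank k W + 1 :=
  (Submodule.finrank_add_le_finrank_add_finrank _ _).trans
    (Nat.add_le_add_left (finrank_span_singleton_le v) _)

end Mul

namespace LocalSym

variable {k A : Type*} [Field k] [Ring A] [Algebra k A] [FiniteDimensional k A]
  (L : LocalSym k A)

theorem finrank_le_succ : finrank k A ≤ finrank k L.J + 1 := by
  have htop : (⊤ : Submodule k A) ≤ L.J ⊔ span k {1} := fun a _ => by
    obtain ⟨r, hr⟩ := L.dec a
    exact mem_sup_singleton.2 ⟨_, hr, r, sub_add_cancel a _⟩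
  have := (Submodule.finrank_mono htop).trans (finrank_sup_singleton_le L.J 1)
  rwa [finrank_top] at this

theorem finrank_succ_le : finrank k L.J + 1 ≤ finrank k A := by
  have hlt : L.J < ⊤ := lt_top_iff_ne_top.2 fun h => by
    have h1 : (1 : A) ∈ L.J := h ▸ Submodule.mem_top
    have h2 := Submodule.pow_mem_pow L.J h1 (L.N + 1)
    rw [L.hN1, one_pow, Submodule.mem_bot] at h2
    exact L.hN ((Submodule.eq_bot_iff _).2 fun a _ => by rw [← mul_one a, h2, mul_zero])
  exact Submodule.finrank_lt hlt.ne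

theorem nil {a : A} (ha : a ∈ L.J) : a ^ (L.N + 1) = 0 := by
  have := Submodule.pow_mem_pow L.J ha (L.N + 1)
  rwa [L.hN1, Submodule.mem_bot] at this

theorem pow_add_le {i j : ℕ} : commSub (L.J ^ i) (L.J ^ j) ≤ L.J ^ (i + j) :=
  commSub_le fun a ha b hb => sub_mem (L.mul_mem ha hb) (add_comm i j ▸ L.mul_mem hb ha)

theorem comm_one_le {j : ℕ} : commSub L.J (L.J ^ j) ≤ L.J ^ (j + 1) := by
  have h := L.pow_add_le (i := 1) (j := j)
  rwa [pow_one, add_comm] at h

theorem comm_two_le (m : ℕ) : commSub (L.J ^ 2) (L.J ^ m) ≤ commSub L.J (L.J ^ (m + 1)) := by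
  rw [pow_two]
  refine (commSub_mul_le _ _ _).trans (sup_le ?_ ?_)
  · rw [pow_succ']
  · rw [pow_succ]

theorem comm_le_two : commSub L.J L.J ≤ L.J ^ 2 := by
  have h := L.comm_one_le (j := 1)
  rwa [pow_one] at h

theorem ε_comm {u : A} (hu : u ∈ commSub L.J L.J) : L.ε u = 0 := by
  have h : commSub L.J L.J ≤ LinearMap.ker L.ε := commSub_le fun a _ b _ => by
    rw [LinearMap.mem_ker, map_sub, L.symm, sub_self]
  exact h hu

theorem exists_socle : ∃ s ∈ L.J ^ L.N, L.ε s ≠ 0 := by
  obtain ⟨a, ha, hne⟩ := (Submodule.ne_bot_iff _).1 L.hN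
  by_contra hcon
  push Not at hcon
  refine hne (L.nd a fun b => ?_)
  obtain ⟨r, hr⟩ := L.dec b
  have h0 : a * (b - r • 1) = 0 := by
    have := L.mul_mem ha (L.mem_one hr)
    rwa [L.hN1, Submodule.mem_bot] at this
  rw [show a * b = a * (b - r • 1) + r • a by rw [mul_sub, mul_smul_comm, mul_one, sub_add_cancel],
    h0, zero_add, map_smul, hcon a ha, smul_zero]

theorem two_mul_finrank_cube (h : L.N ≤ 5) :
    2 * finrank k (L.J ^ 3 : Submodule k A) ≤ finrank k A := by
  set W := L.J ^ 3 with hW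
  let ψ : A →ₗ[k] Module.Dual k A := LinearMap.mk₂ k (fun a b => L.ε (a * b))
    (fun a b c => by simp [add_mul]) (fun r a c => by simp)
    (fun a b c => by simp [mul_add]) (fun r a c => by simp)
  have hψ : Function.Injective ψ := by
    rw [← LinearMap.ker_eq_bot, Submodule.eq_bot_iff]
    intro a ha
    exact L.nd a fun b => congrArg (fun f => f b) (LinearMap.mem_ker.1 ha)
  have hsurj : Function.Surjective ψ :=
    (LinearMap.injective_iff_surjective_of_finrank_eq_finrank Subspace.dual_finrank_eq.symm).1 hψ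
  let φ : A →ₗ[k] Module.Dual k W := W.dualRestrict.comp ψ
  have hφ : Function.Surjective φ := Subspace.dualRestrict_surjective.comp hsurj
  have h1 := LinearMap.finrank_range_add_finrank_ker φ
  rw [LinearMap.range_eq_top.2 hφ, finrank_top, Subspace.dual_finrank_eq] at h1
  have hle : W ≤ LinearMap.ker φ := fun a ha => by
    rw [LinearMap.mem_ker]
    refine LinearMap.ext fun b => ?_
    show L.ε (a * (b : A)) = 0
    have := L.mul_mem ha b.2
    rw [L.pow_eq_bot (by omega), Submodule.mem_bot] at this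
    rw [this, map_zero]
  have := Submodule.finrank_mono hle
  omega

theorem finrank_gr_le {i : ℕ} (hi : 1 ≤ i) :
    finrank k (L.grSym.g i) + finrank k (L.J ^ (i + 1) : Submodule k A) ≤
      finrank k (L.J ^ i : Submodule k A) := by
  have h := finrank_map_add_finrank_inf_ker (L.J ^ i) (L.cl i)
  have hle : L.J ^ (i + 1) ≤ L.J ^ i ⊓ LinearMap.ker (L.cl i) :=
    le_inf (L.pow_succ_le hi) fun a ha => L.cl_eq_zero ha hi
  have := Submodule.finrank_mono hle
  show finrank k ((L.J ^ i).map (L.cl i)) + _ ≤ _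
  omega

theorem gr_top_ne_bot : L.grSym.g L.N ≠ ⊥ := by
  obtain ⟨s, hs, hne⟩ := L.exists_socle
  intro h
  have h1 : (1 : A) ∈ L.J ^ 0 := by rw [pow_zero]; exact Submodule.one_le.1 le_rfl
  have h2 : L.cl L.N s = 0 := by
    have : L.cl L.N s ∈ L.grSym.g L.N := ⟨s, hs, rfl⟩
    rwa [h, Submodule.mem_bot] at this
  apply hne
  have := L.grForm_cl (add_zero L.N) hs h1
  rw [h2, zero_mul, map_zero, mul_one] at this
  exact this.symm

theorem gr_ne_bot {i : ℕ} (hi : i ≤ L.N) : L.grSym.g i ≠ ⊥ := by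
  intro h
  refine L.gr_top_ne_bot ?_
  have := L.grSym.mul_g i (L.N - i)
  rw [h, Submodule.bot_mul, show i + (L.N - i) = L.N by omega] at this
  exact this.symm

theorem cl_comm {i j : ℕ} {a b : A} (ha : a ∈ L.J ^ i) (hb : b ∈ L.J ^ j) :
    L.cl (i + j) (a * b - b * a) = L.cl i a * L.cl j b - L.cl j b * L.cl i a := by
  rw [map_sub, L.cl_mul ha hb, add_comm i j, L.cl_mul hb ha]

theorem cl_commSub {j : ℕ} {u : A} (hu : u ∈ commSub L.J (L.J ^ j)) :
    L.cl (1 + j) u ∈ commSub (L.grSym.g 1) (L.grSym.g j) := by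
  have h : commSub L.J (L.J ^ j) ≤
      (commSub (L.grSym.g 1) (L.grSym.g j)).comap (L.cl (1 + j)) :=
    commSub_le fun a ha b hb => by
      rw [Submodule.mem_comap, L.cl_comm (L.mem_one ha) hb]
      exact comm_mem_commSub ⟨a, L.mem_one ha, rfl⟩ ⟨b, hb, rfl⟩
  exact h hu

end LocalSym

end CfsgLib.SymLocalFive
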