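import Cfsg.Agent.Lib.SymLocalFive.SmallRank
import Mathlib.LinearAlgebra.Dimension.OrzechProperty

/-!
# The generic case with three generators
-/

set_option autoImplicit false
set_option linter.unusedSectionVars false

namespace CfsgLib.SymLocalFive

open Module Submodule

variable {k S : Type*} [Field k] [Ring S] [Algebra k S] [FiniteDimensional k S]

/-- Three generators, three commutators, and every annihilator in degree one has dimension at most
one. -/
structure Generic (D : GSym k S) : Prop where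
  base : Base D
  hs2 : finrank k (D.g 2) = 3
  left : ∀ x ∈ D.g 1, x ≠ 0 → ∀ a ∈ D.g 1, ∀ b ∈ D.g 1, LinearIndependent k ![a, b] →
    x * a = 0 → x * b ≠ 0
  right : ∀ x ∈ D.g 1, x ≠ 0 → ∀ a ∈ D.g 1, ∀ b ∈ D.g 1, LinearIndependent k ![a, b] →
    a * x = 0 → b * x ≠ 0

namespace Generic

/-- The left annihilator of a degree one element in degree two. -/
def kerL (D : GSym k S) (u : S) : Submodule k S := D.g 2 ⊓ LinearMap.ker (LinearMap.mulLeft k u)

/-- The right annihilator of a degree one element in degree two. -/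
def kerR (D : GSym k S) (u : S) : Submodule k S := D.g 2 ⊓ LinearMap.ker (LinearMap.mulRight k u)

variable {D : GSym k S}

theorem mem_kerL {u c : S} : c ∈ kerL D u ↔ c ∈ D.g 2 ∧ u * c = 0 := by simp [kerL]

theorem mem_kerR {u c : S} : c ∈ kerR D u ↔ c ∈ D.g 2 ∧ c * u = 0 := by simp [kerR]

theorem op (hG : Generic D) : Generic D.op := by
  refine ⟨hG.base.op, (D.finrank_op 2).trans hG.hs2, ?_, ?_⟩
  all_goals
    rintro _ ⟨x, hx, rfl⟩ hne _ ⟨a, ha, rfl⟩ _ ⟨b, hb, rfl⟩ hab h1 h2
    have hab' : LinearIndependent k ![a, b] := by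
      rw [LinearIndependent.pair_iff] at hab ⊢
      intro s t hst
      refine hab s t ?_
      simp [← MulOpposite.op_smul, ← MulOpposite.op_add, hst]
    have hne' : x ≠ 0 := by simpa using hne
  · exact hG.right x hx hne' a ha b hb hab' (by simpa using congrArg MulOpposite.unop h1)
      (by simpa using congrArg MulOpposite.unop h2)
  · exact hG.left x hx hne' a ha b hb hab' (by simpa using congrArg MulOpposite.unop h1)
      (by simpa using congrArg MulOpposite.unop h2)

variable (hG : Generic D)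
include hG

theorem three_le : 6 ≤ D.N := hG.base.hN

theorem two_le_map_left {y : S} (hy : y ∈ D.g 1) (hne : y ≠ 0) :
    2 ≤ finrank k ((D.g 1).map (LinearMap.mulLeft k y)) := by
  by_contra h
  obtain ⟨a, ha, b, hb, hab, h1, h2⟩ := exists_two_ker (D.g 1) (LinearMap.mulLeft k y)
    (by rw [hG.base.h1]; omega)
  exact hG.left y hy hne a ha b hb hab h1 h2

theorem two_le_map_right {y : S} (hy : y ∈ D.g 1) (hne : y ≠ 0) :
    2 ≤ finrank k ((D.g 1).map (LinearMap.mulRight k y)) := by
  by_contra h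
  obtain ⟨a, ha, b, hb, hab, h1, h2⟩ := exists_two_ker (D.g 1) (LinearMap.mulRight k y)
    (by rw [hG.base.h1]; omega)
  exact hG.right y hy hne a ha b hb hab h1 h2

theorem finrank_kerL_le {u : S} (hu : u ∈ D.g 1) (hne : u ≠ 0) :
    finrank k (kerL D u) ≤ 2 := by
  by_contra h
  have he : kerL D u = D.g 2 :=
    Submodule.eq_of_le_of_finrank_le inf_le_left (by rw [hG.hs2]; omega)
  exact hne (hG.base.eq_zero_of_kill_g2_left hu fun c hc => (mem_kerL.1 (he.symm ▸ hc)).2)

theorem finrank_kerR_le {u : S} (hu : u ∈ D.g 1) (hne : u ≠ 0) :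
    finrank k (kerR D u) ≤ 2 := by
  by_contra h
  have he : kerR D u = D.g 2 :=
    Submodule.eq_of_le_of_finrank_le inf_le_left (by rw [hG.hs2]; omega)
  exact hne (hG.base.eq_zero_of_kill_g2_right hu fun c hc => (mem_kerR.1 (he.symm ▸ hc)).2)

theorem edge {u y : S} (hu : u ∈ D.g 1) (hune : u ≠ 0) (hy : y ∈ D.g 1) (hyne : y ≠ 0)
    (h : u * y = 0) :
    (D.g 1).map (LinearMap.mulLeft k y) = kerL D u ∧ finrank k (kerL D u) = 2 ∧
      finrank k (kerR D y) = 2 ∧ (∃ v ∈ D.g 1, v ≠ 0 ∧ y * v = 0) ∧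
      ∃ w ∈ D.g 1, w ≠ 0 ∧ w * u = 0 := by
  have hle : (D.g 1).map (LinearMap.mulLeft k y) ≤ kerL D u := by
    rintro _ ⟨t, ht, rfl⟩
    exact mem_kerL.2 ⟨D.mul_mem11 hy ht, by simp [← mul_assoc, h]⟩
  have hle' : (D.g 1).map (LinearMap.mulRight k u) ≤ kerR D y := by
    rintro _ ⟨t, ht, rfl⟩
    exact mem_kerR.2 ⟨D.mul_mem11 ht hu, by simp [mul_assoc, h]⟩
  have h1 := Submodule.finrank_mono hle
  have h2 := hG.two_le_map_left hy hyne
  have h3 := hG.finrank_kerL_le hu hune
  have h1' := Submodule.finrank_mono hle'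
  have h2' := hG.two_le_map_right hu hune
  have h3' := hG.finrank_kerR_le hy hyne
  exact ⟨Submodule.eq_of_le_of_finrank_le hle (by omega), by omega, by omega,
    exists_ne_zero_ker _ (LinearMap.mulLeft k y) (by rw [hG.base.h1]; omega),
    exists_ne_zero_ker _ (LinearMap.mulRight k u) (by rw [hG.base.h1]; omega)⟩

/-- Points of the curve: elements of degree one with a partner on the right. -/
def point (D : GSym k S) (u : S) : Prop :=
  u ∈ D.g 1 ∧ u ≠ 0 ∧ ∃ v ∈ D.g 1, v ≠ 0 ∧ u * v = 0

theorem exists_pred {u : S} (hu : point D u) : ∃ w ∈ D.g 1, w ≠ 0 ∧ w * u = 0 := by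
  obtain ⟨h1, h2, v, h3, h4, h5⟩ := hu
  exact (hG.edge h1 h2 h3 h4 h5).2.2.2.2

theorem finrank_kerL {u : S} (hu : point D u) : finrank k (kerL D u) = 2 := by
  obtain ⟨h1, h2, v, h3, h4, h5⟩ := hu
  exact (hG.edge h1 h2 h3 h4 h5).2.1

theorem finrank_kerR {u : S} (hu : point D u) : finrank k (kerR D u) = 2 := by
  obtain ⟨w, h3, h4, h5⟩ := hG.exists_pred hu
  exact (hG.edge h3 h4 hu.1 hu.2.1 h5).2.2.1

theorem mul_mul_eq_zero {u v : S} (hu : point D u) (hv : point D v)
    (hne : kerL D u ≠ kerR D v) {c : S} (hc : c ∈ D.g 2) : u * c * v = 0 := by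
  have hlt : kerL D u < kerL D u ⊔ kerR D v := by
    refine lt_of_le_of_ne le_sup_left fun he => hne ?_
    refine (Submodule.eq_of_le_of_finrank_le (he.symm ▸ le_sup_right) ?_).symm
    rw [hG.finrank_kerL hu, hG.finrank_kerR hv]
  have h1 := Submodule.finrank_lt_finrank_of_lt hlt
  rw [hG.finrank_kerL hu] at h1
  have he : kerL D u ⊔ kerR D v = D.g 2 :=
    Submodule.eq_of_le_of_finrank_le (sup_le inf_le_left inf_le_left) (by rw [hG.hs2]; omega)
  rw [← he, Submodule.mem_sup] at hc
  obtain ⟨c1, h1, c2, h2, rfl⟩ := hc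
  rw [mul_add, add_mul, (mem_kerL.1 h1).2, zero_mul, zero_add, mul_assoc, (mem_kerR.1 h2).2,
    mul_zero]

theorem exists_eq {u : S} (hu : point D u) {w : Fin 3 → S} (hw : ∀ i, point D (w i))
    (hi : LinearIndependent k w) : ∃ i, kerR D (w i) = kerL D u := by
  by_contra hcon
  push Not at hcon
  refine hu.2.1 (hG.base.eq_zero_of_kill_g2_left hu.1 fun c hc =>
    D.eq_zero_left (i := 3) (j := 1) (by have := hG.three_le; omega) (D.mul_mem12 hu.1 hc) ?_)
  have hg1 : D.g 1 = span k (Set.range w) :=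
    (Submodule.eq_of_le_of_finrank_le (span_le.2 (by rintro _ ⟨i, rfl⟩; exact (hw i).1))
      (by rw [hG.base.h1, finrank_span_eq_card hi, Fintype.card_fin])).symm
  intro t ht
  have hle : span k (Set.range w) ≤ LinearMap.ker (LinearMap.mulLeft k (u * c)) := by
    rw [span_le]
    rintro _ ⟨i, rfl⟩
    exact hG.mul_mul_eq_zero hu (hw i) (hcon i).symm hc
  exact hle (hg1 ▸ ht)

theorem kerL_injective {w : Fin 3 → S} (hw : ∀ i, point D (w i))
    (hi : LinearIndependent k w) : Function.Injective fun i => kerL D (w i) := by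
  intro i j hij
  by_contra hne
  obtain ⟨l, hli, hlj, hall⟩ : ∃ l : Fin 3, l ≠ i ∧ l ≠ j ∧ ∀ m, m = i ∨ m = j ∨ m = l := by
    clear hij; revert i j; decide
  have hpos : kerL D (w i) ⊓ kerL D (w l) ≠ ⊥ := by
    intro hb
    have h := Submodule.finrank_sup_add_finrank_inf_eq (kerL D (w i)) (kerL D (w l))
    have h' := Submodule.finrank_mono (sup_le inf_le_left inf_le_left :
      kerL D (w i) ⊔ kerL D (w l) ≤ D.g 2)
    rw [hb, finrank_bot, hG.finrank_kerL (hw i), hG.finrank_kerL (hw l)] at h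
    rw [hG.hs2] at h'
    omega
  obtain ⟨c, hc, hcne⟩ := (Submodule.ne_bot_iff _).1 hpos
  refine hcne (D.eq_zero_right (i := 2) (j := 1) (by have := hG.three_le; omega)
    (mem_kerL.1 hc.1).1 ?_)
  have hg1 : D.g 1 = span k (Set.range w) :=
    (Submodule.eq_of_le_of_finrank_le (span_le.2 (by rintro _ ⟨i, rfl⟩; exact (hw i).1))
      (by rw [hG.base.h1, finrank_span_eq_card hi, Fintype.card_fin])).symm
  intro t ht
  have hle : span k (Set.range w) ≤ LinearMap.ker (LinearMap.mulRight k c) := by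
    rw [span_le]
    rintro _ ⟨m, rfl⟩
    rcases hall m with rfl | rfl | rfl
    · exact (mem_kerL.1 hc.1).2
    · have : c ∈ kerL D (w m) := (show kerL D (w i) = kerL D (w m) from hij) ▸ hc.1
      exact (mem_kerL.1 this).2
    · exact (mem_kerL.1 hc.2).2
  exact hle (hg1 ▸ ht)

/-- Four points in general enough position are impossible. -/
theorem false_of_four {u : Fin 3 → S} (hu : ∀ i, point D (u i)) (hi : LinearIndependent k u)
    {c : Fin 3 → k} (h4 : point D (∑ i, c i • u i)) {j1 j2 : Fin 3} (hne : j1 ≠ j2)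
    (hc1 : c j1 ≠ 0) (hc2 : c j2 ≠ 0) : False := by
  classical
  have hinj := hG.kerL_injective hu hi
  have hbij : ∀ w : Fin 3 → S, (∀ i, point D (w i)) → LinearIndependent k w →
      (Function.Injective fun i => kerR D (w i)) ∧
        ∀ j, ∃ i, kerR D (w j) = kerL D (u i) := by
    intro w hw hwi
    choose σ hσ using fun i => hG.exists_eq (hu i) hw hwi
    have hσi : Function.Injective σ := fun a b h => hinj (by
      show kerL D (u a) = kerL D (u b)
      rw [← hσ a, ← hσ b, h])
    have hσs : Function.Surjective σ := Finite.injective_iff_surjective.1 hσi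
    refine ⟨fun a b hab => ?_, fun j => ?_⟩
    · obtain ⟨a', rfl⟩ := hσs a
      obtain ⟨b', rfl⟩ := hσs b
      exact congrArg σ (hinj (show kerL D (u a') = kerL D (u b') by
        rw [← hσ a', ← hσ b']; exact hab))
    · obtain ⟨i, rfl⟩ := hσs j
      exact ⟨i, hσ i⟩
  set u4 := ∑ i, c i • u i with hu4
  have key : ∀ j, c j ≠ 0 → kerR D u4 = kerR D (u j) := by
    intro j hj
    set w := Function.update u j u4 with hw
    have hwp : ∀ i, point D (w i) := fun i => by
      rcases eq_or_ne i j with rfl | h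
      · simpa [hw] using h4
      · simpa [hw, Function.update_of_ne h] using hu i
    have hwi : LinearIndependent k w := by
      rw [linearIndependent_iff_card_le_finrank_span, Set.finrank]
      refine le_of_eq_of_le (finrank_span_eq_card hi).symm (Submodule.finrank_mono (span_le.2 ?_))
      rintro _ ⟨i, rfl⟩
      have hm : ∀ i, i ≠ j → u i ∈ span k (Set.range w) := fun i h =>
        subset_span ⟨i, by rw [hw, Function.update_of_ne h]⟩
      rcases eq_or_ne i j with rfl | h
      · have he : c i • u i = u4 - ∑ l ∈ Finset.univ.erase i, c l • u l :=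
          eq_sub_of_add_eq (Finset.add_sum_erase _ (fun l => c l • u l) (Finset.mem_univ i))
        rw [SetLike.mem_coe, ← inv_smul_smul₀ hj (u i), he]
        exact Submodule.smul_mem _ _ (sub_mem (subset_span ⟨i, by simp [hw]⟩)
          (sum_mem fun l hl => Submodule.smul_mem _ _ (hm l (Finset.ne_of_mem_erase hl))))
      · exact hm i h
    obtain ⟨hinj', hrg'⟩ := hbij w hwp hwi
    obtain ⟨hinj'', -⟩ := hbij u hu hi
    choose σ hσ using fun i => hG.exists_eq (hu i) hu hi
    obtain ⟨i, hi'⟩ := hrg' j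
    rw [hw, Function.update_self, ← hσ i] at hi'
    rcases eq_or_ne (σ i) j with h | h
    · rw [hi', h]
    · refine absurd (hinj' (a₁ := σ i) (a₂ := j) ?_) h
      show kerR D (w (σ i)) = kerR D (w j)
      rw [hw, Function.update_of_ne h, Function.update_self, hi']
  obtain ⟨hinj'', -⟩ := hbij u hu hi
  exact hne (hinj'' ((key j1 hc1).symm.trans (key j2 hc2)))

/-- If all points lie in a plane, products with the plane in degree two span a line. -/
theorem exists_line {u1 u2 : S} (h1 : point D u1) (h2 : point D u2)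
    (hi : LinearIndependent k ![u1, u2]) (h12 : point D (u1 + u2))
    (hplane : ∀ u, point D u → u ∈ span k ({u1, u2} : Set S)) :
    ∃ e, ∀ a ∈ span k ({u1, u2} : Set S), ∀ c ∈ D.g 2, a * c ∈ span k ({e} : Set S) := by
  have hN := hG.three_le
  have hd1 := hG.finrank_kerL h1
  have hd2 := hG.finrank_kerL h2
  by_cases heq : kerL D u1 = kerL D u2
  · exfalso
    obtain ⟨hu1, hu1ne, y1, hy1, hy1ne, e1⟩ := h1
    obtain ⟨hu2, hu2ne, y2, hy2, hy2ne, e2⟩ := h2
    have p1 : point D y1 := ⟨hy1, hy1ne, (hG.edge hu1 hu1ne hy1 hy1ne e1).2.2.2.1⟩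
    have p2 : point D y2 := ⟨hy2, hy2ne, (hG.edge hu2 hu2ne hy2 hy2ne e2).2.2.2.1⟩
    have hind : LinearIndependent k ![y1, y2] := by
      refine linearIndependent_pair_of_not_mem hy1ne fun hm => ?_
      obtain ⟨t, rfl⟩ := mem_span_singleton.1 hm
      rw [mul_smul_comm, smul_eq_zero] at e2
      rcases e2 with rfl | e2
      · simp at hy2ne
      · exact hG.right y1 hy1 hy1ne u1 hu1 u2 hu2 hi e1 e2
    have hsp : span k ({y1, y2} : Set S) = span k ({u1, u2} : Set S) := by
      refine Submodule.eq_of_le_of_finrank_le (span_le.2 ?_) ?_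
      · simp [Set.insert_subset_iff, hplane _ p1, hplane _ p2]
      · rw [finrank_span_pair_of_indep hi, finrank_span_pair_of_indep hind]
    have hk : ∀ a ∈ span k ({u1, u2} : Set S), ∀ b ∈ span k ({u1, u2} : Set S),
        ∀ t ∈ D.g 1, a * (b * t) = 0 := by
      intro a ha b hb t ht
      rw [← hsp] at hb
      obtain ⟨s1, s2, rfl⟩ := mem_span_pair.1 ha
      obtain ⟨r1, r2, rfl⟩ := mem_span_pair.1 hb
      have q1 : y1 * t ∈ kerL D u1 := mem_kerL.2 ⟨D.mul_mem11 hy1 ht, by rw [← mul_assoc, e1, zero_mul]⟩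
      have q2 : y2 * t ∈ kerL D u2 := mem_kerL.2 ⟨D.mul_mem11 hy2 ht, by rw [← mul_assoc, e2, zero_mul]⟩
      have q3 : y1 * t ∈ kerL D u2 := heq ▸ q1
      have q4 : y2 * t ∈ kerL D u1 := heq.symm ▸ q2
      simp [add_mul, mul_add, smul_mul_assoc, mul_smul_comm, (mem_kerL.1 q1).2, (mem_kerL.1 q2).2,
        (mem_kerL.1 q3).2, (mem_kerL.1 q4).2]
    have m1 : u1 ∈ span k ({u1, u2} : Set S) := subset_span (Set.mem_insert _ _)
    have m2 : u2 ∈ span k ({u1, u2} : Set S) := subset_span (Set.mem_insert_of_mem _ rfl)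
    have hc0 : u1 * u2 - u2 * u1 = 0 := D.eq_zero_left (i := 2) (j := 1) (by omega)
      (D.comm_mem hu1 hu2) fun t ht => by
        rw [sub_mul, mul_assoc, mul_assoc, hk _ m1 _ m2 t ht, hk _ m2 _ m1 t ht, sub_self]
    have hnle : ¬ D.g 1 ≤ span k ({u1, u2} : Set S) := fun h => by
      have := (Submodule.finrank_mono h).trans (finrank_span_pair_le u1 u2)
      rw [hG.base.h1] at this
      omega
    obtain ⟨z, hz, hzn⟩ := SetLike.not_le_iff_exists.1 hnle
    have hle := hG.base.g2_le hu1 hu2 hz (linearIndependent_triple hi hzn)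
    rw [hc0, Submodule.span_insert_zero] at hle
    have := (Submodule.finrank_mono hle).trans (finrank_span_pair_le _ _)
    rw [hG.hs2] at this
    omega
  have hone : ∀ u, point D u → finrank k ((D.g 2).map (LinearMap.mulLeft k u)) = 1 := by
    intro u hu
    have h := finrank_map_add_finrank_inf_ker (D.g 2) (LinearMap.mulLeft k u)
    rw [show D.g 2 ⊓ LinearMap.ker (LinearMap.mulLeft k u) = kerL D u from rfl,
      hG.finrank_kerL hu, hG.hs2] at h
    omega
  obtain ⟨c, hc, hcn⟩ : ∃ c ∈ kerL D u1, c ∉ kerL D u2 := SetLike.not_le_iff_exists.1 fun hle =>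
    heq (Submodule.eq_of_le_of_finrank_le hle (by omega))
  obtain ⟨d, hd, hdn⟩ : ∃ d ∈ kerL D u2, d ∉ kerL D u1 := SetLike.not_le_iff_exists.1 fun hle =>
    heq (Submodule.eq_of_le_of_finrank_le hle (by omega)).symm
  set e := u1 * d with he
  have hene : e ≠ 0 := fun h => hdn (mem_kerL.2 ⟨(mem_kerL.1 hd).1, h⟩)
  have hfne : u2 * c ≠ 0 := fun h => hcn (mem_kerL.2 ⟨(mem_kerL.1 hc).1, h⟩)
  have line : ∀ u, point D u → ∀ d ∈ D.g 2, u * d ≠ 0 → ∀ t ∈ D.g 2,
      u * t ∈ span k ({u * d} : Set S) := by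
    intro u hu d hd hne t ht
    have hle : span k ({u * d} : Set S) = (D.g 2).map (LinearMap.mulLeft k u) := by
      refine Submodule.eq_of_le_of_finrank_le (span_le.2 ?_) ?_
      · rw [Set.singleton_subset_iff]; exact ⟨d, hd, rfl⟩
      · rw [hone u hu, finrank_span_singleton hne]
    rw [hle]
    exact ⟨t, ht, rfl⟩
  have hfe : u2 * c ∈ span k ({e} : Set S) := by
    have h := line (u1 + u2) h12 d (mem_kerL.1 hd).1
      (by rw [add_mul, (mem_kerL.1 hd).2, add_zero]; exact hene) c (mem_kerL.1 hc).1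
    rwa [add_mul, add_mul, (mem_kerL.1 hd).2, add_zero, (mem_kerL.1 hc).2, zero_add] at h
  refine ⟨e, fun a ha t ht => ?_⟩
  obtain ⟨s1, s2, rfl⟩ := mem_span_pair.1 ha
  rw [add_mul, smul_mul_assoc, smul_mul_assoc]
  refine add_mem (Submodule.smul_mem _ _ (line u1 h1 d (mem_kerL.1 hd).1 hene t ht))
    (Submodule.smul_mem _ _ ?_)
  exact (span_le.2 (Set.singleton_subset_iff.2 hfe)) (line u2 h2 c (mem_kerL.1 hc).1 hfne t ht)

theorem exists_point_in_plane [IsAlgClosed k] {a b : S} (ha : a ∈ D.g 1) (hb : b ∈ D.g 1)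
    (hab : LinearIndependent k ![a, b]) : ∃ s t : k, (s ≠ 0 ∨ t ≠ 0) ∧ point D (s • a + t • b) := by
  have hne : D.g 1 ≠ ⊥ := fun h => by
    have := hG.base.h1; rw [h, finrank_bot] at this; omega
  obtain ⟨s, t, hst, v, hv, hvne, hmul⟩ :=
    D.exists_left_point ha hb hne (by rw [hG.hs2, hG.base.h1])
  refine ⟨s, t, hst, add_mem (Submodule.smul_mem _ _ ha) (Submodule.smul_mem _ _ hb), ?_, v, hv,
    hvne, hmul⟩
  intro h0
  obtain ⟨hs, ht⟩ := LinearIndependent.pair_iff.1 hab s t h0
  tauto

/-- The generic case is impossible. -/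
theorem false [IsAlgClosed k] : False := by
  classical
  have hN := hG.three_le
  by_cases hsp : ∃ u : Fin 3 → S, (∀ i, point D (u i)) ∧ LinearIndependent k u
  · obtain ⟨u, hu, hi⟩ := hsp
    have hpl : LinearIndependent k ![u 0 - u 1, u 1 - u 2] := by
      rw [LinearIndependent.pair_iff]
      intro s t hst
      have h := Fintype.linearIndependent_iff.1 hi ![s, t - s, -t] (by
        simp only [Fin.sum_univ_three, Matrix.cons_val_zero, Matrix.cons_val_one,
          Matrix.cons_val_two, Matrix.head_cons, Matrix.tail_cons]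
        rw [← hst]; module)
      exact ⟨by simpa using h 0, by simpa using h 2⟩
    obtain ⟨s, t, hst, hp⟩ := hG.exists_point_in_plane (sub_mem (hu 0).1 (hu 1).1)
      (sub_mem (hu 1).1 (hu 2).1) hpl
    have he : s • (u 0 - u 1) + t • (u 1 - u 2) = ∑ i, ![s, t - s, -t] i • u i := by
      simp only [Fin.sum_univ_three, Matrix.cons_val_zero, Matrix.cons_val_one,
        Matrix.cons_val_two, Matrix.head_cons, Matrix.tail_cons]
      module
    rw [he] at hp
    rcases eq_or_ne s 0 with rfl | hs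
    · have ht : t ≠ 0 := by tauto
      exact hG.false_of_four hu hi hp (show (1 : Fin 3) ≠ 2 by decide) (by simpa using ht)
        (by simpa using ht)
    · rcases eq_or_ne t 0 with rfl | ht
      · exact hG.false_of_four hu hi hp (show (0 : Fin 3) ≠ 1 by decide) (by simpa using hs)
          (by simpa using hs)
      · exact hG.false_of_four hu hi hp (show (0 : Fin 3) ≠ 2 by decide) (by simpa using hs)
          (by simpa using ht)
  -- all points lie in a plane
  have hbot : D.g 1 ≠ ⊥ := fun h => by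
    have := hG.base.h1; rw [h, finrank_bot] at this; omega
  obtain ⟨a, ha, hane⟩ := (Submodule.ne_bot_iff _).1 hbot
  have hext : ∀ {p : S}, p ≠ 0 → ∃ b ∈ D.g 1, LinearIndependent k ![p, b] := fun {p} hp => by
    have hnle : ¬ D.g 1 ≤ span k ({p} : Set S) := fun h => by
      have := (Submodule.finrank_mono h).trans (finrank_span_singleton_le p)
      rw [hG.base.h1] at this; omega
    obtain ⟨b, hb, hbn⟩ := SetLike.not_le_iff_exists.1 hnle
    exact ⟨b, hb, linearIndependent_pair_of_not_mem hp hbn⟩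
  have hext3 : ∀ {p q : S}, LinearIndependent k ![p, q] →
      ∃ z ∈ D.g 1, LinearIndependent k ![p, q, z] := fun {p q} h => by
    have hnle : ¬ D.g 1 ≤ span k ({p, q} : Set S) := fun h => by
      have := (Submodule.finrank_mono h).trans (finrank_span_pair_le p q)
      rw [hG.base.h1] at this; omega
    obtain ⟨z, hz, hzn⟩ := SetLike.not_le_iff_exists.1 hnle
    exact ⟨z, hz, linearIndependent_triple h hzn⟩
  obtain ⟨b, hb, hab⟩ := hext hane
  obtain ⟨s, t, -, hp1⟩ := hG.exists_point_in_plane ha hb hab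
  generalize s • a + t • b = u1 at hp1
  obtain ⟨b1, hb1, hub⟩ := hext hp1.2.1
  obtain ⟨z1, hz1, hubz⟩ := hext3 hub
  have hbz : LinearIndependent k ![b1, z1] := by
    rw [LinearIndependent.pair_iff]
    intro s t hst
    have h := Fintype.linearIndependent_iff.1 hubz ![0, s, t] (by
      simpa [Fin.sum_univ_three] using hst)
    exact ⟨by simpa using h 1, by simpa using h 2⟩
  obtain ⟨s', t', hst', hp2⟩ := hG.exists_point_in_plane hb1 hz1 hbz
  have hi : LinearIndependent k ![u1, s' • b1 + t' • z1] := by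
    rw [LinearIndependent.pair_iff]
    intro c d hcd
    have h := Fintype.linearIndependent_iff.1 hubz ![c, d * s', d * t'] (by
      simp only [Fin.sum_univ_three, Matrix.cons_val_zero, Matrix.cons_val_one,
        Matrix.cons_val_two, Matrix.head_cons, Matrix.tail_cons]
      rw [← hcd]; module)
    have h1 : d * s' = 0 := by simpa using h 1
    have h2 : d * t' = 0 := by simpa using h 2
    refine ⟨by simpa using h 0, ?_⟩
    rcases mul_eq_zero.1 h1 with hd | hs
    · exact hd
    · exact (mul_eq_zero.1 h2).resolve_right (by tauto)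
  generalize s' • b1 + t' • z1 = u2 at hp2 hi
  clear! a b b1 z1
  set K := span k ({u1, u2} : Set S) with hK
  have hplane : ∀ u, point D u → u ∈ K := fun u hu => by
    by_contra hn
    refine hsp ⟨![u1, u2, u], ?_, linearIndependent_triple hi hn⟩
    intro i; fin_cases i <;> assumption
  obtain ⟨z, hz, hiz⟩ := hext3 hi
  have hg1 := hG.base.g1_eq hp1.1 hp2.1 hz hiz
  have hK1 : K ≤ D.g 1 := span_le.2 (by simp [Set.insert_subset_iff, hp1.1, hp2.1])
  have hall : ∀ u ∈ K, u ≠ 0 → point D u := by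
    intro u hu hne
    have hzK : z ∉ K := fun hm => by
      obtain ⟨c, d, hcd⟩ := mem_span_pair.1 hm
      have h := Fintype.linearIndependent_iff.1 hiz ![c, d, -1] (by
        simp [Fin.sum_univ_three, hcd]) 2
      simp at h
    have huz : LinearIndependent k ![u, z] := linearIndependent_pair_of_not_mem hne fun hm =>
      hzK ((span_le.2 (Set.singleton_subset_iff.2 hu)) hm)
    obtain ⟨s, t, hst, hp⟩ := hG.exists_point_in_plane (hK1 hu) hz huz
    have hm := hplane _ hp
    have ht : t = 0 := by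
      by_contra ht
      have := sub_mem hm (K.smul_mem s hu)
      rw [add_sub_cancel_left] at this
      exact hzK ((K.smul_mem_iff ht).1 this)
    have hs : s ≠ 0 := by tauto
    rw [ht, zero_smul, add_zero] at hp
    obtain ⟨-, -, v, hv, hvne, hmul⟩ := hp
    exact ⟨hK1 hu, hne, v, hv, hvne, (smul_eq_zero.1 (by rwa [smul_mul_assoc] at hmul)).resolve_left hs⟩
  have h12 : point D (u1 + u2) := hall _ (add_mem (subset_span (Set.mem_insert _ _))
    (subset_span (Set.mem_insert_of_mem _ rfl))) fun h => by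
      have := LinearIndependent.pair_iff.1 hi 1 1 (by simpa using h)
      simpa using this.1
  -- both sides in degree two
  have base2 : (∃ e, ∀ a ∈ K, ∀ c ∈ D.g 2, a * c ∈ span k ({e} : Set S)) ∧
      ∃ e, ∀ a ∈ K, ∀ c ∈ D.g 2, c * a ∈ span k ({e} : Set S) := by
    refine ⟨hG.exists_line hp1 hp2 hi h12 hplane, ?_⟩
    have hop : ∀ u, point D u → point D.op (MulOpposite.op u) := fun u hu => by
      obtain ⟨w, hw, hwne, hwu⟩ := hG.exists_pred hu
      exact ⟨D.op_mem.2 hu.1, by simpa using hu.2.1, MulOpposite.op w, D.op_mem.2 hw,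
        by simpa using hwne, by simp [← MulOpposite.op_mul, hwu]⟩
    have hback : ∀ u, point D.op (MulOpposite.op u) → point D u := by
      rintro u ⟨hu, hune, ⟨w, hw, hwne, hwu⟩⟩
      have hu' := D.op_mem.1 hu
      have hwu' : MulOpposite.unop w * u = 0 := by simpa using congrArg MulOpposite.unop hwu
      have hw' : MulOpposite.unop w ∈ D.g 1 := by
        rw [← D.op_mem]; simpa using hw
      exact ⟨hu', by simpa using hune,
        (hG.edge hw' (by simpa using hwne) hu' (by simpa using hune) hwu').2.2.2.1⟩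
    obtain ⟨e, he⟩ := hG.op.exists_line (hop _ hp1) (hop _ hp2) (by
        rw [LinearIndependent.pair_iff] at hi ⊢
        intro s t hst
        exact hi s t (by simpa [← MulOpposite.op_smul, ← MulOpposite.op_add] using hst))
      (by rw [← MulOpposite.op_add]; exact hop _ h12)
      (fun u hu => by
        obtain ⟨c, d, hcd⟩ := mem_span_pair.1 (hplane _ (hback (MulOpposite.unop u) (by simpa using hu)))
        exact mem_span_pair.2 ⟨c, d, MulOpposite.unop_injective (by simpa using hcd)⟩)
    refine ⟨MulOpposite.unop e, fun a ha c hc => ?_⟩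
    obtain ⟨r1, r2, hr⟩ := mem_span_pair.1 ha
    obtain ⟨r, hr'⟩ := mem_span_singleton.1 (he (MulOpposite.op a)
      (mem_span_pair.2 ⟨r1, r2, by rw [← hr]; simp⟩) (MulOpposite.op c) (D.op_mem.2 hc))
    exact mem_span_singleton.2 ⟨r, by simpa using congrArg MulOpposite.unop hr'⟩
  have hind : ∀ j, 2 ≤ j → j + 2 ≤ D.N →
      (∃ e, ∀ a ∈ K, ∀ c ∈ D.g j, a * c ∈ span k ({e} : Set S)) ∧
        ∃ e, ∀ a ∈ K, ∀ c ∈ D.g j, c * a ∈ span k ({e} : Set S) := by
    intro j hj
    induction j, hj using Nat.le_induction with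
    | base => exact fun _ => base2
    | succ j hj ih =>
      intro hjN
      obtain ⟨⟨e, he⟩, e', he'⟩ := ih (by omega)
      have hzero : ∀ a ∈ K, ∀ c ∈ D.g j, ∀ v ∈ K, a * c * v = 0 := by
        intro a ha c hc v hv
        by_contra hne
        obtain ⟨s0, hs0⟩ := mem_span_singleton.1 (he a ha c hc)
        have hev : e * v ≠ 0 := fun h => hne (by rw [← hs0, smul_mul_assoc, h, smul_zero])
        have hcv : c * v ≠ 0 := fun h => hne (by rw [mul_assoc, h, mul_zero])
        obtain ⟨u0, hu0, hu0ne, hu0c⟩ := exists_ne_zero_ker K (LinearMap.mulRight k c) (by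
          rw [hK, finrank_span_pair_of_indep hi, ← hK]
          refine lt_of_le_of_lt (finrank_le_one_of_le_singleton (a := e) ?_) one_lt_two
          rintro _ ⟨x, hx, rfl⟩
          exact he x hx c hc)
        refine hu0ne (D.eq_zero_left (i := 1) (j := j) (by omega) (hK1 hu0) fun c' hc' => ?_)
        obtain ⟨t1, ht1⟩ := mem_span_singleton.1 (he u0 hu0 c' hc')
        obtain ⟨t2, ht2⟩ := mem_span_singleton.1 (he' v hv c' hc')
        obtain ⟨t3, ht3⟩ := mem_span_singleton.1 (he' v hv c hc)
        have ht3' : t3 ≠ 0 := fun h => hcv (by rw [← ht3, h, zero_smul])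
        have hu0c' : u0 * c = 0 := hu0c
        have h0 : u0 * c' * v = 0 := by
          rw [mul_assoc, ← ht2, ← inv_smul_smul₀ ht3' e', ht3, mul_smul_comm, mul_smul_comm,
            ← mul_assoc, hu0c', zero_mul, smul_zero, smul_zero]
        rw [← ht1, smul_mul_assoc, smul_eq_zero] at h0
        rw [← ht1, h0.resolve_right hev, zero_smul]
      refine ⟨⟨e * z, fun a ha t ht => ?_⟩, z * e', fun a ha t ht => ?_⟩
      · rw [← D.mul_g] at ht
        refine Submodule.mul_induction_on ht (fun c hc w hw => ?_) fun x y hx hy => ?_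
        · obtain ⟨r1, r2, r3, rfl⟩ := mem_span_triple.1 (hg1 ▸ hw)
          obtain ⟨t1, ht1⟩ := mem_span_singleton.1 (he a ha c hc)
          rw [← mul_assoc]
          simp only [mul_add, mul_smul_comm, hzero a ha c hc _ (subset_span (Set.mem_insert _ _)),
            hzero a ha c hc _ (subset_span (Set.mem_insert_of_mem _ rfl)), smul_zero, zero_add]
          rw [← ht1, smul_mul_assoc]
          exact Submodule.smul_mem _ _ (Submodule.smul_mem _ _ (mem_span_singleton_self _))
        · rw [mul_add]; exact add_mem hx hy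
      · rw [add_comm, ← D.mul_g] at ht
        refine Submodule.mul_induction_on ht (fun w hw c hc => ?_) fun x y hx hy => ?_
        · obtain ⟨r1, r2, r3, rfl⟩ := mem_span_triple.1 (hg1 ▸ hw)
          obtain ⟨t1, ht1⟩ := mem_span_singleton.1 (he' a ha c hc)
          simp only [add_mul, smul_mul_assoc, hzero _ (subset_span (Set.mem_insert _ _)) c hc a ha,
            hzero _ (subset_span (Set.mem_insert_of_mem _ rfl)) c hc a ha, smul_zero, zero_add]
          rw [mul_assoc, ← ht1, mul_smul_comm]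
          exact Submodule.smul_mem _ _ (Submodule.smul_mem _ _ (mem_span_singleton_self _))
        · rw [add_mul]; exact add_mem hx hy
  obtain ⟨⟨e, he⟩, -⟩ := hind (D.N - 2) (by omega) (by omega)
  obtain ⟨v0, hv0, hv0e, hv0u⟩ : ∃ v ∈ D.g 1, D.ε (v * e) = 0 ∧ v * u1 ≠ 0 := by
    obtain ⟨p, hp, q, hq, hpq, h1, h2⟩ := exists_two_ker (D.g 1)
      (D.ε.comp (LinearMap.mulRight k e)) (by
        have := Submodule.finrank_le ((D.g 1).map (D.ε.comp (LinearMap.mulRight k e)))
        rw [Module.finrank_self] at this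
        rw [hG.base.h1]; omega)
    by_cases hpu : p * u1 = 0
    · exact ⟨q, hq, h2, hG.right u1 hp1.1 hp1.2.1 p hp q hq hpq hpu⟩
    · exact ⟨p, hp, h1, hpu⟩
  refine hv0u (D.nondeg 2 (by omega) _ (D.mul_mem11 hv0 hp1.1) fun t ht => ?_)
  obtain ⟨r, hr⟩ := mem_span_singleton.1 (he u1 (subset_span (Set.mem_insert _ _)) t ht)
  rw [mul_assoc, ← hr, mul_smul_comm, map_smul, hv0e, smul_zero]

end Generic

end CfsgLib.SymLocalFive
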