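import Mathlib.Algebra.Algebra.Operations
import Mathlib.LinearAlgebra.Dual.Lemmas
import Mathlib.LinearAlgebra.Eigenspace.Triangularizable
import Mathlib.LinearAlgebra.FiniteDimensional.Lemmas
import Mathlib.FieldTheory.IsAlgClosed.Basic
import Mathlib.Tactic.NoncommRing
import Mathlib.Tactic.FinCases
import Mathlib.Tactic.LinearCombination

/-!
# Graded symmetric algebras generated in degree one
-/

set_option autoImplicit false
set_option linter.unusedSectionVars false

namespace CfsgLib.SymLocalFive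

open Module Submodule

/-- A graded symmetric algebra generated in degree one. -/
structure GSym (k S : Type*) [Field k] [Ring S] [Algebra k S] where
  /-- top degree -/
  N : ℕ
  /-- homogeneous parts -/
  g : ℕ → Submodule k S
  mul_g : ∀ i j, g i * g j = g (i + j)
  g_zero : g 0 = 1
  g_gt : ∀ i, N < i → g i = ⊥
  /-- trace form -/
  ε : S →ₗ[k] k
  symm : ∀ a b, ε (a * b) = ε (b * a)
  nondeg : ∀ i ≤ N, ∀ s ∈ g i, (∀ t ∈ g (N - i), ε (s * t) = 0) → s = 0

section Linear

variable {k : Type*} [Field k] {S : Type*} [AddCommGroup S] [Module k S]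

theorem mem_span_triple {a b c s : S} :
    s ∈ span k ({a, b, c} : Set S) ↔ ∃ x y z : k, x • a + y • b + z • c = s := by
  simp only [Submodule.mem_span_insert, Submodule.mem_span_singleton]
  constructor
  · rintro ⟨x, _, ⟨y, _, ⟨z, rfl⟩, rfl⟩, rfl⟩; exact ⟨x, y, z, by abel⟩
  · rintro ⟨x, y, z, rfl⟩; exact ⟨x, _, ⟨y, _, ⟨z, rfl⟩, rfl⟩, by abel⟩

theorem range_triple {T : Type*} (a b c : T) : Set.range ![a, b, c] = ({a, b, c} : Set T) := by
  ext; simp [eq_comm]; tauto

theorem linearIndependent_pair_of_not_mem {a b : S} (ha : a ≠ 0) (hb : b ∉ span k ({a} : Set S)) :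
    LinearIndependent k ![a, b] :=
  (LinearIndependent.pair_iff' ha).2 fun t ht => hb (mem_span_singleton.2 ⟨t, ht⟩)

theorem linearIndependent_triple {a b c : S} (hab : LinearIndependent k ![a, b])
    (hc : c ∉ span k ({a, b} : Set S)) : LinearIndependent k ![a, b, c] := by
  rw [Fintype.linearIndependent_iff]
  intro f hf
  simp only [Fin.sum_univ_three, Matrix.cons_val_zero, Matrix.cons_val_one, Matrix.cons_val_two,
    Matrix.head_cons, Matrix.tail_cons] at hf
  have h2 : f 2 = 0 := by
    by_contra h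
    refine hc (mem_span_pair.2 ⟨-(f 2)⁻¹ * f 0, -(f 2)⁻¹ * f 1, ?_⟩)
    have : f 2 • c = -(f 0 • a + f 1 • b) := eq_neg_of_add_eq_zero_right hf
    have hc' : c = (f 2)⁻¹ • (f 2 • c) := by rw [inv_smul_smul₀ h]
    rw [hc', this]; module
  rw [h2, zero_smul, add_zero] at hf
  obtain ⟨h0, h1⟩ := LinearIndependent.pair_iff.1 hab _ _ hf
  intro i; fin_cases i <;> assumption

theorem finrank_span_pair_of_indep {a b : S} (hab : LinearIndependent k ![a, b]) :
    finrank k (span k ({a, b} : Set S)) = 2 := by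
  have h := finrank_span_eq_card hab
  rwa [Fintype.card_fin, Matrix.range_cons_cons_empty] at h

theorem finrank_span_triple_le (a b c : S) [FiniteDimensional k S] :
    finrank k (span k ({a, b, c} : Set S)) ≤ 3 := by
  have h := finrank_range_le_card (R := k) ![a, b, c]
  rwa [Fintype.card_fin, range_triple] at h

theorem finrank_span_pair_le (a b : S) [FiniteDimensional k S] :
    finrank k (span k ({a, b} : Set S)) ≤ 2 := by
  have h := finrank_range_le_card (R := k) ![a, b]
  rwa [Fintype.card_fin, Matrix.range_cons_cons_empty] at h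

theorem finrank_span_singleton_le (a : S) [FiniteDimensional k S] :
    finrank k (span k ({a} : Set S)) ≤ 1 := by
  rcases eq_or_ne a 0 with rfl | ha
  · rw [span_zero_singleton, finrank_bot]; exact zero_le_one
  · rw [finrank_span_singleton ha]

theorem finrank_le_one_of_le_singleton [FiniteDimensional k S] {W : Submodule k S} {a : S}
    (h : W ≤ span k ({a} : Set S)) : finrank k W ≤ 1 :=
  (Submodule.finrank_mono h).trans (finrank_span_singleton_le a)

theorem le_span_triple [FiniteDimensional k S] {W : Submodule k S} (hW : finrank k W ≤ 3) {a b c : S}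
    (ha : a ∈ W) (hb : b ∈ W) (hc : c ∈ W) (h : LinearIndependent k ![a, b, c]) :
    W = span k ({a, b, c} : Set S) := by
  have h3 := finrank_span_eq_card h
  rw [Fintype.card_fin, range_triple] at h3
  refine (Submodule.eq_of_le_of_finrank_le (span_le.2 ?_) (by omega)).symm
  simp [Set.insert_subset_iff, ha, hb, hc]

/-- A subspace of dimension at least two meets a kernel of small corank. -/
theorem exists_ne_zero_ker [FiniteDimensional k S] {T : Type*} [AddCommGroup T] [Module k T]
    (W : Submodule k S) (f : S →ₗ[k] T) (h : finrank k (W.map f) < finrank k W) :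
    ∃ w ∈ W, w ≠ 0 ∧ f w = 0 := by
  by_contra hcon
  push Not at hcon
  have hinj : Function.Injective (f.domRestrict W) := by
    rw [← LinearMap.ker_eq_bot, Submodule.eq_bot_iff]
    intro w hw
    by_contra hne
    exact hcon w w.2 (by simpa using hne) (by simpa using hw)
  have := LinearMap.finrank_range_of_inj hinj
  rw [LinearMap.range_domRestrict] at this
  omega

theorem finrank_map_add_finrank_inf_ker [FiniteDimensional k S] {T : Type*} [AddCommGroup T]
    [Module k T] (W : Submodule k S) (f : S →ₗ[k] T) :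
    finrank k (W.map f) + finrank k (W ⊓ LinearMap.ker f : Submodule k S) = finrank k W := by
  have h := LinearMap.finrank_range_add_finrank_ker (f.domRestrict W)
  rw [LinearMap.range_domRestrict] at h
  have e : finrank k (LinearMap.ker (f.domRestrict W)) =
      finrank k (W ⊓ LinearMap.ker f : Submodule k S) := by
    rw [(Submodule.equivMapOfInjective W.subtype W.subtype_injective _).finrank_eq,
      LinearMap.ker_domRestrict, Submodule.map_comap_subtype]
  rw [← e]
  exact h

theorem exists_two_ker [FiniteDimensional k S] {T : Type*} [AddCommGroup T] [Module k T]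
    (W : Submodule k S) (f : S →ₗ[k] T) (h : finrank k (W.map f) + 2 ≤ finrank k W) :
    ∃ a ∈ W, ∃ b ∈ W, LinearIndependent k ![a, b] ∧ f a = 0 ∧ f b = 0 := by
  have h1 := finrank_map_add_finrank_inf_ker W f
  set H := W ⊓ LinearMap.ker f
  obtain ⟨a, ha, hane⟩ := (Submodule.ne_bot_iff H).1 fun hb => by
    rw [hb, finrank_bot] at h1; omega
  have hnle : ¬ H ≤ span k ({a} : Set S) := fun hle => by
    have := (Submodule.finrank_mono hle).trans (finrank_span_singleton_le a)
    omega
  obtain ⟨b, hb, hbn⟩ := SetLike.not_le_iff_exists.1 hnle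
  exact ⟨a, ha.1, b, hb.1, linearIndependent_pair_of_not_mem hane hbn, ha.2, hb.2⟩

end Linear

namespace GSym

variable {k S : Type*} [Field k] [Ring S] [Algebra k S] (D : GSym k S)

theorem mul_mem {i j : ℕ} {a b : S} (ha : a ∈ D.g i) (hb : b ∈ D.g j) : a * b ∈ D.g (i + j) :=
  D.mul_g i j ▸ Submodule.mul_mem_mul ha hb

theorem mul_mem11 {a b : S} (ha : a ∈ D.g 1) (hb : b ∈ D.g 1) : a * b ∈ D.g 2 := D.mul_mem ha hb

theorem mul_mem12 {a b : S} (ha : a ∈ D.g 1) (hb : b ∈ D.g 2) : a * b ∈ D.g 3 := D.mul_mem ha hb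

theorem mul_mem21 {a b : S} (ha : a ∈ D.g 2) (hb : b ∈ D.g 1) : a * b ∈ D.g 3 := D.mul_mem ha hb

theorem comm_mem {a b : S} (ha : a ∈ D.g 1) (hb : b ∈ D.g 1) : a * b - b * a ∈ D.g 2 :=
  sub_mem (D.mul_mem11 ha hb) (D.mul_mem11 hb ha)

theorem eq_zero_left {i j : ℕ} (hij : i + j ≤ D.N) {s : S} (hs : s ∈ D.g i)
    (h : ∀ t ∈ D.g j, s * t = 0) : s = 0 := by
  refine D.nondeg i (by omega) s hs fun t ht => ?_
  rw [show D.N - i = j + (D.N - i - j) by omega, ← D.mul_g] at ht
  refine Submodule.mul_induction_on ht (fun a ha b hb => ?_) fun x y hx hy => ?_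
  · rw [← mul_assoc, h a ha, zero_mul, map_zero]
  · rw [mul_add, map_add, hx, hy, add_zero]

theorem eq_zero_right {i j : ℕ} (hij : i + j ≤ D.N) {s : S} (hs : s ∈ D.g i)
    (h : ∀ t ∈ D.g j, t * s = 0) : s = 0 := by
  refine D.nondeg i (by omega) s hs fun t ht => ?_
  rw [show D.N - i = (D.N - i - j) + j by omega, ← D.mul_g] at ht
  refine Submodule.mul_induction_on ht (fun a ha b hb => ?_) fun x y hx hy => ?_
  · rw [D.symm, mul_assoc, h b hb, mul_zero, map_zero]
  · rw [mul_add, map_add, hx, hy, add_zero]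

theorem exists_mul_ne_zero {i j : ℕ} (hij : i + j ≤ D.N) {s : S} (hs : s ∈ D.g i) (hne : s ≠ 0) :
    ∃ t ∈ D.g j, s * t ≠ 0 := by
  by_contra h
  push Not at h
  exact hne (D.eq_zero_left hij hs h)

section fin

variable [FiniteDimensional k S]

theorem finrank_g_le {i : ℕ} (hi : i ≤ D.N) : finrank k (D.g i) ≤ finrank k (D.g (D.N - i)) := by
  let φ : D.g i →ₗ[k] Module.Dual k (D.g (D.N - i)) :=
    LinearMap.mk₂ k (fun (s : D.g i) (t : D.g (D.N - i)) => D.ε ((s : S) * (t : S)))
      (fun a b c => by simp [add_mul]) (fun r a c => by simp [smul_mul_assoc])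
      (fun a b c => by simp [mul_add]) (fun r a c => by simp [mul_smul_comm])
  have hinj : Function.Injective φ := by
    rw [← LinearMap.ker_eq_bot, Submodule.eq_bot_iff]
    intro s hs
    refine Subtype.ext (D.nondeg i hi _ s.2 fun t ht => ?_)
    exact congrArg (fun f => f ⟨t, ht⟩) (LinearMap.mem_ker.1 hs)
  rw [← Subspace.dual_finrank_eq (K := k) (V := D.g (D.N - i))]
  exact LinearMap.finrank_le_finrank_of_injective hinj

theorem finrank_g_eq {i : ℕ} (hi : i ≤ D.N) : finrank k (D.g i) = finrank k (D.g (D.N - i)) := by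
  refine le_antisymm (D.finrank_g_le hi) ?_
  have h := D.finrank_g_le (show D.N - i ≤ D.N by omega)
  rwa [show D.N - (D.N - i) = i by omega] at h

theorem finrank_g_succ_le_one {i : ℕ} (h : finrank k (D.g (i + 1)) ≤ 1) :
    finrank k (D.g (i + 2)) ≤ 1 := by
  by_cases hb : D.g (i + 1) = ⊥
  · rw [show i + 2 = (i + 1) + 1 by rfl, ← D.mul_g, hb, Submodule.bot_mul, finrank_bot]
    exact zero_le_one
  have hex : ∃ v ∈ D.g 1, ∃ d ∈ D.g i, v * d ≠ 0 := by
    by_contra hcon
    push Not at hcon
    apply hb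
    rw [add_comm, ← D.mul_g, eq_bot_iff]
    exact Submodule.mul_le.2 fun v hv d hd => by simp [hcon v hv d hd]
  obtain ⟨v, hv, d, hd, hne⟩ := hex
  have hsp : D.g (i + 1) = span k ({v * d} : Set S) := by
    refine (Submodule.eq_of_le_of_finrank_le ?_ ?_).symm
    · rw [span_le, Set.singleton_subset_iff, SetLike.mem_coe, add_comm]; exact D.mul_mem hv hd
    · rw [finrank_span_singleton hne]; exact h
  have hle : D.g (i + 2) ≤ (D.g (i + 1)).map (LinearMap.mulLeft k v) := by
    rw [show i + 2 = (i + 1) + 1 by rfl, ← D.mul_g]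
    refine Submodule.mul_le.2 fun c hc w hw => ?_
    rw [hsp, mem_span_singleton] at hc
    obtain ⟨r, rfl⟩ := hc
    refine ⟨r • (d * w), Submodule.smul_mem _ _ (D.mul_mem hd hw), ?_⟩
    simp [mul_smul_comm, smul_mul_assoc, mul_assoc]
  exact (Submodule.finrank_mono hle).trans ((Submodule.finrank_map_le _ _).trans h)

theorem finrank_g_le_one {i : ℕ} (hi : 1 ≤ i) (h : finrank k (D.g i) ≤ 1) :
    ∀ d, finrank k (D.g (i + d)) ≤ 1 := by
  intro d
  induction d with
  | zero => exact h
  | succ d ih =>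
    have := D.finrank_g_succ_le_one (i := i + d - 1) (by rwa [show i + d - 1 + 1 = i + d by omega])
    rwa [show i + d - 1 + 2 = i + (d + 1) by omega] at this

theorem two_le_finrank {i : ℕ} (h1 : 1 ≤ i) (hi : i + 1 ≤ D.N) (hs : 2 ≤ finrank k (D.g 1)) :
    2 ≤ finrank k (D.g i) := by
  by_contra h
  have h' := D.finrank_g_le_one h1 (by omega) (D.N - 1 - i)
  rw [show i + (D.N - 1 - i) = D.N - 1 by omega, ← D.finrank_g_eq (by omega)] at h'
  omega

theorem g_top_ne_bot [Nontrivial S] : D.g D.N ≠ ⊥ := by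
  intro h
  refine one_ne_zero (α := S) (D.nondeg 0 (Nat.zero_le _) 1 ?_ fun t ht => ?_)
  · rw [D.g_zero]; exact Submodule.one_le.1 le_rfl
  · rw [Nat.sub_zero, h, Submodule.mem_bot] at ht
    rw [ht, mul_zero, map_zero]

/-- A pencil of products between spaces of the same dimension has a singular member. -/
theorem exists_left_point [IsAlgClosed k] {a b : S} (ha : a ∈ D.g 1) (hb : b ∈ D.g 1)
    (hne : D.g 1 ≠ ⊥) (hd : finrank k (D.g 2) ≤ finrank k (D.g 1)) :
    ∃ s t : k, (s ≠ 0 ∨ t ≠ 0) ∧ ∃ v ∈ D.g 1, v ≠ 0 ∧ (s • a + t • b) * v = 0 := by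
  let L : S → (D.g 1 →ₗ[k] S) := fun u => (LinearMap.mulLeft k u).domRestrict (D.g 1)
  by_cases hinj : Function.Injective (L a)
  · have hr : LinearMap.range (L a) = D.g 2 := by
      refine Submodule.eq_of_le_of_finrank_le ?_ ?_
      · rintro _ ⟨v, rfl⟩; exact D.mul_mem11 ha v.2
      · rw [LinearMap.finrank_range_of_inj hinj]; exact hd
    let e : D.g 1 ≃ₗ[k] D.g 2 :=
      (LinearEquiv.ofInjective (L a) hinj).trans (LinearEquiv.ofEq _ _ hr)
    let M : D.g 1 →ₗ[k] D.g 2 :=
      LinearMap.codRestrict (D.g 2) (L b) fun v => D.mul_mem11 hb v.2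
    haveI : Nontrivial (D.g 1) := Submodule.nontrivial_iff_ne_bot.2 hne
    obtain ⟨c, hc⟩ := Module.End.exists_eigenvalue (e.symm.toLinearMap.comp M)
    obtain ⟨v, hv⟩ := hc.exists_hasEigenvector
    refine ⟨-c, 1, Or.inr one_ne_zero, v, v.2, by simpa using hv.2, ?_⟩
    have h1 : M v = c • e v := by
      have := congrArg e hv.apply_eq_smul
      simpa using this
    have h2 : b * (v : S) = c • (a * (v : S)) := congrArg Subtype.val h1
    simp [add_mul, smul_mul_assoc, h2]
  · rw [← LinearMap.ker_eq_bot, Submodule.eq_bot_iff] at hinj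
    push Not at hinj
    obtain ⟨v, hv, hv0⟩ := hinj
    refine ⟨1, 0, Or.inl one_ne_zero, v, v.2, by simpa using hv0, ?_⟩
    simpa [L] using hv

end fin

/-- The opposite graded algebra. -/
def op : GSym k Sᵐᵒᵖ where
  N := D.N
  g i := (D.g i).map (MulOpposite.opLinearEquiv k).toLinearMap
  mul_g i j := by rw [add_comm i j, ← D.mul_g, Submodule.map_op_mul]
  g_zero := by rw [D.g_zero, Submodule.map_op_one]
  g_gt i hi := by rw [D.g_gt i hi, Submodule.map_bot]
  ε := D.ε.comp (MulOpposite.opLinearEquiv k).symm.toLinearMap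
  symm a b := D.symm _ _
  nondeg i hi := by
    rintro _ ⟨s, hs, rfl⟩ h
    have : s = 0 := D.nondeg i hi s hs fun t ht => by
      rw [D.symm]
      exact h (MulOpposite.op t) ⟨t, ht, rfl⟩
    simp [this]

theorem op_mem {i : ℕ} {a : S} : MulOpposite.op a ∈ D.op.g i ↔ a ∈ D.g i := by
  simp [op]

theorem finrank_op (i : ℕ) : finrank k (D.op.g i) = finrank k (D.g i) :=
  (LinearEquiv.finrank_map_eq (MulOpposite.opLinearEquiv k) (D.g i))

end GSym

end CfsgLib.SymLocalFive
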