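import Cfsg.Agent.Lib.SymLocalFive.Grade
import Mathlib.Algebra.Polynomial.Basic
import Mathlib.Algebra.Polynomial.Coeff
import Mathlib.Algebra.Polynomial.AlgebraMap
import Mathlib.RingTheory.Ideal.Quotient.Operations

/-!
# The graded symmetric algebra of a local symmetric algebra
-/

set_option autoImplicit false
set_option linter.unusedSectionVars false

namespace CfsgLib.SymLocalFive

open Module Submodule Polynomial

/-- A local symmetric algebra with a chosen socle degree. -/
structure LocalSym (k A : Type*) [Field k] [Ring A] [Algebra k A] where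
  /-- radical -/
  J : Submodule k A
  mulL : ∀ a, ∀ x ∈ J, a * x ∈ J
  mulR : ∀ a, ∀ x ∈ J, x * a ∈ J
  dec : ∀ a : A, ∃ r : k, a - r • 1 ∈ J
  /-- socle degree -/
  N : ℕ
  hN : J ^ N ≠ ⊥
  hN1 : J ^ (N + 1) = ⊥
  /-- symmetrising form -/
  ε : A →ₗ[k] k
  symm : ∀ a b, ε (a * b) = ε (b * a)
  nd : ∀ a, (∀ b, ε (a * b) = 0) → a = 0

namespace LocalSym

variable {k A : Type*} [Field k] [Ring A] [Algebra k A] (L : LocalSym k A)

theorem J_mul_J_le : L.J * L.J ≤ L.J :=
  Submodule.mul_le.2 fun a _ b hb => L.mulL a b hb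

theorem pow_succ_le {i : ℕ} (hi : 1 ≤ i) : L.J ^ (i + 1) ≤ L.J ^ i := by
  obtain ⟨j, rfl⟩ := Nat.exists_eq_add_of_le hi
  rw [show 1 + j + 1 = j + 2 by omega, show 1 + j = j + 1 by omega, pow_add, pow_add,
    pow_two, pow_one]
  exact mul_le_mul' le_rfl L.J_mul_J_le

theorem pow_le {i j : ℕ} (hi : 1 ≤ i) (hij : i ≤ j) : L.J ^ j ≤ L.J ^ i := by
  induction j, hij using Nat.le_induction with
  | base => exact le_rfl
  | succ j hj ih => exact (L.pow_succ_le (hi.trans hj)).trans ih

theorem pow_eq_bot {i : ℕ} (hi : L.N < i) : L.J ^ i = ⊥ := by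
  rw [show i = (i - (L.N + 1)) + (L.N + 1) by omega, pow_add, L.hN1, Submodule.mul_bot]

theorem mul_mem {i j : ℕ} {a b : A} (ha : a ∈ L.J ^ i) (hb : b ∈ L.J ^ j) :
    a * b ∈ L.J ^ (i + j) := by
  rw [pow_add]; exact Submodule.mul_mem_mul ha hb

theorem mem_one {a : A} (ha : a ∈ L.J) : a ∈ L.J ^ 1 := by rwa [pow_one]

/-- Vanishing against the complementary degree gives annihilation. -/
theorem mul_eq_zero_of_orth {i : ℕ} (hi : i ≤ L.N) {a : A} (ha : a ∈ L.J ^ i)
    (h : ∀ c ∈ L.J ^ (L.N - i), L.ε (a * c) = 0) : ∀ c ∈ L.J ^ (L.N - i), a * c = 0 := by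
  intro c hc
  refine L.nd _ fun d => ?_
  obtain ⟨r, hr⟩ := L.dec d
  have h0 : a * (c * (d - r • 1)) = 0 := by
    have := L.mul_mem ha (L.mul_mem hc (L.mem_one hr))
    rwa [L.pow_eq_bot (by omega), Submodule.mem_bot] at this
  have : a * c * d = a * c * (d - r • 1) + r • (a * c) := by
    rw [mul_sub, mul_smul_comm, mul_one, sub_add_cancel]
  rw [this, map_add, map_smul, h c hc, mul_assoc, h0, map_zero, smul_zero, add_zero]

/-- The Rees algebra. -/
def rees : Subalgebra k A[X] where
  carrier := {p | ∀ i, p.coeff i ∈ L.J ^ i}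
  mul_mem' := by
    intro p q hp hq n
    rw [coeff_mul]
    refine sum_mem fun x hx => ?_
    rw [← Finset.mem_antidiagonal.1 hx]
    exact L.mul_mem (hp _) (hq _)
  add_mem' := by
    intro p q hp hq n
    rw [coeff_add]; exact add_mem (hp n) (hq n)
  algebraMap_mem' := by
    intro r n
    rw [Polynomial.algebraMap_apply, coeff_C]
    split_ifs with h
    · subst h
      rw [pow_zero]
      exact Submodule.algebraMap_mem r
    · exact zero_mem _

theorem mem_rees {p : A[X]} : p ∈ L.rees ↔ ∀ i, p.coeff i ∈ L.J ^ i := Iff.rfl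

/-- The elements vanishing against complementary degrees. -/
def kerIdeal : Ideal L.rees where
  carrier := {p | ∀ i ≤ L.N, ∀ c ∈ L.J ^ (L.N - i), (p : A[X]).coeff i * c = 0}
  add_mem' := by
    intro p q hp hq i hi c hc
    rw [Subalgebra.coe_add, coeff_add, add_mul, hp i hi c hc, hq i hi c hc, add_zero]
  zero_mem' := by intro i _ c _; simp
  smul_mem' := by
    intro r p hp n hn c hc
    show ((r * p : L.rees) : A[X]).coeff n * c = 0
    rw [Subalgebra.coe_mul, coeff_mul, Finset.sum_mul]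
    refine Finset.sum_eq_zero fun x hx => ?_
    have hx' := Finset.mem_antidiagonal.1 hx
    refine L.nd _ fun d => ?_
    obtain ⟨s, hs⟩ := L.dec d
    set u := (r : A[X]).coeff x.1
    set v := (p : A[X]).coeff x.2
    have hu : u ∈ L.J ^ x.1 := r.2 _
    have h0 : u * v * c * (d - s • 1) = 0 := by
      have := L.mul_mem (L.mul_mem (L.mul_mem hu (p.2 x.2)) hc) (L.mem_one hs)
      rwa [L.pow_eq_bot (by omega), Submodule.mem_bot] at this
    have h1 : v * (c * u) = 0 := hp x.2 (by omega) _ (by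
      have := L.mul_mem hc hu
      rwa [show L.N - n + x.1 = L.N - x.2 by omega] at this)
    have h2 : u * v * c * d = u * v * c * (d - s • 1) + s • (u * v * c) := by
      rw [mul_sub, mul_smul_comm, mul_one, sub_add_cancel]
    have h3 : L.ε (u * v * c) = 0 := by
      rw [mul_assoc, L.symm, mul_assoc, h1, map_zero]
    rw [h2, map_add, map_smul, h0, map_zero, h3, smul_zero, add_zero]

instance : L.kerIdeal.IsTwoSided := by
  refine ⟨fun {p} q hp => ?_⟩
  intro n hn c hc
  show ((p * q : L.rees) : A[X]).coeff n * c = 0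
  rw [Subalgebra.coe_mul, coeff_mul, Finset.sum_mul]
  refine Finset.sum_eq_zero fun x hx => ?_
  have hx' := Finset.mem_antidiagonal.1 hx
  rw [mul_assoc]
  refine hp x.1 (by omega) _ ?_
  have := L.mul_mem (q.2 x.2) hc
  rwa [show x.2 + (L.N - n) = L.N - x.1 by omega] at this

/-- The graded algebra. -/
abbrev Gr : Type _ := L.rees ⧸ L.kerIdeal

variable [FiniteDimensional k A]

instance : FiniteDimensional k L.rees := by
  let f : L.rees →ₗ[k] (Fin (L.N + 1) → A) :=
    LinearMap.pi fun i => ((Polynomial.lcoeff A i.1).restrictScalars k).comp L.rees.val.toLinearMap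
  refine Module.Finite.of_injective f ?_
  rw [← LinearMap.ker_eq_bot, Submodule.eq_bot_iff]
  intro p hp
  refine Subtype.ext (Polynomial.ext fun i => ?_)
  rcases lt_or_ge i (L.N + 1) with hi | hi
  · exact congrFun (LinearMap.mem_ker.1 hp) ⟨i, hi⟩
  · have := p.2 i
    rw [L.pow_eq_bot (by omega), Submodule.mem_bot] at this
    simpa using this

instance : FiniteDimensional k L.Gr :=
  Module.Finite.of_surjective (Ideal.Quotient.mkₐ k L.kerIdeal).toLinearMap
    (Ideal.Quotient.mkₐ_surjective k L.kerIdeal)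

/-- A chosen projection onto a power of the radical. -/
noncomputable def proj (i : ℕ) : A →ₗ[k] ↥(L.J ^ i) :=
  Submodule.projectionOnto _ _ (Submodule.exists_isCompl (L.J ^ i)).choose_spec

/-- The homogeneous class map. -/
noncomputable def cl (i : ℕ) : A →ₗ[k] L.Gr :=
  (Ideal.Quotient.mkₐ k L.kerIdeal).toLinearMap.comp
    ((((Polynomial.monomial i : A →ₗ[A] A[X]).restrictScalars k).comp
      ((L.J ^ i).subtype.comp (L.proj i))).codRestrict (Subalgebra.toSubmodule L.rees)
      (fun a n => by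
        simp only [LinearMap.comp_apply, LinearMap.restrictScalars_apply, coeff_monomial]
        split_ifs with h
        · subst h; exact (L.proj i a).2
        · exact zero_mem _))

theorem cl_eq {i : ℕ} {a : A} (ha : a ∈ L.J ^ i) :
    L.cl i a = Ideal.Quotient.mk L.kerIdeal ⟨monomial i a, fun n => by
      rw [coeff_monomial]
      split_ifs with h
      · subst h; exact ha
      · exact zero_mem _⟩ := by
  have h : (L.proj i a : A) = a := by
    rw [proj, Submodule.projectionOnto_apply_left _ ⟨a, ha⟩]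
  simp only [cl, LinearMap.comp_apply, AlgHom.toLinearMap_apply, Ideal.Quotient.mkₐ_eq_mk]
  congr 1
  refine Subtype.ext ?_
  show monomial i (L.proj i a : A) = monomial i a
  rw [h]

theorem cl_mul {i j : ℕ} {a b : A} (ha : a ∈ L.J ^ i) (hb : b ∈ L.J ^ j) :
    L.cl (i + j) (a * b) = L.cl i a * L.cl j b := by
  rw [L.cl_eq ha, L.cl_eq hb, L.cl_eq (L.mul_mem ha hb), ← map_mul]
  congr 1
  exact Subtype.ext (monomial_mul_monomial i j a b).symm

theorem cl_eq_zero {i : ℕ} {a : A} (ha : a ∈ L.J ^ (i + 1)) (hi : 1 ≤ i) : L.cl i a = 0 := by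
  rw [L.cl_eq (L.pow_succ_le hi ha), Ideal.Quotient.eq_zero_iff_mem]
  intro n hn c hc
  show (monomial i a).coeff n * c = 0
  rw [coeff_monomial]
  split_ifs with h
  · subst h
    have := L.mul_mem ha hc
    rwa [L.pow_eq_bot (by omega), Submodule.mem_bot] at this
  · exact zero_mul c

theorem cl_gt {i : ℕ} (hi : L.N < i) {a : A} (ha : a ∈ L.J ^ i) : L.cl i a = 0 := by
  rw [L.pow_eq_bot hi, Submodule.mem_bot] at ha
  rw [ha, map_zero]

/-- The trace form on the graded algebra. -/
noncomputable def grForm : L.Gr →ₗ[k] k :=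
  ((L.kerIdeal.restrictScalars k).liftQ
    (L.ε.comp (((Polynomial.lcoeff A L.N).restrictScalars k).comp L.rees.val.toLinearMap))
    (fun p hp => by
      have h := hp L.N le_rfl 1 (by rw [Nat.sub_self, pow_zero]; exact Submodule.one_le.1 le_rfl)
      rw [mul_one] at h
      simp [h])).comp
    (Submodule.Quotient.restrictScalarsEquiv k L.kerIdeal).symm.toLinearMap

theorem grForm_mk (p : L.rees) :
    L.grForm (Ideal.Quotient.mk L.kerIdeal p) = L.ε ((p : A[X]).coeff L.N) := rfl

theorem grForm_symm (x y : L.Gr) : L.grForm (x * y) = L.grForm (y * x) := by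
  obtain ⟨p, rfl⟩ := Ideal.Quotient.mk_surjective x
  obtain ⟨q, rfl⟩ := Ideal.Quotient.mk_surjective y
  rw [← map_mul, ← map_mul, grForm_mk, grForm_mk, Subalgebra.coe_mul, Subalgebra.coe_mul,
    coeff_mul, coeff_mul, map_sum, map_sum]
  refine Finset.sum_equiv (Equiv.prodComm ℕ ℕ) (fun x => ?_) fun x _ => ?_
  · simp [Finset.mem_antidiagonal, add_comm]
  · exact L.symm _ _

theorem grForm_cl {i j : ℕ} (hij : i + j = L.N) {a b : A} (ha : a ∈ L.J ^ i) (hb : b ∈ L.J ^ j) :
    L.grForm (L.cl i a * L.cl j b) = L.ε (a * b) := by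
  rw [← L.cl_mul ha hb, L.cl_eq (L.mul_mem ha hb), grForm_mk]
  show L.ε ((monomial (i + j) (a * b)).coeff L.N) = _
  rw [coeff_monomial, if_pos hij]

/-- The associated graded symmetric algebra. -/
noncomputable def grSym : GSym k L.Gr where
  N := L.N
  g i := (L.J ^ i).map (L.cl i)
  mul_g i j := by
    refine le_antisymm (Submodule.mul_le.2 ?_) ?_
    · rintro _ ⟨a, ha, rfl⟩ _ ⟨b, hb, rfl⟩
      exact ⟨a * b, L.mul_mem ha hb, L.cl_mul ha hb⟩
    · rintro _ ⟨c, hc, rfl⟩
      rw [SetLike.mem_coe, pow_add] at hc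
      have key : c ∈ L.J ^ i * L.J ^ j →
          L.cl (i + j) c ∈ (L.J ^ i).map (L.cl i) * (L.J ^ j).map (L.cl j) := fun h => by
        refine Submodule.mul_induction_on h (fun a ha b hb => ?_) fun x y hx hy => ?_
        · rw [L.cl_mul ha hb]
          exact Submodule.mul_mem_mul ⟨a, ha, rfl⟩ ⟨b, hb, rfl⟩
        · rw [map_add]; exact add_mem hx hy
      exact key hc
  g_zero := by
    refine le_antisymm ?_ ?_
    · rintro _ ⟨a, ha, rfl⟩
      have h0 : a ∈ (1 : Submodule k A) := pow_zero L.J ▸ ha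
      obtain ⟨r, rfl⟩ := Submodule.mem_one.1 h0
      refine Submodule.mem_one.2 ⟨r, ?_⟩
      rw [L.cl_eq (pow_zero L.J ▸ Submodule.algebraMap_mem r)]
      rfl
    · rw [Submodule.one_le]
      have h1 : (1 : A) ∈ L.J ^ 0 := by rw [pow_zero]; exact Submodule.one_le.1 le_rfl
      refine ⟨1, h1, ?_⟩
      rw [L.cl_eq h1]
      rfl
  g_gt i hi := by
    rw [L.pow_eq_bot hi, Submodule.map_bot]
  ε := L.grForm
  symm := L.grForm_symm
  nondeg i hi := by
    rintro _ ⟨a, ha, rfl⟩ h
    have h0 := L.mul_eq_zero_of_orth hi ha fun c hc => by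
      rw [← L.grForm_cl (by omega) ha hc]
      exact h _ ⟨c, hc, rfl⟩
    rw [L.cl_eq ha, Ideal.Quotient.eq_zero_iff_mem]
    intro n hn c hc
    show (monomial i a).coeff n * c = 0
    rw [coeff_monomial]
    split_ifs with heq
    · subst heq; exact h0 c hc
    · exact zero_mul c

end LocalSym

end CfsgLib.SymLocalFive
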