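import Cfsg.Agent.Lib.SymLocalFive.Base

/-!
# No element of degree one is annihilated by two others
-/

set_option autoImplicit false
set_option linter.unusedSectionVars false

namespace CfsgLib.SymLocalFive

open Module Submodule

variable {k S : Type*} [Field k] [Ring S] [Algebra k S]

theorem span_mul_span_le {s t : Set S} {W : Submodule k S}
    (h : ∀ a ∈ s, ∀ b ∈ t, a * b ∈ W) : span k s * span k t ≤ W := by
  rw [Submodule.span_mul_span, span_le]
  exact Set.mul_subset_iff.2 h

namespace Base

variable [FiniteDimensional k S] {D : GSym k S}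

theorem kill_right (hD : Base D) {x a b c : S} (hx : x ∈ D.g 1) (ha : a ∈ D.g 1) (hb : b ∈ D.g 1)
    (hc : c ∈ D.g 1) (h : LinearIndependent k ![a, b, c]) (e1 : (a * b - b * a) * x = 0)
    (e2 : (a * c - c * a) * x = 0) (e3 : (b * c - c * b) * x = 0) : x = 0 := by
  refine hD.eq_zero_of_kill_g2_right hx fun d hd => ?_
  have hle : span k ({a * b - b * a, a * c - c * a, b * c - c * b} : Set S) ≤
      LinearMap.ker (LinearMap.mulRight k x) := by
    rw [span_le]; simp [Set.insert_subset_iff, e1, e2, e3]
  exact hle (hD.g2_le ha hb hc h hd)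

/-- The case in which the third generator annihilates the first from the left. -/
theorem false_of_normal_form (hD : Base D) (hs2 : finrank k (D.g 2) = 3)
    (h3 : D.g 3 ≤ commSub (D.g 1) (D.g 2)) {x y z : S} (hx : x ∈ D.g 1) (hy : y ∈ D.g 1)
    (hz : z ∈ D.g 1) (hi : LinearIndependent k ![x, y, z]) (xx : x * x = 0) (xy : x * y = 0)
    (zx : z * x = 0) (hqr : D.g 2 = span k ({x * z, y * x, z * y} : Set S))
    (hyy : y * y ∈ span k ({x * z, y * x} : Set S))
    (hyz : y * z ∈ span k ({x * z, y * x} : Set S)) : False := by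
  have hN := hD.hN
  have hxne : x ≠ 0 := hi.ne_zero 0
  have hg1 := hD.g1_eq hx hy hz hi
  obtain ⟨α, β, eyy⟩ := mem_span_pair.1 hyy
  obtain ⟨μ, ν, eyz⟩ := mem_span_pair.1 hyz
  have qx : x * z * x = 0 := by rw [mul_assoc, zx, mul_zero]
  have rx : y * x * x = 0 := by rw [mul_assoc, xx, mul_zero]
  have ry : y * x * y = 0 := by rw [mul_assoc, xy, mul_zero]
  have xq : x * (x * z) = 0 := by rw [← mul_assoc, xx, zero_mul]
  have xr : x * (y * x) = 0 := by rw [← mul_assoc, xy, zero_mul]
  have zq : z * (x * z) = 0 := by rw [← mul_assoc, zx, zero_mul]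
  have wx : z * y * x ≠ 0 := fun h => hxne (hD.eq_zero_of_kill_g2_right hx fun d hd => by
    rw [hqr] at hd
    obtain ⟨a, b, c, rfl⟩ := mem_span_triple.1 hd
    simp [add_mul, smul_mul_assoc, qx, rx, h])
  obtain ⟨γ, δ, ezz⟩ : ∃ γ δ : k, γ • (x * z) + δ • (y * x) = z * z := by
    obtain ⟨γ, δ, ζ, e⟩ := mem_span_triple.1 (hqr ▸ D.mul_mem11 hz hz)
    have h0 : z * z * x = 0 := by rw [mul_assoc, zx, mul_zero]
    rw [← e] at h0
    simp only [add_mul, smul_mul_assoc, qx, rx, smul_zero, zero_add] at h0
    rw [(smul_eq_zero.1 h0).resolve_right wx, zero_smul, add_zero] at e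
    exact ⟨γ, δ, e⟩
  set e := x * (z * y) with he
  set g := z * (y * x) with hg
  set h := y * (x * z) with hh
  have qy : x * z * y = e := mul_assoc _ _ _
  have qz : x * z * z = 0 := by
    rw [mul_assoc, ← ezz, mul_add, mul_smul_comm, mul_smul_comm, xq, xr, smul_zero, smul_zero,
      add_zero]
  have rz : y * x * z = h := mul_assoc _ _ _
  have wx' : z * y * x = g := mul_assoc _ _ _
  have yr : y * (y * x) = 0 := by
    rw [← mul_assoc, ← eyy, add_mul, smul_mul_assoc, smul_mul_assoc, qx, rx, smul_zero, smul_zero,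
      add_zero]
  have yw : y * (z * y) = μ • e := by
    rw [← mul_assoc, ← eyz, add_mul, smul_mul_assoc, smul_mul_assoc, qy, ry, smul_zero, add_zero]
  have wy : z * y * y = β • g := by
    rw [mul_assoc, ← eyy, mul_add, mul_smul_comm, mul_smul_comm, zq, smul_zero, zero_add]
  have zw : z * (z * y) = γ • e := by
    rw [← mul_assoc, ← ezz, add_mul, smul_mul_assoc, smul_mul_assoc, qy, ry, smul_zero, add_zero]
  have wz : z * y * z = ν • g := by
    rw [mul_assoc, ← eyz, mul_add, mul_smul_comm, mul_smul_comm, zq, smul_zero, zero_add]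
  have hsp1 : D.g 3 ≤ span k ({e, g, h} : Set S) := by
    rw [show 3 = 1 + 2 by rfl, ← D.mul_g, hg1, hqr]
    refine span_mul_span_le ?_
    have m1 : e ∈ span k ({e, g, h} : Set S) := subset_span (Set.mem_insert _ _)
    have m2 : g ∈ span k ({e, g, h} : Set S) :=
      subset_span (Set.mem_insert_of_mem _ (Set.mem_insert _ _))
    have m3 : h ∈ span k ({e, g, h} : Set S) :=
      subset_span (Set.mem_insert_of_mem _ (Set.mem_insert_of_mem _ rfl))
    intro a ha b hb
    simp only [Set.mem_insert_iff, Set.mem_singleton_iff] at ha hb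
    rcases ha with rfl | rfl | rfl <;> rcases hb with rfl | rfl | rfl
    · rw [xq]; exact zero_mem _
    · rw [xr]; exact zero_mem _
    · exact m1
    · exact m3
    · rw [yr]; exact zero_mem _
    · rw [yw]; exact Submodule.smul_mem _ _ m1
    · rw [zq]; exact zero_mem _
    · exact m2
    · rw [zw]; exact Submodule.smul_mem _ _ m1
  set f := x * g with hf
  have xe : x * e = 0 := by rw [he, ← mul_assoc, xx, zero_mul]
  have xh : x * h = 0 := by rw [hh, ← mul_assoc, xy, zero_mul]
  have h0 : h = 0 := by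
    by_contra hne
    have hβ : β = μ := by
      by_contra hb
      apply hne
      have l1 : y * (y * z) = μ • h := by
        rw [← eyz, mul_add, mul_smul_comm, mul_smul_comm, yr, smul_zero, add_zero]
      have l2 : y * y * z = β • h := by
        rw [← eyy, add_mul, smul_mul_assoc, smul_mul_assoc, qz, rz, smul_zero, zero_add]
      have : (β - μ) • h = 0 := by rw [sub_smul, ← l1, ← l2, mul_assoc, sub_self]
      exact (smul_eq_zero.1 this).resolve_left (sub_ne_zero.2 hb)
    have hν : ν = γ := by
      by_contra hb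
      apply hne
      have l1 : y * z * z = ν • h := by
        rw [← eyz, add_mul, smul_mul_assoc, smul_mul_assoc, qz, rz, smul_zero, zero_add]
      have l2 : y * (z * z) = γ • h := by
        rw [← ezz, mul_add, mul_smul_comm, mul_smul_comm, yr, smul_zero, add_zero]
      have : (ν - γ) • h = 0 := by rw [sub_smul, ← l1, ← l2, mul_assoc, sub_self]
      exact (smul_eq_zero.1 this).resolve_left (sub_ne_zero.2 hb)
    have hsp2 : D.g 3 ≤ span k ({e - g, h - e} : Set S) := by
      refine h3.trans ?_
      rw [hg1]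
      refine commSub_span_le hqr.le ?_
      have m1 : e - g ∈ span k ({e - g, h - e} : Set S) := subset_span (Set.mem_insert _ _)
      have m2 : h - e ∈ span k ({e - g, h - e} : Set S) :=
        subset_span (Set.mem_insert_of_mem _ rfl)
      intro a ha b hb
      simp only [Set.mem_insert_iff, Set.mem_singleton_iff] at ha hb
      rcases ha with rfl | rfl | rfl <;> rcases hb with rfl | rfl | rfl
      · rw [xq, qx, sub_self]; exact zero_mem _
      · rw [xr, rx, sub_self]; exact zero_mem _
      · rw [wx']; exact m1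
      · rw [qy]; exact m2
      · rw [yr, ry, sub_self]; exact zero_mem _
      · rw [yw, wy, hβ, ← smul_sub]; exact Submodule.smul_mem _ _ m1
      · rw [zq, qz, sub_self]; exact zero_mem _
      · rw [rz, show g - h = -(e - g) - (h - e) by abel]
        exact sub_mem (neg_mem m1) m2
      · rw [zw, wz, hν, ← smul_sub]; exact Submodule.smul_mem _ _ m1
    have he3 : e ∈ D.g 3 := D.mul_mem12 hx (D.mul_mem11 hz hy)
    obtain ⟨a, b, eab⟩ := mem_span_pair.1 (hsp2 he3)
    have hfne : f ≠ 0 := fun hf0 => hxne (D.eq_zero_left (i := 1) (j := 3) (by omega) hx fun t ht => by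
      obtain ⟨c1, c2, c3, rfl⟩ := mem_span_triple.1 (hsp1 ht)
      simp [mul_add, mul_smul_comm, xe, xh, ← hf, hf0])
    have ex : e * x = f := by rw [he, hf, hg, mul_assoc, mul_assoc]
    have gx : g * x = 0 := by rw [hg, mul_assoc, rx, mul_zero]
    have hx' : h * x = 0 := by rw [hh, mul_assoc, qx, mul_zero]
    have l1 := congrArg (fun t => x * t) eab
    simp only [mul_add, mul_smul_comm, mul_sub, xe, xh, ← hf, sub_self, smul_zero, add_zero,
      zero_sub, smul_neg, neg_eq_zero] at l1
    have ha : a = 0 := (smul_eq_zero.1 l1).resolve_right hfne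
    rw [ha, zero_smul, zero_add] at eab
    have l2 := congrArg (fun t => t * x) eab
    simp only [smul_mul_assoc, sub_mul, ex, hx', zero_sub, smul_neg] at l2
    have hb : b + 1 = 0 := by
      refine (smul_eq_zero.1 (?_ : (b + 1) • f = 0)).resolve_right hfne
      rw [add_smul, one_smul]
      nth_rewrite 2 [← l2]
      exact add_neg_cancel _
    rw [eq_neg_of_add_eq_zero_left hb, neg_smul, one_smul, neg_sub, sub_eq_self] at eab
    exact hne eab
  have hsp : D.g 3 ≤ span k ({e, g} : Set S) := by
    refine hsp1.trans (span_le.2 ?_)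
    simp only [Set.insert_subset_iff, Set.singleton_subset_iff, SetLike.mem_coe, h0, zero_mem]
    exact ⟨subset_span (Set.mem_insert _ _), subset_span (Set.mem_insert_of_mem _ rfl), trivial⟩
  have ye : y * e = 0 := by rw [he, ← mul_assoc, ← mul_assoc, rz, h0, zero_mul]
  have ze : z * e = 0 := by rw [he, ← mul_assoc, zx, zero_mul]
  have ex : e * x = f := by rw [he, hf, hg, mul_assoc, mul_assoc]
  have yg : y * g = μ • f := by
    rw [hg, show y * (z * (y * x)) = y * (z * y) * x by simp only [mul_assoc], yw, smul_mul_assoc,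
      ex]
  have zg : z * g = γ • f := by
    rw [hg, show z * (z * (y * x)) = z * (z * y) * x by simp only [mul_assoc], zw, smul_mul_assoc,
      ex]
  have hsp4 : D.g 4 ≤ span k ({f} : Set S) := by
    rw [show 4 = 1 + 3 by rfl, ← D.mul_g, hg1]
    refine (mul_le_mul' le_rfl hsp).trans (span_mul_span_le ?_)
    have mf : f ∈ span k ({f} : Set S) := mem_span_singleton_self _
    intro a ha b hb
    simp only [Set.mem_insert_iff, Set.mem_singleton_iff] at ha hb
    rcases ha with rfl | rfl | rfl <;> rcases hb with rfl | rfl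
    · rw [xe]; exact zero_mem _
    · exact mf
    · rw [ye]; exact zero_mem _
    · rw [yg]; exact Submodule.smul_mem _ _ mf
    · rw [ze]; exact zero_mem _
    · rw [zg]; exact Submodule.smul_mem _ _ mf
  have := finrank_le_one_of_le_singleton hsp4
  have := hD.finrank_g_ge (i := 4) (by omega) (by omega)
  omega

theorem false_of_two_ker_left (hD : Base D) (hs2 : finrank k (D.g 2) = 3)
    (h3 : D.g 3 ≤ commSub (D.g 1) (D.g 2)) {x a b : S} (hx : x ∈ D.g 1) (hne : x ≠ 0)
    (ha : a ∈ D.g 1) (hb : b ∈ D.g 1) (hab : LinearIndependent k ![a, b]) (xa : x * a = 0)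
    (xb : x * b = 0) : False := by
  have hN := hD.hN
  obtain ⟨y, hy, z, hz, hi, xx, xy⟩ := hD.exists_adapted hx hne ha hb hab xa xb
  clear a b ha hb hab xa xb
  have hyne : y ≠ 0 := hi.ne_zero 1
  have hg1 := hD.g1_eq hx hy hz hi
  have xq : x * (x * z) = 0 := by rw [← mul_assoc, xx, zero_mul]
  have xr : x * (y * x) = 0 := by rw [← mul_assoc, xy, zero_mul]
  have rx : y * x * x = 0 := by rw [mul_assoc, xx, mul_zero]
  have ry : y * x * y = 0 := by rw [mul_assoc, xy, mul_zero]
  have hq0 : x * z ≠ 0 := fun h => hne (D.eq_zero_left (i := 1) (j := 1) (by omega) hx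
    fun t ht => by
      obtain ⟨c1, c2, c3, rfl⟩ := mem_span_triple.1 (hg1 ▸ ht)
      simp [mul_add, mul_smul_comm, xx, xy, h])
  have hcomm : D.g 2 ≤ span k ({x * y - y * x, x * z - z * x, y * z - z * y} : Set S) :=
    hD.g2_le hx hy hz hi
  have hr0 : y * x ≠ 0 := by
    intro h
    have : D.g 2 ≤ span k ({x * z - z * x, y * z - z * y} : Set S) := by
      refine hcomm.trans (span_le.2 ?_)
      simp only [Set.insert_subset_iff, Set.singleton_subset_iff, SetLike.mem_coe, xy, h, sub_self,
        zero_mem, true_and]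
      exact ⟨subset_span (Set.mem_insert _ _), subset_span (Set.mem_insert_of_mem _ rfl)⟩
    have := (Submodule.finrank_mono this).trans (finrank_span_pair_le _ _)
    omega
  by_cases hqr : x * z ∈ span k ({y * x} : Set S)
  · obtain ⟨t, ht⟩ := mem_span_singleton.1 hqr
    refine hne (hD.kill_left hx hx hy hz hi ?_ ?_ ?_)
    · rw [mul_sub, ← mul_assoc, xx, zero_mul, xr, sub_zero]
    · rw [mul_sub, xq, zero_sub, neg_eq_zero, ← mul_assoc, ← ht, smul_mul_assoc, rx, smul_zero]
    · rw [mul_sub, ← mul_assoc, xy, zero_mul, zero_sub, neg_eq_zero, ← mul_assoc, ← ht,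
        smul_mul_assoc, ry, smul_zero]
  have hqr2 : LinearIndependent k ![y * x, x * z] := linearIndependent_pair_of_not_mem hr0 hqr
  have hker : ∀ c ∈ D.g 2, x * c = 0 → c ∈ span k ({x * z, y * x} : Set S) := by
    intro c hc hc0
    by_contra hcn
    rw [Set.pair_comm] at hcn
    have he := le_span_triple hs2.le (D.mul_mem11 hy hx) (D.mul_mem11 hx hz) hc
      (linearIndependent_triple hqr2 hcn)
    refine hne (hD.eq_zero_of_kill_g2_left hx fun d hd => ?_)
    obtain ⟨c1, c2, c3, rfl⟩ := mem_span_triple.1 (he ▸ hd)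
    simp [mul_add, mul_smul_comm, xq, xr, hc0]
  have hyy := hker _ (D.mul_mem11 hy hy) (by rw [← mul_assoc, xy, zero_mul])
  have hyz := hker _ (D.mul_mem11 hy hz) (by rw [← mul_assoc, xy, zero_mul])
  have hw : z * y ∉ span k ({x * z, y * x} : Set S) := by
    intro hw
    obtain ⟨c1, c2, ew⟩ := mem_span_pair.1 hw
    obtain ⟨d1, d2, eyz⟩ := mem_span_pair.1 hyz
    have qy : x * z * y = 0 := by
      rw [mul_assoc, ← ew, mul_add, mul_smul_comm, mul_smul_comm, xq, xr, smul_zero, smul_zero,
        add_zero]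
    refine hyne (hD.kill_right hy hx hy hz hi ?_ ?_ ?_)
    · rw [xy, zero_sub, neg_mul, ry, neg_zero]
    · rw [sub_mul, qy, mul_assoc z x y, xy, mul_zero, sub_zero]
    · rw [sub_mul, ← eyz, ← ew]
      simp [add_mul, smul_mul_assoc, qy, ry]
  have hg2 : D.g 2 = span k ({x * z, y * x, z * y} : Set S) := by
    refine le_span_triple hs2.le (D.mul_mem11 hx hz) (D.mul_mem11 hy hx) (D.mul_mem11 hz hy) ?_
    refine linearIndependent_triple ?_ hw
    exact LinearIndependent.pair_symm_iff.1 hqr2
  obtain ⟨a, b, c, ezx⟩ := mem_span_triple.1 (hg2 ▸ D.mul_mem11 hz hx)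
  set e := x * (z * y) with he
  have hene : e ≠ 0 := fun h => hw (hker _ (D.mul_mem11 hz hy) h)
  have qy : x * z * y = e := mul_assoc _ _ _
  have h1 : z * x * y = 0 := by rw [mul_assoc, xy, mul_zero]
  have h2 : z * x * x = 0 := by rw [mul_assoc, xx, mul_zero]
  rcases eq_or_ne c 0 with rfl | hc
  · rw [zero_smul, add_zero] at ezx
    rw [← ezx] at h1
    simp only [add_mul, smul_mul_assoc, qy, ry, smul_zero, add_zero] at h1
    rw [(smul_eq_zero.1 h1).resolve_right hene, zero_smul, zero_add] at ezx
    set z' := z - b • y with hz'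
    have hz'1 : z' ∈ D.g 1 := sub_mem hz (Submodule.smul_mem _ _ hy)
    have hi' : LinearIndependent k ![x, y, z'] := by
      refine linearIndependent_triple ?_ fun hmem => ?_
      · refine LinearIndependent.pair_iff.2 fun s t hst => ?_
        have h := Fintype.linearIndependent_iff.1 hi ![s, t, 0] (by
          simpa [Fin.sum_univ_three] using hst)
        exact ⟨h 0, h 1⟩
      · obtain ⟨s, t, hst⟩ := mem_span_pair.1 hmem
        have h := Fintype.linearIndependent_iff.1 hi ![s, t + b, -1] (by
          simp only [Fin.sum_univ_three, Matrix.cons_val_zero, Matrix.cons_val_one,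
            Matrix.cons_val_two, Matrix.head_cons, Matrix.tail_cons]
          rw [add_smul, neg_smul, one_smul, ← add_assoc (s • x), hst, hz']
          abel) 2
        simp at h
    have hxz' : x * z' = x * z := by rw [hz', mul_sub, mul_smul_comm, xy, smul_zero, sub_zero]
    have hyz' : y * z' ∈ span k ({x * z, y * x} : Set S) := by
      rw [hz', mul_sub, mul_smul_comm]
      exact sub_mem hyz (Submodule.smul_mem _ _ hyy)
    have hzy' : z' * y ∉ span k ({x * z, y * x} : Set S) := by
      intro hmem
      apply hw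
      have := add_mem hmem (Submodule.smul_mem _ b hyy)
      rwa [hz', sub_mul, smul_mul_assoc, sub_add_cancel] at this
    refine hD.false_of_normal_form hs2 h3 hx hy hz'1 hi' xx xy ?_ ?_ (hxz'.symm ▸ hyy)
      (hxz'.symm ▸ hyz')
    · rw [hz', sub_mul, smul_mul_assoc, ← ezx, sub_self]
    · rw [hxz']
      refine le_span_triple hs2.le (D.mul_mem11 hx hz) (D.mul_mem11 hy hx)
        (D.mul_mem11 hz'1 hy) ?_
      exact linearIndependent_triple (LinearIndependent.pair_symm_iff.1 hqr2) hzy'
  -- the remaining case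
  set W := span k ({e} : Set S) with hW
  have me : e ∈ W := mem_span_singleton_self _
  have qx : x * z * x = c • e := by
    rw [mul_assoc, ← ezx]
    simp [mul_add, mul_smul_comm, xq, xr, ← he]
  have wy : c • (z * y * y) = -(a • e) := by
    rw [← ezx] at h1
    simp only [add_mul, smul_mul_assoc, qy, ry, smul_zero, add_zero] at h1
    exact eq_neg_of_add_eq_zero_right h1
  have wx : c • (z * y * x) = -(a • c • e) := by
    rw [← ezx] at h2
    simp only [add_mul, smul_mul_assoc, qx, rx, smul_zero, add_zero] at h2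
    exact eq_neg_of_add_eq_zero_right h2
  have hkx : ∀ d ∈ D.g 2, d * x ∈ W := by
    intro d hd
    obtain ⟨c1, c2, c3, rfl⟩ := mem_span_triple.1 (hg2 ▸ hd)
    simp only [add_mul, smul_mul_assoc, qx, rx, smul_zero, add_zero]
    refine add_mem (W.smul_mem _ (W.smul_mem _ me)) (W.smul_mem _ ?_)
    rw [← inv_smul_smul₀ hc (z * y * x), wx]
    exact W.smul_mem _ (neg_mem (W.smul_mem _ (W.smul_mem _ me)))
  have hky : ∀ d ∈ D.g 2, d * y ∈ W := by
    intro d hd
    obtain ⟨c1, c2, c3, rfl⟩ := mem_span_triple.1 (hg2 ▸ hd)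
    simp only [add_mul, smul_mul_assoc, qy, ry, smul_zero, add_zero]
    refine add_mem (W.smul_mem _ me) (W.smul_mem _ ?_)
    rw [← inv_smul_smul₀ hc (z * y * y), wy]
    exact W.smul_mem _ (neg_mem (W.smul_mem _ me))
  rcases eq_or_ne a 0 with rfl | ha
  · have wy0 : z * y * y = 0 := by
      rw [zero_smul, neg_zero] at wy
      exact (smul_eq_zero.1 wy).resolve_left hc
    have wx0 : z * y * x = 0 := by
      rw [zero_smul, neg_zero] at wx
      exact (smul_eq_zero.1 wx).resolve_left hc
    have hk' : x - c • y = 0 := by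
      refine hD.eq_zero_of_kill_g2_right (sub_mem hx (Submodule.smul_mem _ _ hy)) fun d hd => ?_
      obtain ⟨c1, c2, c3, rfl⟩ := mem_span_triple.1 (hg2 ▸ hd)
      simp [add_mul, mul_sub, smul_mul_assoc, mul_smul_comm, qx, qy, rx, ry, wx0, wy0]
      rw [smul_comm c c1, sub_self]
    have h := Fintype.linearIndependent_iff.1 hi ![1, -c, 0] (by
      simp [Fin.sum_univ_three, ← sub_eq_add_neg, hk']) 0
    simp at h
  have yr : y * (y * x) ∈ W := by rw [← mul_assoc]; exact hkx _ (D.mul_mem11 hy hy)
  have yw : y * (z * y) ∈ W := by rw [← mul_assoc]; exact hky _ (D.mul_mem11 hy hz)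
  have zr : z * (y * x) ∈ W := by rw [← mul_assoc]; exact hkx _ (D.mul_mem11 hz hy)
  have zw : z * (z * y) ∈ W := by rw [← mul_assoc]; exact hky _ (D.mul_mem11 hz hz)
  have solve : ∀ v : S, v * (z * x) ∈ W → v * (y * x) ∈ W → v * (z * y) ∈ W →
      v * (x * z) ∈ W := by
    intro v h0 h1' h2'
    have : a • (v * (x * z)) = v * (z * x) - b • (v * (y * x)) - c • (v * (z * y)) := by
      rw [← ezx]; simp only [mul_add, mul_smul_comm]; abel
    rw [← inv_smul_smul₀ ha (v * (x * z)), this]
    exact W.smul_mem _ (sub_mem (sub_mem h0 (W.smul_mem _ h1')) (W.smul_mem _ h2'))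
  have yq : y * (x * z) ∈ W :=
    solve y (by rw [← mul_assoc]; exact hkx _ (D.mul_mem11 hy hz)) yr yw
  have zq : z * (x * z) ∈ W :=
    solve z (by rw [← mul_assoc]; exact hkx _ (D.mul_mem11 hz hz)) zr zw
  have hsp : D.g 3 ≤ W := by
    rw [show 3 = 1 + 2 by rfl, ← D.mul_g, hg1, hg2]
    refine span_mul_span_le ?_
    intro u hu v hv
    simp only [Set.mem_insert_iff, Set.mem_singleton_iff] at hu hv
    rcases hu with rfl | rfl | rfl <;> rcases hv with rfl | rfl | rfl
    · rw [xq]; exact zero_mem _
    · rw [xr]; exact zero_mem _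
    · exact me
    · exact yq
    · exact yr
    · exact yw
    · exact zq
    · exact zr
    · exact zw
  have := finrank_le_one_of_le_singleton hsp
  have := hD.finrank_g_ge (i := 3) (by omega) (by omega)
  omega

end Base

end CfsgLib.SymLocalFive
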